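import Cfsg.Agent.Lib.Block.V4Order
import Cfsg.Agent.Lib.H3.Taussky2
import Cfsg.Agent.Lib.Trans.Thompson

/-! # A characterization of the alternating group of degree five -/

set_option autoImplicit false
set_option linter.unusedSectionVars false
set_option linter.unusedVariables false

namespace CfsgLib.Block

open Cfsg CfsgLib.Char
open scoped ComplexConjugate Pointwise

universe u

section Embed

variable {G : Type u} [Group G] [Finite G]

theorem simple_perm_embed [IsSimpleGroup G] (H : Subgroup G) (hH : H ≠ ⊤) :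
    ∃ φ : G →* Equiv.Perm (Fin H.index), Function.Injective φ := by
  classical
  let f := MulAction.toPermHom G (G ⧸ H)
  have hker : f.ker = H.normalCore := (Subgroup.normalCore_eq_ker H).symm
  have hn : f.ker.Normal := inferInstance
  have hbot : f.ker = ⊥ := by
    rcases hn.eq_bot_or_eq_top with h | h
    · exact h
    · exfalso
      apply hH
      rw [eq_top_iff, ← h, hker]
      exact Subgroup.normalCore_le H
  letI : Fintype (G ⧸ H) := Fintype.ofFinite _
  let e : (G ⧸ H) ≃ Fin H.index := Fintype.equivFinOfCardEq (by rw [← Nat.card_eq_fintype_card]; rfl)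
  refine ⟨(Equiv.permCongrHom e).toMonoidHom.comp f, ?_⟩
  intro a b hab
  have h1 : f a = f b := (Equiv.permCongrHom e).injective hab
  exact (MonoidHom.ker_eq_bot_iff f).1 hbot h1

end Embed

section Two

variable {G : Type u} [Group G] [Finite G]

/-- Unique involution in a cyclic group. -/
theorem inv_unique_of_zpowers {a y : G} {m : ℕ} (hm : orderOf a = 2 * m) (hy : y ∈ Subgroup.zpowers a) (hy2 : y * y = 1) (hy1 : y ≠ 1) :
    y = a ^ m := by
  obtain ⟨j, hj⟩ := Subgroup.mem_zpowers_iff.1 hy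
  subst hj
  have h1 : a ^ (2 * j) = 1 := by rw [two_mul, zpow_add]; exact hy2
  have h2 : (orderOf a : ℤ) ∣ 2 * j := orderOf_dvd_iff_zpow_eq_one.2 h1
  rw [hm] at h2
  push_cast at h2
  have h3 : (m : ℤ) ∣ j := (mul_dvd_mul_iff_left two_ne_zero).1 h2
  obtain ⟨q, rfl⟩ := h3
  have h4 : a ^ m * a ^ m = 1 := by rw [← pow_add, ← two_mul, ← hm, pow_orderOf_eq_one]
  have h5 : (a ^ m) ^ 2 = 1 := by rw [pow_two, h4]
  rcases Int.even_or_odd' q with ⟨r, rfl | rfl⟩
  · exfalso
    apply hy1
    have : a ^ ((m : ℤ) * (2 * r)) = ((a ^ m) ^ 2) ^ r := by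
      rw [zpow_mul, zpow_mul, zpow_natCast, zpow_two, pow_two]
    rw [this, h5, one_zpow]
  · have : a ^ ((m : ℤ) * (2 * r + 1)) = ((a ^ m) ^ 2) ^ r * a ^ m := by
      rw [mul_add, mul_one, zpow_add, zpow_mul, zpow_mul, zpow_natCast, zpow_two, pow_two]
    rw [this, h5, one_zpow, one_mul]

/-- A 2-group with a cyclic subgroup of index two and a "non-central" involution. -/
theorem thompson_cent (hs : ∀ M : Subgroup G, M.Normal → M.index = 2 → False) (T : Sylow 2 G) {x a : G} {m : ℕ}
    (hxT : x ∈ (T : Subgroup G)) (hx : orderOf x = 2) (haT : a ∈ (T : Subgroup G))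
    (hord : 2 * orderOf a = Nat.card T) (hm : orderOf a = 2 * m) :
    ∃ g : G, ∀ t ∈ (T : Subgroup G), g⁻¹ * t * g ∈ Subgroup.centralizer ({x} : Set G) := by
  classical
  set Q₀ : Subgroup G := Subgroup.zpowers a with hQ₀
  have hQ₀T : Q₀ ≤ (T : Subgroup G) := by
    rw [hQ₀, Subgroup.zpowers_le]
    exact haT
  have hQi : Q₀.relIndex (T : Subgroup G) = 2 := by
    have h1 : Nat.card Q₀ * Q₀.relIndex (T : Subgroup G) = Nat.card (T : Subgroup G) :=
      CfsgLib.Trans.card_mul_relIndex hQ₀T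
    rw [hQ₀, Nat.card_zpowers] at h1
    rw [hQ₀]
    have h2 : Nat.card (T : Subgroup G) = 2 * orderOf a := hord.symm
    rw [h2, mul_comm 2] at h1
    exact Nat.eq_of_mul_eq_mul_left (orderOf_pos a) h1
  set z := a ^ m with hz
  have hm0 : m ≠ 0 := by
    rintro rfl
    have := orderOf_pos a
    omega
  have hz1 : z ≠ 1 := by
    intro h
    have := orderOf_dvd_of_pow_eq_one h
    rw [hm] at this
    have h3 := Nat.le_of_dvd (Nat.pos_of_ne_zero hm0) this
    omega
  have hzz : z * z = 1 := by rw [hz, ← pow_add, ← two_mul, ← hm, pow_orderOf_eq_one]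
  have hzQ : z ∈ Q₀ := (Subgroup.zpowers a).pow_mem (Subgroup.mem_zpowers a) m
  haveI hQn : (Q₀.subgroupOf (T : Subgroup G)).Normal := Subgroup.normal_of_index_eq_two hQi
  have hzcent : ∀ t ∈ (T : Subgroup G), t * z * t⁻¹ = z := by
    intro t ht
    have h1 : t * z * t⁻¹ ∈ Q₀ := by
      have := hQn.conj_mem ⟨z, hQ₀T hzQ⟩ (Subgroup.mem_subgroupOf.2 hzQ) ⟨t, ht⟩
      exact Subgroup.mem_subgroupOf.1 this
    apply inv_unique_of_zpowers hm h1
    · calc t * z * t⁻¹ * (t * z * t⁻¹) = t * (z * z) * t⁻¹ := by group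
        _ = 1 := by rw [hzz]; group
    · intro h
      apply hz1
      have : t⁻¹ * (t * z * t⁻¹) * t = t⁻¹ * 1 * t := by rw [h]
      simpa [mul_assoc] using this
  have hxx := sq_of_order_two hx
  have hx1 := ne_one_of_order_two hx
  by_cases hxQ : x ∈ Q₀
  · have hxz : x = z := inv_unique_of_zpowers hm hxQ hxx hx1
    refine ⟨1, fun t ht => ?_⟩
    rw [Subgroup.mem_centralizer_singleton_iff]
    simp only [inv_one, one_mul, mul_one]
    have := hzcent t ht
    rw [← hxz, mul_inv_eq_iff_eq_mul] at this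
    exact this
  · rcases CfsgLib.Trans.thompson_transfer T Q₀ hQ₀T hQi x hx hxT hxQ with ⟨M, hMn, hMi, -⟩ | ⟨g, hg⟩
    · exact (hs M hMn hMi).elim
    · have hgx : g * x * g⁻¹ = z := by
        apply inv_unique_of_zpowers hm hg
        · calc g * x * g⁻¹ * (g * x * g⁻¹) = g * (x * x) * g⁻¹ := by group
            _ = 1 := by rw [hxx]; group
        · intro h
          apply hx1
          have : g⁻¹ * (g * x * g⁻¹) * g = g⁻¹ * 1 * g := by rw [h]
          simpa [mul_assoc] using this
      refine ⟨g, fun t ht => ?_⟩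
      rw [Subgroup.mem_centralizer_singleton_iff]
      have h1 := hzcent t ht
      rw [← hgx] at h1
      have h2 : g⁻¹ * t * g * x = x * (g⁻¹ * t * g) := by
        have h3 : t * (g * x * g⁻¹) = (g * x * g⁻¹) * t := by
          rwa [mul_inv_eq_iff_eq_mul] at h1
        have h4 : g⁻¹ * (t * (g * x * g⁻¹)) * g = g⁻¹ * ((g * x * g⁻¹) * t) * g := by rw [h3]
        calc g⁻¹ * t * g * x = g⁻¹ * (t * (g * x * g⁻¹)) * g := by group
          _ = g⁻¹ * ((g * x * g⁻¹) * t) * g := h4
          _ = x * (g⁻¹ * t * g) := by group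
      exact h2

end Two

section Arith

theorem a5_arith1 {a q h : ℕ} (hq : q = 2 * a + 1) (h1 : 4 * a * q = h * (a + 1) ^ 2) (ha : 1 ≤ a) : a = 1 ∧ h = 3 := by
  have hc1 : Nat.Coprime (a + 1) a := by
    have : Nat.gcd (a + 1) a ∣ 1 := by
      have h2 : Nat.gcd (a + 1) a ∣ a + 1 := Nat.gcd_dvd_left _ _
      exact (Nat.dvd_add_right (Nat.gcd_dvd_right _ _)).1 h2
    exact Nat.dvd_one.1 this
  have hc2 : Nat.Coprime (a + 1) q := by
    have : Nat.gcd (a + 1) q ∣ 1 := by
      have h2 : Nat.gcd (a + 1) q ∣ q + 1 := by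
        have : q + 1 = 2 * (a + 1) := by omega
        rw [this]
        exact (Nat.gcd_dvd_left _ _).trans (dvd_mul_left _ _)
      exact (Nat.dvd_add_right (Nat.gcd_dvd_right _ _)).1 h2
    exact Nat.dvd_one.1 this
  have hc3 : Nat.Coprime ((a + 1) ^ 2) (a * q) := Nat.Coprime.pow_left _ (Nat.Coprime.mul_right hc1 hc2)
  have h2 : (a + 1) ^ 2 ∣ 4 := by
    apply hc3.dvd_of_dvd_mul_right
    have : 4 * (a * q) = h * (a + 1) ^ 2 := by rw [← h1]; ring
    rw [this]
    exact dvd_mul_left _ _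
  have h3 : (a + 1) ^ 2 ≤ 4 := Nat.le_of_dvd (by norm_num) h2
  have h4 : a = 1 := by nlinarith
  subst h4
  subst hq
  refine ⟨rfl, ?_⟩
  omega

theorem a5_arith2 {c c' k : ℕ} (hc : c % 4 = 2) (hc' : c' % 4 = 2) (hk : 1 ≤ k)
    (h : 8 * ((c + 1) * (c' + 1)) = k * (c + 1 + (c' + 1)) * c * c') : c = 2 ∧ c' = 2 ∧ k = 3 := by
  have h2c : 2 ≤ c := by omega
  have h2c' : 2 ≤ c' := by omega
  have hb1 : 2 * (c + 1) ≤ 3 * c := by omega
  have hb2 : 2 * (c' + 1) ≤ 3 * c' := by omega
  have hb3 : 4 * ((c + 1) * (c' + 1)) ≤ 9 * (c * c') := by nlinarith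
  have hbound : k * (c + 1 + (c' + 1)) ≤ 18 := by
    by_contra hcon
    push Not at hcon
    have hpos : 0 < (c + 1) * (c' + 1) := by positivity
    have h3 : 72 * ((c + 1) * (c' + 1)) = 9 * (k * (c + 1 + (c' + 1))) * (c * c') := by
      calc 72 * ((c + 1) * (c' + 1)) = 9 * (8 * ((c + 1) * (c' + 1))) := by ring
        _ = 9 * (k * (c + 1 + (c' + 1)) * c * c') := by rw [h]
        _ = 9 * (k * (c + 1 + (c' + 1))) * (c * c') := by ring
    have h4 : 19 * (4 * ((c + 1) * (c' + 1))) ≤ (k * (c + 1 + (c' + 1))) * (9 * (c * c')) := by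
      exact Nat.mul_le_mul hcon hb3
    nlinarith
  have hs : c + 1 + (c' + 1) ≤ 18 := by nlinarith
  have hc1 : c ≤ 16 := by omega
  have hc2 : c' ≤ 16 := by omega
  have hk' : k ≤ 18 := by nlinarith
  interval_cases c <;> first | omega | skip
  all_goals (interval_cases c' <;> first | omega | skip)
  all_goals (interval_cases k <;> omega)

end Arith

section Index

variable {G : Type u} [Group G] [Fintype G] {M : Ideal AlgInt} (hM : IsPModular 2 M)

include hM

open Classical in
theorem a5_index (hV : V4S G) (hone : ∀ s t : G, orderOf s = 2 → orderOf t = 2 → IsConj s t) (T : Sylow 2 G) {x : G}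
    (hxT : x ∈ (T : Subgroup G)) (hx : orderOf x = 2)
    (hcent : ∀ y ∈ Subgroup.centralizer ({x} : Set G), ∀ t ∈ (T : Subgroup G), y * t = t * y) :
    (Subgroup.centralizer ({x} : Set G)).index = 3 ∨ (Subgroup.centralizer ({x} : Set G)).index = 15 := by
  obtain ⟨d, ζ₂, ζ₃, ζ₄, ε, hε, h21, h31, h41, h23, h24, h34, hfilter, hd1, hd2, hd3, hd4, hd0, hdpm, hval, hodd, horth, hdeg⟩ :=
    v4_main hM hV hone hx
  have hone' : ∀ χ : IrrCharacter G, χ = oneIrr G ↔ (χ : G → ℂ) = (fun _ => 1) := by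
    intro χ
    constructor
    · rintro rfl
      rfl
    · intro h
      exact Subtype.ext h
  have hB : principalBlock M G = {χ : IrrCharacter G | (χ : G → ℂ) = (fun _ => 1) ∨ χ = ζ₂ ∨ χ = ζ₃ ∨ χ = ζ₄} := by
    ext χ
    have h := Finset.ext_iff.1 hfilter χ
    simp only [Finset.mem_filter, Finset.mem_univ, true_and, Finset.mem_insert, Finset.mem_singleton] at h
    rw [h, hone' χ]
    rfl
  have hmem : ∀ χ, χ = ζ₂ ∨ χ = ζ₃ ∨ χ = ζ₄ → χ ∈ principalBlock M G := by
    intro χ h
    rw [hB]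
    exact Or.inr h
  have hdvd : 2 ∣ orderOf x := by rw [hx]
  have hv2 : (ζ₂ : G → ℂ) x = 1 := by
    rw [hval ζ₂ (hmem _ (Or.inl rfl)) x hdvd, hd2]; simp
  have hv3 : (ζ₃ : G → ℂ) x = ε := by
    rw [hval ζ₃ (hmem _ (Or.inr (Or.inl rfl))) x hdvd, hd3]
  have hv4 : (ζ₄ : G → ℂ) x = -1 := by
    rw [hval ζ₄ (hmem _ (Or.inr (Or.inr rfl))) x hdvd, hd4]; simp
  have hdist : (ζ₂ : G → ℂ) ≠ (fun _ => 1) ∧ (ζ₃ : G → ℂ) ≠ (fun _ => 1) ∧ (ζ₄ : G → ℂ) ≠ (fun _ => 1) ∧ ζ₂ ≠ ζ₃ ∧ ζ₂ ≠ ζ₄ ∧ ζ₃ ≠ ζ₄ :=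
    ⟨fun h => h21 ((hone' _).2 h), fun h => h31 ((hone' _).2 h), fun h => h41 ((hone' _).2 h), h23, h24, h34⟩
  obtain ⟨S, hS, hmain, hrel, hm2, hm3, hm4⟩ := v4_formula_core (χ₁ := ζ₂) (χ₂ := ζ₃) (χ₃ := ζ₄) (ε₁ := 1) (ε₂ := ε) (ε₃ := -1) hM hV hone T hxT hx hB hdist
    ⟨Or.inl rfl, hε, Or.inr rfl⟩ ⟨by rw [hv2]; simp, by rw [hv3], by rw [hv4]; simp⟩
  have hcc : Subgroup.centralizer (((T : Subgroup G)) : Set G) = Subgroup.centralizer ({x} : Set G) := by
    ext y
    rw [Subgroup.mem_centralizer_iff]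
    constructor
    · intro h
      rw [Subgroup.mem_centralizer_singleton_iff]
      exact (h x hxT).symm
    · intro h t ht
      exact (hcent y h t ht).symm
  rw [hcc] at hS
  have hSeq : S = 2 := by
    have hpos : 0 < Nat.card (Subgroup.centralizer ({x} : Set G)) := Nat.card_pos
    have hp2 : 0 < Nat.card (Subgroup.centralizer ({x} : Set G)) ^ 2 := pow_pos hpos 2
    exact Nat.eq_of_mul_eq_mul_right hp2 hS
  subst hSeq
  set a := charDegree (ζ₂ : G → ℂ) with ha
  set b := charDegree (ζ₃ : G → ℂ) with hb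
  set c := charDegree (ζ₄ : G → ℂ) with hc
  set h := (Subgroup.centralizer ({x} : Set G)).index with hh
  have ha0 : ¬ 2 ∣ a := hodd ζ₂ (hmem _ (Or.inl rfl))
  have hb0 : ¬ 2 ∣ b := hodd ζ₃ (hmem _ (Or.inr (Or.inl rfl)))
  have hc0 : ¬ 2 ∣ c := hodd ζ₄ (hmem _ (Or.inr (Or.inr rfl)))
  have ha1 : 1 ≤ a := by
    rcases Nat.eq_zero_or_pos a with h0 | h0
    · rw [h0] at ha0
      exact absurd (dvd_zero 2) ha0
    · exact h0
  have hb1 : 1 ≤ b := by
    rcases Nat.eq_zero_or_pos b with h0 | h0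
    · rw [h0] at hb0
      exact absurd (dvd_zero 2) hb0
    · exact h0
  have hc1 : 1 ≤ c := by
    rcases Nat.eq_zero_or_pos c with h0 | h0
    · rw [h0] at hc0
      exact absurd (dvd_zero 2) hc0
    · exact h0
  rcases hε with rfl | rfl
  · left
    have hab : a = b := by
      have := v4_conj_pair (χ₁ := ζ₂) (χ₂ := ζ₃) (χ₃ := ζ₄) hM hV hone hx hB hdist hv2 (by rw [hv3]; simp) hv4
      exact this
    have hq : c = 2 * a + 1 := by
      have : (1 : ℤ) + 1 * a + 1 * b + -1 * c = 0 := hrel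
      rw [← hab] at this
      zify
      linarith
    have hmm : (4 * 2 : ℤ) * ((a : ℤ) * b * c) = (h : ℤ) * ((a : ℤ) * b * c + 1 * b * c + 1 * a * c + -1 * a * b) := by
      exact_mod_cast hmain
    rw [← hab] at hmm
    have hfin : 4 * a * c = h * (a + 1) ^ 2 := by
      have ha' : (a : ℤ) ≠ 0 := by
        have : a ≠ 0 := by omega
        exact_mod_cast this
      have h2 : (2 * (a : ℤ)) * (4 * a * c) = (2 * (a : ℤ)) * (h * (a + 1) ^ 2) := by
        have hcz : (c : ℤ) = 2 * a + 1 := by exact_mod_cast hq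
        rw [hcz] at hmm ⊢
        linarith [hmm]
      have h3 := mul_left_cancel₀ (mul_ne_zero two_ne_zero ha') h2
      exact_mod_cast h3
    exact (a5_arith1 hq hfin ha1).2
  · right
    have hq : (1 : ℤ) + a - b - c = 0 := by
      have : (1 : ℤ) + 1 * a + (-1) * b + -1 * c = 0 := hrel
      linarith
    have hmm : (4 * 2 : ℤ) * ((a : ℤ) * b * c) = (h : ℤ) * ((a : ℤ) * b * c + 1 * b * c + (-1) * a * c + -1 * a * b) := by
      exact_mod_cast hmain
    have hdiv : a ∣ h := by
      have h1 := isIntegral_centralChar ζ₂.2 x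
      have h2 : centralChar (ζ₂ : G → ℂ) x = (h : ℂ) / (a : ℂ) := by
        rw [centralChar, hv2, mul_one, ← coe_charDegree ζ₂.2.isCharacter]
      rw [h2] at h1
      exact dvd_of_isIntegral_div ha1 h1
    obtain ⟨k, hk⟩ := hdiv
    have hk1 : 1 ≤ k := by
      rcases Nat.eq_zero_or_pos k with h0 | h0
      · exfalso
        rw [h0, mul_zero] at hk
        exact (Subgroup.index_ne_zero_of_finite (H := Subgroup.centralizer ({x} : Set G))) hk
      · exact h0
    obtain ⟨b', hb'⟩ : ∃ b', b = b' + 1 := ⟨b - 1, by omega⟩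
    obtain ⟨c', hc'⟩ : ∃ c', c = c' + 1 := ⟨c - 1, by omega⟩
    have hbm : b' % 4 = 2 := by
      have : (4 : ℤ) ∣ (b : ℤ) - (-1) := hm3
      rw [hb'] at this
      push_cast at this
      omega
    have hcm : c' % 4 = 2 := by
      have : (4 : ℤ) ∣ (c : ℤ) - (-1) := hm4
      rw [hc'] at this
      push_cast at this
      omega
    have hfin : 8 * ((b' + 1) * (c' + 1)) = k * (b' + 1 + (c' + 1)) * b' * c' := by
      have ha' : (a : ℤ) ≠ 0 := by
        have : a ≠ 0 := by omega
        exact_mod_cast this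
      have hbz : (b : ℤ) = b' + 1 := by exact_mod_cast hb'
      have hcz : (c : ℤ) = c' + 1 := by exact_mod_cast hc'
      have haz : (a : ℤ) = b' + c' + 1 := by
        rw [hbz, hcz] at hq
        linarith
      have hhz : (h : ℤ) = a * k := by exact_mod_cast hk
      have h2 : (a : ℤ) * (8 * ((b' + 1) * (c' + 1))) = (a : ℤ) * (k * (b' + 1 + (c' + 1)) * b' * c') := by
        rw [hhz, hbz, hcz] at hmm
        generalize (a : ℤ) = A at *
        subst haz
        linear_combination hmm
      have h3 := mul_left_cancel₀ ha' h2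
      exact_mod_cast h3
    obtain ⟨h1, h2, h3⟩ := a5_arith2 hbm hcm hk1 hfin
    have ha5 : (a : ℤ) = 5 := by
      have hbz : (b : ℤ) = 3 := by
        rw [hb', h1]; rfl
      have hcz : (c : ℤ) = 3 := by
        rw [hc', h2]; rfl
      rw [hbz, hcz] at hq
      linarith
    have ha5' : a = 5 := by exact_mod_cast ha5
    rw [hk, ha5', h3]

end Index

section Main

variable {G : Type u} [Group G] [Finite G]

/-- Elements of 2-power order in the centralizer lie in `S₀`. -/
theorem a5_two_mem {x : G} {S₀ : Subgroup G} (hodd : ¬ 2 ∣ S₀.relIndex (Subgroup.centralizer ({x} : Set G)))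
    (hn : (S₀.subgroupOf (Subgroup.centralizer ({x} : Set G))).Normal) {y : G}
    (hy : y ∈ Subgroup.centralizer ({x} : Set G)) {k : ℕ} (hk : orderOf y = 2 ^ k) : y ∈ S₀ := by
  haveI := hn
  have h : (orderOf (⟨y, hy⟩ : Subgroup.centralizer ({x} : Set G))).Coprime (S₀.subgroupOf (Subgroup.centralizer ({x} : Set G))).index := by
    rw [Subgroup.orderOf_mk, hk]
    exact Nat.Coprime.pow_left _ ((Nat.Prime.coprime_iff_not_dvd Nat.prime_two).2 hodd)
  exact Subgroup.mem_subgroupOf.1 (CfsgLib.Trans.mem_of_coprime_index _ h)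

theorem a5_sylow (hs : ∀ M : Subgroup G, M.Normal → M.index = 2 → False) (x : G) (hx : orderOf x = 2) (S₀ : Subgroup G)
    (hle : S₀ ≤ Subgroup.centralizer ({x} : Set G)) (hc : Nat.card S₀ = 4)
    (hodd : ¬ 2 ∣ S₀.relIndex (Subgroup.centralizer ({x} : Set G)))
    (hn : (S₀.subgroupOf (Subgroup.centralizer ({x} : Set G))).Normal) :
    x ∈ S₀ ∧ ∃ T : Sylow 2 G, (T : Subgroup G) = S₀ := by
  classical
  have hxC : x ∈ Subgroup.centralizer ({x} : Set G) := by
    rw [Subgroup.mem_centralizer_singleton_iff]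
  have hxS : x ∈ S₀ := a5_two_mem hodd hn hxC (k := 1) (by rw [hx]; rfl)
  refine ⟨hxS, ?_⟩
  have hS₀p : IsPGroup 2 S₀ := IsPGroup.of_card (n := 2) (by rw [hc]; rfl)
  obtain ⟨T, hT⟩ := hS₀p.exists_le_sylow
  refine ⟨T, ?_⟩
  have hTp : IsPGroup 2 (T : Subgroup G) := T.isPGroup'
  have horder : ∀ t ∈ (T : Subgroup G), ∃ k : ℕ, orderOf t = 2 ^ k := by
    intro t ht
    obtain ⟨k, hk⟩ := IsPGroup.iff_orderOf.1 hTp ⟨t, ht⟩
    exact ⟨k, by rwa [Subgroup.orderOf_mk] at hk⟩
  have hdvd : 4 ∣ Nat.card (T : Subgroup G) := by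
    rw [← hc]
    exact Subgroup.card_dvd_of_le hT
  -- the key reduction
  have hkey : (∃ g : G, ∀ t ∈ (T : Subgroup G), g⁻¹ * t * g ∈ Subgroup.centralizer ({x} : Set G)) → Nat.card (T : Subgroup G) ≤ 4 := by
    rintro ⟨g, hg⟩
    have hmap : ∀ t : (T : Subgroup G), g⁻¹ * (t : G) * g ∈ S₀ := by
      intro t
      obtain ⟨k, hk⟩ := horder t t.2
      refine a5_two_mem hodd hn (hg t t.2) (k := k) ?_
      have := orderOf_conj' (t : G) g⁻¹
      rw [inv_inv] at this
      rw [this, hk]
    rw [← hc]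
    refine Nat.card_le_card_of_injective (fun t => (⟨g⁻¹ * (t : G) * g, hmap t⟩ : S₀)) ?_
    intro t t' h
    have h1 : g⁻¹ * (t : G) * g = g⁻¹ * (t' : G) * g := congrArg Subtype.val h
    exact Subtype.ext (by simpa using h1)
  have hxT : x ∈ (T : Subgroup G) := hT hxS
  let x' : (T : Subgroup G) := ⟨x, hxT⟩
  have hx' : orderOf x' = 2 := by
    rw [Subgroup.orderOf_mk]
    exact hx
  have hcent : Nat.card (Subgroup.centralizer ({x'} : Set (T : Subgroup G))) = 4 := by
    rw [← hc]
    have hmap : (Subgroup.centralizer ({x'} : Set (T : Subgroup G))).map (T : Subgroup G).subtype = S₀ := by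
      ext y
      simp only [Subgroup.mem_map, Subgroup.subtype_apply]
      constructor
      · rintro ⟨z, hz, rfl⟩
        obtain ⟨k, hk⟩ := horder z z.2
        refine a5_two_mem hodd hn ?_ hk
        rw [Subgroup.mem_centralizer_singleton_iff] at hz ⊢
        exact congrArg Subtype.val hz
      · intro hy
        refine ⟨⟨y, hT hy⟩, ?_, rfl⟩
        rw [Subgroup.mem_centralizer_singleton_iff]
        have := hle hy
        rw [Subgroup.mem_centralizer_singleton_iff] at this
        exact Subtype.ext this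
    rw [← hmap]
    exact (Subgroup.card_map_of_injective (T : Subgroup G).subtype_injective).symm
  have hfour : Nat.card (T : Subgroup G) ≤ 4 := by
    rcases CfsgLib.Taussky.involution_cent_four hTp x' hx' hcent with ⟨n, ⟨e⟩⟩ | ⟨n, hn3, hcardn, x₀, y₀, hx₀, -, -⟩ | h4
    · have hcn : Nat.card (T : Subgroup G) = 2 * n := by
        rw [Nat.card_congr e.toEquiv, DihedralGroup.nat_card]
      let a : (T : Subgroup G) := e.symm (DihedralGroup.r 1)
      have hao : orderOf (a : G) = n := by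
        rw [Subgroup.orderOf_coe, MulEquiv.orderOf_eq, DihedralGroup.orderOf_r_one]
      rw [hcn] at hdvd
      obtain ⟨m, hm⟩ : ∃ m, n = 2 * m := by
        obtain ⟨q, hq⟩ := hdvd
        exact ⟨q, by omega⟩
      apply hkey
      exact thompson_cent hs T hxT hx a.2 (by rw [hao, hcn]; ) (by rw [hao, hm])
    · apply hkey
      have hao : orderOf ((x₀ : (T : Subgroup G)) : G) = 2 ^ n := by
        rw [Subgroup.orderOf_coe, hx₀]
      refine thompson_cent (m := 2 ^ (n - 1)) hs T hxT hx x₀.2 ?_ ?_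
      · rw [hao]
        have : Nat.card T = Nat.card (T : Subgroup G) := rfl
        rw [this, hcardn, pow_succ]
        ring
      · rw [hao, ← pow_succ']
        congr 1
        omega
    · exact h4.le
  exact (Subgroup.eq_of_le_of_card_ge hT (by rw [hc]; exact hfour)).symm

theorem a5_cent (hV : V4S G) (T : Sylow 2 G) {x : G} (hxT : x ∈ (T : Subgroup G)) (hx : orderOf x = 2)
    (hn : ((T : Subgroup G).subgroupOf (Subgroup.centralizer ({x} : Set G))).Normal)
    (hmem : ∀ y ∈ Subgroup.centralizer ({x} : Set G), ∀ k : ℕ, orderOf y = 2 ^ k → y ∈ (T : Subgroup G))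
    {y t : G} (hy : y ∈ Subgroup.centralizer ({x} : Set G)) (ht : t ∈ (T : Subgroup G)) : y * t = t * y := by
  classical
  haveI : Fact (Nat.Prime 2) := ⟨Nat.prime_two⟩
  have hyx := Subgroup.mem_centralizer_singleton_iff.1 hy
  have hconj : x * y * x⁻¹ = y := by
    rw [mul_inv_eq_iff_eq_mul]
    exact hyx.symm
  have hp : x * pPart 2 y * x⁻¹ = pPart 2 y := by
    rw [← pPart_conj, hconj]
  have hr : x * pReg 2 y * x⁻¹ = pReg 2 y := by
    rw [← pReg_conj, hconj]
  have hpC : pPart 2 y ∈ Subgroup.centralizer ({x} : Set G) := by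
    rw [Subgroup.mem_centralizer_singleton_iff]
    rw [mul_inv_eq_iff_eq_mul] at hp
    exact hp.symm
  have hrC : pReg 2 y ∈ Subgroup.centralizer ({x} : Set G) := by
    rw [Subgroup.mem_centralizer_singleton_iff]
    rw [mul_inv_eq_iff_eq_mul] at hr
    exact hr.symm
  obtain ⟨k, hk⟩ := orderOf_pPart (p := 2) y
  have hpT : pPart 2 y ∈ (T : Subgroup G) := hmem _ hpC k hk
  have h1 : pPart 2 y * t = t * pPart 2 y := hV.comm_of_mem T hpT ht
  have htC : t ∈ Subgroup.centralizer ({x} : Set G) := by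
    rw [Subgroup.mem_centralizer_singleton_iff]
    exact hV.comm_of_mem T ht hxT
  have h2 : pReg 2 y * t = t * pReg 2 y := by
    refine hV.conj_fix T hxT (ne_one_of_order_two hx) (Subgroup.mem_centralizer_singleton_iff.1 hrC) ?_ ht ?_
    · exact Nat.odd_iff.2 (by
        have := not_dvd_orderOf_pReg (p := 2) y
        omega)
    · have := hn.conj_mem ⟨t, htC⟩ (Subgroup.mem_subgroupOf.2 ht) ⟨_, hrC⟩
      exact Subgroup.mem_subgroupOf.1 this
  calc y * t = pPart 2 y * pReg 2 y * t := by rw [pPart_mul_pReg]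
    _ = pPart 2 y * (t * pReg 2 y) := by rw [mul_assoc, h2]
    _ = (t * pPart 2 y) * pReg 2 y := by rw [← mul_assoc, h1]
    _ = t * y := by rw [mul_assoc, pPart_mul_pReg]

/-- Normalizer counting step. -/
theorem a5_normalizer_card (hV : V4S G) (T : Sylow 2 G) {x : G} (hxT : x ∈ (T : Subgroup G)) (hx : orderOf x = 2)
    (hc : Nat.card (T : Subgroup G) = 4)
    (hone : ∀ s t : G, orderOf s = 2 → orderOf t = 2 → IsConj s t)
    (hn : ((T : Subgroup G).subgroupOf (Subgroup.centralizer ({x} : Set G))).Normal)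
    (hmem : ∀ y ∈ Subgroup.centralizer ({x} : Set G), ∀ k : ℕ, orderOf y = 2 ^ k → y ∈ (T : Subgroup G)) :
    Nat.card (Subgroup.normalizer ((T : Subgroup G) : Set G)) = 3 * Nat.card (Subgroup.centralizer ({x} : Set G)) := by
  classical
  set N := Subgroup.normalizer ((T : Subgroup G) : Set G) with hN
  have hCN : Subgroup.centralizer ({x} : Set G) ≤ N := by
    intro y hy
    rw [hN, Subgroup.mem_normalizer_iff]
    intro t
    by_cases ht : t ∈ (T : Subgroup G)
    · have := a5_cent hV T hxT hx hn hmem hy ht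
      have h1 : y * t * y⁻¹ = t := by rw [this]; group
      rw [h1]
    · constructor
      · intro h
        exact absurd h ht
      · intro h
        exfalso
        apply ht
        have h1 := a5_cent hV T hxT hx hn hmem ((Subgroup.centralizer ({x} : Set G)).inv_mem hy) h
        have h2 : y⁻¹ * (y * t * y⁻¹) * y = y * t * y⁻¹ := by
          rw [h1, mul_assoc, inv_mul_cancel, mul_one]
        have h3 : y⁻¹ * (y * t * y⁻¹) * y = t := by group
        rw [h3] at h2
        rw [h2]
        exact h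
  have hTN : (T : Subgroup G) ≤ N := Subgroup.le_normalizer
  have hconjN : ∀ y ∈ (T : Subgroup G), y ≠ 1 → ∃ g ∈ N, g * x * g⁻¹ = y := by
    intro y hy hy1
    have hy2 : orderOf y = 2 := order_two_of (hV.sq_of_mem T hy) hy1
    obtain ⟨g, hg⟩ := isConj_iff.1 (hone x y hx hy2)
    refine ⟨g, ?_, hg⟩
    have hstep : ∀ t ∈ (T : Subgroup G), g⁻¹ * t * g ∈ (T : Subgroup G) := by
      intro t ht
      have hty : t * y = y * t := hV.comm_of_mem T ht hy
      have hC : g⁻¹ * t * g ∈ Subgroup.centralizer ({x} : Set G) := by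
        rw [Subgroup.mem_centralizer_singleton_iff]
        rw [← hg] at hty
        have h4 : g⁻¹ * (t * (g * x * g⁻¹)) * g = g⁻¹ * ((g * x * g⁻¹) * t) * g := by rw [hty]
        calc g⁻¹ * t * g * x = g⁻¹ * (t * (g * x * g⁻¹)) * g := by group
          _ = g⁻¹ * ((g * x * g⁻¹) * t) * g := h4
          _ = x * (g⁻¹ * t * g) := by group
      obtain ⟨k, hk⟩ := IsPGroup.iff_orderOf.1 T.isPGroup' ⟨t, ht⟩
      rw [Subgroup.orderOf_mk] at hk
      refine hmem _ hC k ?_
      have := orderOf_conj' t g⁻¹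
      rw [inv_inv] at this
      rw [this, hk]
    let f : ↥(T : Subgroup G) → ↥(T : Subgroup G) := fun t => ⟨g⁻¹ * t * g, hstep t t.2⟩
    have hf : Function.Injective f := by
      intro a b hab
      have h1 : g⁻¹ * (a : G) * g = g⁻¹ * (b : G) * g := congrArg Subtype.val hab
      exact Subtype.ext (by simpa using h1)
    have hsurj := Finite.injective_iff_surjective.1 hf
    rw [hN, Subgroup.mem_normalizer_iff]
    intro t
    constructor
    · intro ht
      obtain ⟨s, hs⟩ := hsurj ⟨t, ht⟩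
      have h1 : g⁻¹ * (s : G) * g = t := congrArg Subtype.val hs
      have h2 : g * t * g⁻¹ = s := by rw [← h1]; group
      rw [h2]
      exact s.2
    · intro ht
      have := hstep _ ht
      have h3 : g⁻¹ * (g * t * g⁻¹) * g = t := by group
      rwa [h3] at this
  have hxN : x ∈ N := hTN hxT
  let x' : N := ⟨x, hxN⟩
  have hclass : Nat.card {z : N // IsConj x' z} = 3 := by
    have hset : (((T : Subgroup G) : Set G) \ {1}).ncard = 3 := by
      rw [Set.ncard_diff_singleton_of_mem (one_mem (T : Subgroup G))]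
      have : ((T : Subgroup G) : Set G).ncard = 4 := by
        rw [← hc]
        exact (Nat.card_coe_set_eq _).symm
      rw [this]
    rw [← hset, ← Nat.card_coe_set_eq]
    refine Nat.card_congr (Equiv.ofBijective (fun z => ⟨(z.1 : G), ?_⟩) ⟨?_, ?_⟩)
    · obtain ⟨z, hz⟩ := z
      obtain ⟨g, hg⟩ := isConj_iff.1 hz
      have hz1 : (z : G) = g * x * (g : G)⁻¹ := by
        rw [← hg]; rfl
      refine ⟨?_, ?_⟩
      · show (z : G) ∈ (T : Subgroup G)
        rw [hz1]
        exact (Subgroup.mem_normalizer_iff.1 g.2 x).1 hxT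
      · intro h
        apply ne_one_of_order_two hx
        have h2 : (z : G) = 1 := h
        rw [hz1] at h2
        have h3 : g⁻¹ * ((g : G) * x * (g : G)⁻¹) * g = g⁻¹ * 1 * g := by rw [h2]
        simpa [mul_assoc] using h3
    · intro a b hab
      have h1 : ((a.1 : N) : G) = ((b.1 : N) : G) := Subtype.mk.inj hab
      exact Subtype.ext (Subtype.ext h1)
    · rintro ⟨y, hy, hy1⟩
      obtain ⟨g, hgN, hg⟩ := hconjN y hy hy1
      refine ⟨⟨⟨y, hTN hy⟩, isConj_iff.2 ⟨⟨g, hgN⟩, Subtype.ext hg⟩⟩, rfl⟩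
  have hcentN : Nat.card (Subgroup.centralizer ({x'} : Set N)) = Nat.card (Subgroup.centralizer ({x} : Set G)) := by
    have hmap : (Subgroup.centralizer ({x'} : Set N)).map N.subtype = Subgroup.centralizer ({x} : Set G) := by
      ext y
      simp only [Subgroup.mem_map, Subgroup.subtype_apply]
      constructor
      · rintro ⟨z, hz, rfl⟩
        rw [Subgroup.mem_centralizer_singleton_iff] at hz ⊢
        exact congrArg Subtype.val hz
      · intro hy
        refine ⟨⟨y, hCN hy⟩, ?_, rfl⟩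
        rw [Subgroup.mem_centralizer_singleton_iff] at hy ⊢
        exact Subtype.ext hy
    rw [← hmap]
    exact (Subgroup.card_map_of_injective N.subtype_injective).symm
  have hfin := card_class_mul_card_centralizer x'
  rw [hclass, hcentN] at hfin
  exact hfin.symm

theorem a5_perm_dvd [IsSimpleGroup G] (H : Subgroup G) (hH : H ≠ ⊤) : Nat.card G ∣ H.index.factorial := by
  obtain ⟨φ, hφ⟩ := simple_perm_embed H hH
  have := Subgroup.card_dvd_of_injective φ hφ
  rwa [Nat.card_perm, Nat.card_fin] at this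

/-- Main theorem. -/
theorem a5_char [IsSimpleGroup G] (x : G) (hx : orderOf x = 2) (S₀ : Subgroup G)
    (hle : S₀ ≤ Subgroup.centralizer ({x} : Set G)) (hK : IsKleinFour ↥S₀)
    (hodd : ¬ 2 ∣ S₀.relIndex (Subgroup.centralizer ({x} : Set G)))
    (hn : (S₀.subgroupOf (Subgroup.centralizer ({x} : Set G))).Normal) :
    Nonempty (G ≃* ↥(alternatingGroup (Fin 5))) := by
  classical
  letI : Fintype G := Fintype.ofFinite G
  haveI : Fact (Nat.Prime 2) := ⟨Nat.prime_two⟩
  have hc : Nat.card S₀ = 4 := IsKleinFour.card_four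
  have h4G : 4 ∣ Nat.card G := by
    rw [← hc]
    exact Subgroup.card_subgroup_dvd_card S₀
  have hs : ∀ M : Subgroup G, M.Normal → M.index = 2 → False := by
    intro M hMn hMi
    rcases hMn.eq_bot_or_eq_top with rfl | rfl
    · rw [Subgroup.index_bot] at hMi
      rw [hMi] at h4G
      omega
    · rw [Subgroup.index_top] at hMi
      omega
  obtain ⟨hxS, T, hT⟩ := a5_sylow hs x hx S₀ hle hc hodd hn
  subst hT
  have hxC : x ∈ Subgroup.centralizer ({x} : Set G) := by
    rw [Subgroup.mem_centralizer_singleton_iff]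
  have hmem : ∀ y ∈ Subgroup.centralizer ({x} : Set G), ∀ k : ℕ, orderOf y = 2 ^ k → y ∈ (T : Subgroup G) := by
    intro y hy k hk
    exact a5_two_mem hodd hn hy hk
  have hcardG : Nat.card G = 4 * (T : Subgroup G).index := by
    rw [← hc]
    exact (Subgroup.card_mul_index _).symm
  have hoddT : Odd (T : Subgroup G).index := by
    have := T.not_dvd_index
    exact Nat.odd_iff.2 (by omega)
  have hnc : ¬ ∃ N : Subgroup G, N.Normal ∧ Nat.card N = (T : Subgroup G).index := by
    rintro ⟨N, hNn, hNc⟩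
    rcases hNn.eq_bot_or_eq_top with rfl | rfl
    · rw [Subgroup.card_bot] at hNc
      rw [← hNc, mul_one] at hcardG
      have hzi : (Subgroup.zpowers x).index = 2 := by
        have h1 := Subgroup.card_mul_index (Subgroup.zpowers x)
        rw [Nat.card_zpowers, hx, hcardG] at h1
        omega
      exact hs _ (Subgroup.normal_of_index_eq_two hzi) hzi
    · rw [Subgroup.card_top] at hNc
      have := hoddT.pos
      omega
  obtain ⟨hV, hone⟩ := v4_of_no_complement hoddT hcardG hnc
  obtain ⟨M, hM⟩ := exists_isPModular 2 Nat.prime_two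
  have hcent : ∀ y ∈ Subgroup.centralizer ({x} : Set G), ∀ t ∈ (T : Subgroup G), y * t = t * y := by
    intro y hy t ht
    exact a5_cent hV T hxS hx hn hmem hy ht
  have hidx := Subgroup.index_mul_card (Subgroup.centralizer ({x} : Set G))
  have h4c : 4 ∣ Nat.card (Subgroup.centralizer ({x} : Set G)) := by
    rw [← hc]
    exact Subgroup.card_dvd_of_le hle
  have hcpos : 0 < Nat.card (Subgroup.centralizer ({x} : Set G)) := Nat.card_pos
  rcases a5_index hM hV hone T hxS hx hcent with h3 | h15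
  · exfalso
    have hne : Subgroup.centralizer ({x} : Set G) ≠ ⊤ := by
      intro h
      rw [h, Subgroup.index_top] at h3
      omega
    have := a5_perm_dvd _ hne
    rw [h3] at this
    have h6 : (4 : ℕ) ∣ 6 := h4G.trans this
    omega
  · rw [h15] at hidx
    set N := Subgroup.normalizer ((T : Subgroup G) : Set G) with hN
    have hNc := a5_normalizer_card hV T hxS hx hc hone hn hmem
    have hNi := Subgroup.index_mul_card N
    rw [hNc, ← hidx] at hNi
    have hN5 : N.index = 5 := by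
      have : N.index * 3 * Nat.card (Subgroup.centralizer ({x} : Set G)) = 15 * Nat.card (Subgroup.centralizer ({x} : Set G)) := by
        rw [← hNi]; ring
      have h1 := Nat.eq_of_mul_eq_mul_right hcpos this
      omega
    have hNne : N ≠ ⊤ := by
      intro h
      rw [h, Subgroup.index_top] at hN5
      omega
    obtain ⟨φ, hφ⟩ := simple_perm_embed N hNne
    revert φ
    rw [hN5]
    intro φ hφ
    have hsign : ∀ g : G, Equiv.Perm.sign (φ g) = 1 := by
      have hk : (Equiv.Perm.sign.comp φ).ker.Normal := inferInstance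
      rcases hk.eq_bot_or_eq_top with h | h
      · exfalso
        have hinj := (MonoidHom.ker_eq_bot_iff _).1 h
        have h2 := Subgroup.card_dvd_of_injective _ hinj
        have h3 : Nat.card (ℤˣ) = 2 := by
          simp
        rw [h3] at h2
        have : (4 : ℕ) ∣ 2 := h4G.trans h2
        omega
      · intro g
        have : g ∈ (Equiv.Perm.sign.comp φ).ker := by
          rw [h]
          trivial
        exact this
    have hrange : φ.range ≤ alternatingGroup (Fin 5) := by
      rintro _ ⟨g, rfl⟩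
      exact Equiv.Perm.mem_alternatingGroup.2 (hsign g)
    have hcardA : Nat.card (alternatingGroup (Fin 5)) = 60 := by
      rw [nat_card_alternatingGroup, Nat.card_fin]
      rfl
    have hcardR : Nat.card φ.range = Nat.card G :=
      (Nat.card_congr (MonoidHom.ofInjective hφ).toEquiv).symm
    have h60 : Nat.card G ∣ 60 := by
      rw [← hcardR, ← hcardA]
      exact Subgroup.card_dvd_of_le hrange
    have hdiv : 60 ∣ Nat.card G := by
      rw [← hidx]
      obtain ⟨q, hq⟩ := h4c
      rw [hq]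
      exact ⟨q, by ring⟩
    have hG60 : Nat.card G = 60 := Nat.dvd_antisymm h60 hdiv
    have heq : φ.range = alternatingGroup (Fin 5) :=
      Subgroup.eq_of_le_of_card_ge hrange (by rw [hcardA, hcardR, hG60])
    exact ⟨(MonoidHom.ofInjective hφ).trans (MulEquiv.subgroupCongr heq)⟩

end Main

end CfsgLib.Block
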