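import Mathlib
import Cfsg.Prelude.Def_Blocks

/-! # Roots of unity modulo a maximal ideal of the algebraic integers -/

set_option autoImplicit false

namespace CfsgLib.Block

open Cfsg

theorem root_unity_inj {p : ℕ} {M : Ideal AlgInt} (hM : IsPModular p M) {ε₁ ε₂ : AlgInt} {m n : ℕ} (hm : ¬ p ∣ m) (hn : ¬ p ∣ n)
    (h1 : (ε₁ : ℂ) ^ m = 1) (h2 : (ε₂ : ℂ) ^ n = 1) (h : ε₁ - ε₂ ∈ M) : ε₁ = ε₂ := by
  classical
  obtain ⟨hp, hmax, hpM⟩ := hM
  by_contra hne
  set N := m * n with hN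
  have hNp : ¬ p ∣ N := fun hd => (hp.dvd_mul.1 hd).elim hm hn
  have h1' : ε₁ ^ N = 1 := by
    apply Subtype.ext
    push_cast
    rw [hN, pow_mul, h1, one_pow]
  have h2' : ε₂ ^ N = 1 := by
    apply Subtype.ext
    push_cast
    rw [hN, mul_comm, pow_mul, h2, one_pow]
  have hNpos : 0 < N := Nat.pos_of_ne_zero (fun h0 => hNp (by rw [h0]; exact dvd_zero p))
  have hgeom := geom_sum₂_mul ε₁ ε₂ N
  rw [h1', h2', sub_self] at hgeom
  have hsub : ε₁ - ε₂ ≠ 0 := sub_ne_zero.2 hne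
  have hs : ∑ i ∈ Finset.range N, ε₁ ^ i * ε₂ ^ (N - 1 - i) = 0 := (mul_eq_zero.1 hgeom).resolve_right hsub
  let f := Ideal.Quotient.mk M
  have hf : f ε₁ = f ε₂ := Ideal.Quotient.eq.2 h
  have h3 : f (∑ i ∈ Finset.range N, ε₁ ^ i * ε₂ ^ (N - 1 - i)) = (N : AlgInt ⧸ M) * f ε₁ ^ (N - 1) := by
    rw [map_sum, Finset.sum_congr rfl (g := fun _ => f ε₁ ^ (N - 1))]
    · simp
    · intro i hi
      have hi' : i < N := Finset.mem_range.1 hi
      rw [map_mul, map_pow, map_pow, ← hf, ← pow_add]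
      congr 1
      omega
  rw [hs, map_zero] at h3
  have h4 : (N : AlgInt ⧸ M) * f ε₁ ^ N = 0 := by
    obtain ⟨r, hr⟩ : ∃ r, N = r + 1 := ⟨N - 1, by omega⟩
    rw [hr, pow_succ, ← mul_assoc]
    have : N - 1 = r := by omega
    rw [← hr, ← this, ← h3, zero_mul]
  rw [← map_pow, h1', map_one, mul_one] at h4
  have h5 : ((N : AlgInt)) ∈ M := by
    have : f (N : AlgInt) = 0 := by simpa using h4
    exact Ideal.Quotient.eq_zero_iff_mem.1 this
  have hcop : Nat.Coprime N p := ((Nat.Prime.coprime_iff_not_dvd hp).2 hNp).symm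
  have hb := Nat.gcd_eq_gcd_ab N p
  rw [hcop] at hb
  have h6 : (1 : AlgInt) ∈ M := by
    have : (1 : AlgInt) = (N : AlgInt) * ((Nat.gcdA N p : ℤ) : AlgInt) + (p : AlgInt) * ((Nat.gcdB N p : ℤ) : AlgInt) := by
      have h7 : ((1 : ℤ) : AlgInt) = (((N : ℤ) * Nat.gcdA N p + (p : ℤ) * Nat.gcdB N p : ℤ) : AlgInt) := by
        congr 1
      push_cast at h7
      exact h7
    rw [this]
    exact M.add_mem (M.mul_mem_right _ h5) (M.mul_mem_right _ hpM)
  exact hmax.ne_top ((Ideal.eq_top_iff_one M).2 h6)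

theorem exists_root_unity {p : ℕ} {M : Ideal AlgInt} (hM : IsPModular p M) {a : AlgInt} (ha : a ∉ M) :
    ∃ ε : AlgInt, (∃ m : ℕ, ¬ p ∣ m ∧ (ε : ℂ) ^ m = 1) ∧ a - ε ∈ M := by
  classical
  obtain ⟨hp, hmax, hpM⟩ := id hM
  haveI := hmax
  haveI : Fact p.Prime := ⟨hp⟩
  letI : Field (AlgInt ⧸ M) := Ideal.Quotient.field M
  let f : AlgInt →+* (AlgInt ⧸ M) := Ideal.Quotient.mk M
  have hfp : (p : AlgInt ⧸ M) = 0 := by
    have : f (p : AlgInt) = 0 := Ideal.Quotient.eq_zero_iff_mem.2 hpM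
    simpa using this
  haveI hchar : CharP (AlgInt ⧸ M) p := (CharP.charP_iff_prime_eq_zero hp).2 hfp
  letI : Algebra (ZMod p) (AlgInt ⧸ M) := ZMod.algebra _ p
  set x : AlgInt ⧸ M := f a with hx
  have hx0 : x ≠ 0 := fun h => ha (Ideal.Quotient.eq_zero_iff_mem.1 h)
  have hint : IsIntegral (ZMod p) x := by
    have hia : IsIntegral ℤ a := by
      obtain ⟨P, hP, hP2⟩ := a.2
      refine ⟨P, hP, ?_⟩
      apply Subtype.ext
      simpa [Polynomial.eval₂_eq_sum_range] using hP2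
    obtain ⟨P, hP, hP2⟩ := hia
    refine ⟨P.map (Int.castRingHom (ZMod p)), hP.map _, ?_⟩
    rw [Polynomial.eval₂_map]
    have h1 : (algebraMap (ZMod p) (AlgInt ⧸ M)).comp (Int.castRingHom (ZMod p)) = f.comp (algebraMap ℤ AlgInt) := RingHom.ext_int _ _
    rw [h1, ← Polynomial.hom_eval₂, hP2, map_zero]
  haveI : FiniteDimensional (ZMod p) (IntermediateField.adjoin (ZMod p) {x}) := IntermediateField.adjoin.finiteDimensional hint
  haveI : Finite (IntermediateField.adjoin (ZMod p) {x}) := Module.finite_of_finite (ZMod p)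
  letI : Fintype (IntermediateField.adjoin (ZMod p) {x}) := Fintype.ofFinite _
  let x' : IntermediateField.adjoin (ZMod p) {x} := IntermediateField.AdjoinSimple.gen (ZMod p) x
  have hx'0 : x' ≠ 0 := fun h => hx0 (by simpa [x'] using congrArg Subtype.val h)
  have h1 := FiniteField.pow_card_sub_one_eq_one x' hx'0
  haveI : CharP (IntermediateField.adjoin (ZMod p) {x}) p := charP_of_injective_algebraMap (algebraMap (ZMod p) _).injective p
  obtain ⟨n, -, hn⟩ := FiniteField.card (IntermediateField.adjoin (ZMod p) {x}) p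
  set q := Fintype.card (IntermediateField.adjoin (ZMod p) {x}) with hq
  have hn0 : (n : ℕ) ≠ 0 := n.ne_zero
  have hq1 : 1 < q := Fintype.one_lt_card
  have hxq : x ^ (q - 1) = 1 := by
    have := congrArg Subtype.val h1
    simpa [x'] using this
  set N := q - 1 with hN
  have hNpos : 0 < N := by omega
  have hNp : ¬ p ∣ N := by
    intro hd
    have h2 : p ∣ q := by
      rw [hn]
      exact dvd_pow_self p hn0
    have h3 : p ∣ 1 := by
      have h4 : q = N + 1 := by omega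
      rw [h4] at h2
      exact (Nat.dvd_add_right hd).1 h2
    exact hp.one_lt.ne' (Nat.dvd_one.1 h3)
  -- a primitive root of unity in the algebraic integers
  have hprim := Complex.isPrimitiveRoot_exp N hNpos.ne'
  set z := Complex.exp (2 * ↑Real.pi * Complex.I / ↑N) with hz
  have hzi : IsIntegral ℤ z := IsIntegral.of_pow hNpos (by rw [hprim.pow_eq_one]; exact isIntegral_one)
  let z' : AlgInt := ⟨z, hzi⟩
  have hprim' : IsPrimitiveRoot z' N := by
    have hinj : Function.Injective (AlgInt.val : AlgInt →ₐ[ℤ] ℂ) := Subtype.val_injective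
    exact (IsPrimitiveRoot.map_iff_of_injective (f := (AlgInt.val : AlgInt →ₐ[ℤ] ℂ)) hinj).1 hprim
  have hpoly := Polynomial.X_pow_sub_one_eq_prod hNpos hprim'
  have heval := congrArg (Polynomial.eval a) hpoly
  simp only [Polynomial.eval_sub, Polynomial.eval_pow, Polynomial.eval_X, Polynomial.eval_one, Polynomial.eval_prod, Polynomial.eval_C] at heval
  have hmem : a ^ N - 1 ∈ M := by
    rw [← Ideal.Quotient.eq_zero_iff_mem, map_sub, map_pow, map_one]
    show x ^ N - 1 = 0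
    rw [hxq, sub_self]
  rw [heval] at hmem
  obtain ⟨ε, hε, hmem2⟩ := (Ideal.IsPrime.prod_mem_iff (p := M)).1 hmem
  refine ⟨ε, ⟨N, hNp, ?_⟩, hmem2⟩
  have h3 := (Polynomial.mem_nthRootsFinset hNpos 1).1 hε
  have := congrArg Subtype.val h3
  simpa using this

end CfsgLib.Block
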