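import Cfsg.Agent.Lib.Block.Rank
import Cfsg.Agent.Lib.Block.Resid

/-! # Counting blocks by defect -/

set_option autoImplicit false
set_option linter.unusedSectionVars false
set_option linter.unusedVariables false

namespace CfsgLib.Block

open Cfsg CfsgLib.Char
open scoped ComplexConjugate Pointwise

universe u

section Det

variable {M : Ideal AlgInt} (hP : M.IsPrime)

/-- The ideal of the local ring. -/
def locIdeal : Ideal (locR hP) where
  carrier := {x | (x : ℂ) ∈ locI hP}
  add_mem' := by
    intro a b ha hb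
    show ((a + b : locR hP) : ℂ) ∈ locI hP
    push_cast
    exact add_mem ha hb
  zero_mem' := by
    show ((0 : locR hP) : ℂ) ∈ locI hP
    push_cast
    exact zero_mem _
  smul_mem' := by
    intro c x hx
    show ((c • x : locR hP) : ℂ) ∈ locI hP
    exact locI_mul_left hP c.2 hx

theorem mem_locIdeal {x : locR hP} : x ∈ locIdeal hP ↔ (x : ℂ) ∈ locI hP := Iff.rfl

theorem det_sub_one_mem {n : Type*} [Fintype n] [DecidableEq n] (A : Matrix n n ℂ) (hA : ∀ i j, A i j ∈ locR hP)
    (hB : ∀ i j, A i j - (if i = j then 1 else 0) ∈ locI hP) : A.det - 1 ∈ locI hP := by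
  classical
  let A' : Matrix n n (locR hP) := fun i j => ⟨A i j, hA i j⟩
  have h1 : (Ideal.Quotient.mk (locIdeal hP)).mapMatrix A' = 1 := by
    ext i j
    rw [RingHom.mapMatrix_apply, Matrix.map_apply, Matrix.one_apply]
    have h2 : A' i j - (if i = j then 1 else 0) ∈ locIdeal hP := by
      rw [mem_locIdeal]
      have := hB i j
      split_ifs at this ⊢ <;> simpa [A'] using this
    have h3 := (Ideal.Quotient.eq_zero_iff_mem (I := locIdeal hP)).2 h2
    rw [map_sub, sub_eq_zero] at h3
    rw [h3]
    split_ifs <;> simp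
  have h2 : Ideal.Quotient.mk (locIdeal hP) A'.det = 1 := by
    rw [RingHom.map_det, h1, Matrix.det_one]
  have h3 : A'.det - 1 ∈ locIdeal hP := by
    apply (Ideal.Quotient.eq_zero_iff_mem).1
    rw [map_sub, h2, map_one, sub_self]
  have h4 : ((A'.det : locR hP) : ℂ) = A.det := by
    have := RingHom.map_det (locR hP).subtype A'
    exact this.symm ▸ by congr 1
  have h5 : ((A'.det - 1 : locR hP) : ℂ) ∈ locI hP := (mem_locIdeal hP).1 h3
  push_cast at h5
  rwa [h4] at h5

theorem card_le_of_local_inv {ι κ : Type*} [Fintype ι] [Fintype κ] [DecidableEq ι] (X : Matrix ι κ ℂ) (Y : Matrix κ ι ℂ)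
    (hX : ∀ i j, X i j ∈ locR hP) (hY : ∀ i j, Y i j ∈ locR hP)
    (hXY : ∀ i j, (X * Y) i j - (if i = j then 1 else 0) ∈ locI hP) : Fintype.card ι ≤ Fintype.card κ := by
  classical
  by_contra hcon
  push Not at hcon
  have hA : ∀ i j, (X * Y) i j ∈ locR hP := by
    intro i j
    rw [Matrix.mul_apply]
    exact sum_mem fun k _ => mul_mem (hX i k) (hY k j)
  have h1 := det_sub_one_mem hP (X * Y) hA hXY
  have h2 : (X * Y).det ≠ 0 := by
    intro h0
    rw [h0, zero_sub] at h1
    exact one_notMem_locI hP (by simpa using neg_mem h1)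
  have h3 : IsUnit (X * Y) := (Matrix.isUnit_iff_isUnit_det _).2 (isUnit_iff_ne_zero.2 h2)
  have h4 := Matrix.rank_of_isUnit _ h3
  have h5 := Matrix.rank_mul_le_left X Y
  have h7 : X.rank ≤ Fintype.card κ := by
    simpa using Matrix.rank_le_card_width X
  omega

end Det

section Count

variable {G : Type u} [Group G] [Fintype G] {p : ℕ} [hp : Fact p.Prime] {M : Ideal AlgInt} (hM : IsPModular p M)

include hM

theorem defect_le_of_centralChar_notMem {B : Set (IrrCharacter G)} (hB : IsPBlock M B) {χ : IrrCharacter G} (hχ : χ ∈ B) {h : G}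
    (hh : centralChar (χ : G → ℂ) h ∉ locI hM.isPrime) :
    blockDefect p B ≤ (Nat.card (Subgroup.centralizer ({h} : Set G))).factorization p := by
  classical
  obtain ⟨g₀, hg₀⟩ := exists_defectClass hM hB
  let D : Sylow p (Subgroup.centralizer ({g₀} : Set G)) := default
  have hD : IsDefectGroup p M B ((D : Subgroup _).map (Subgroup.centralizer ({g₀} : Set G)).subtype) := ⟨g₀, hg₀, D, rfl⟩
  have hc := card_defectGroup hM hB hD
  obtain ⟨x, hx⟩ := minmax_b hM hB hg₀ D hχ hh
  set E := (D : Subgroup _).map (Subgroup.centralizer ({g₀} : Set G)).subtype with hE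
  have hle : E.map (MulAut.conj x).toMonoidHom ≤ Subgroup.centralizer ({h} : Set G) := by
    rintro _ ⟨c, hc, rfl⟩
    exact hx c hc
  have hd := Subgroup.card_dvd_of_le hle
  rw [Subgroup.card_map_of_injective (MulAut.conj x).injective, hc] at hd
  exact (hp.out.pow_dvd_iff_le_factorization Nat.card_pos.ne').1 hd

theorem s0962 (d : ℕ) :
    Nat.card {B : Set (IrrCharacter G) // IsPBlock M B ∧ d ≤ blockDefect p B} ≤
      Nat.card {C : ConjClasses G // ∃ g : G, ConjClasses.mk g = C ∧ IsPRegular p g ∧ d ≤ (Nat.card (Subgroup.centralizer ({g} : Set G))).factorization p} := by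
  classical
  have hP := hM.isPrime
  letI : Fintype (ConjClasses G) := Fintype.ofFinite _
  letI : Fintype {B : Set (IrrCharacter G) // IsPBlock M B ∧ d ≤ blockDefect p B} := Fintype.ofFinite _
  letI : Fintype {C : ConjClasses G // ∃ g : G, ConjClasses.mk g = C ∧ IsPRegular p g ∧ d ≤ (Nat.card (Subgroup.centralizer ({g} : Set G))).factorization p} := Fintype.ofFinite _
  rw [Nat.card_eq_fintype_card, Nat.card_eq_fintype_card]
  have hne : ∀ B : {B : Set (IrrCharacter G) // IsPBlock M B ∧ d ≤ blockDefect p B}, ∃ χ, χ ∈ B.1 := fun B => IsPBlock.nonempty hP B.2.1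
  choose χ hχ using hne
  let X : Matrix {B : Set (IrrCharacter G) // IsPBlock M B ∧ d ≤ blockDefect p B}
      {C : ConjClasses G // ∃ g : G, ConjClasses.mk g = C ∧ IsPRegular p g ∧ d ≤ (Nat.card (Subgroup.centralizer ({g} : Set G))).factorization p} ℂ :=
    fun B C => blockCoeff B.1 C.1.out
  let Y : Matrix {C : ConjClasses G // ∃ g : G, ConjClasses.mk g = C ∧ IsPRegular p g ∧ d ≤ (Nat.card (Subgroup.centralizer ({g} : Set G))).factorization p}
      {B : Set (IrrCharacter G) // IsPBlock M B ∧ d ≤ blockDefect p B} ℂ :=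
    fun C B => centralChar (χ B : G → ℂ) C.1.out
  refine card_le_of_local_inv hP X Y ?_ ?_ ?_
  · intro B C
    have := sval_fB hM B.2.1 C.1.out
    rwa [coeff_fB] at this
  · intro C B
    exact centralChar_mem hP (χ B).2 _
  · intro B B'
    have h0 := om_fB B.1 (χ B')
    rw [om_eq_sum_classes (χ B').2 (isCent_fB B.1)] at h0
    rw [← Fintype.sum_subtype_add_sum_subtype (fun E : ConjClasses G => ∃ g : G, ConjClasses.mk g = E ∧ IsPRegular p g ∧ d ≤ (Nat.card (Subgroup.centralizer ({g} : Set G))).factorization p)] at h0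
    have hδ : (if χ B' ∈ B.1 then (1 : ℂ) else 0) = if B = B' then 1 else 0 := by
      by_cases hh : B = B'
      · rw [if_pos hh, if_pos (hh ▸ hχ B')]
      · rw [if_neg hh, if_neg]
        intro hmem
        apply hh
        apply Subtype.ext
        rw [blockOf_eq_of_mem hP B.2.1 hmem, blockOf_eq_of_mem hP B'.2.1 (hχ B')]
    rw [hδ] at h0
    have hrest : ∑ E : {E : ConjClasses G // ¬ ∃ g : G, ConjClasses.mk g = E ∧ IsPRegular p g ∧ d ≤ (Nat.card (Subgroup.centralizer ({g} : Set G))).factorization p},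
        (fB B.1).coeff E.1.out * centralChar (χ B' : G → ℂ) E.1.out ∈ locI hP := by
      refine sum_mem fun E _ => ?_
      by_cases hr : p ∣ orderOf E.1.out
      · have : (fB B.1).coeff E.1.out = 0 := blockCoeff_singular hM B.2.1 hr
        rw [this, zero_mul]
        exact zero_mem _
      · have hnot : centralChar (χ B' : G → ℂ) E.1.out ∈ locI hP := by
          by_contra hnm
          apply E.2
          refine ⟨E.1.out, Quotient.out_eq' E.1, hr, ?_⟩
          exact B'.2.2.trans (defect_le_of_centralChar_notMem hM B'.2.1 (hχ B') hnm)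
        exact locI_mul_left hP (sval_fB hM B.2.1 _) hnot
    have hXY : (X * Y) B B' = ∑ E : {E : ConjClasses G // ∃ g : G, ConjClasses.mk g = E ∧ IsPRegular p g ∧ d ≤ (Nat.card (Subgroup.centralizer ({g} : Set G))).factorization p},
        (fB B.1).coeff E.1.out * centralChar (χ B' : G → ℂ) E.1.out := by
      rw [Matrix.mul_apply]
      rfl
    rw [hXY, ← h0]
    have e : ∀ a a' b : ℂ, a = a' → a - (a' + b) = -b := fun a a' b h => by rw [h]; ring
    exact (congrArg (fun z => z ∈ locI hP) (e _ _ _ (by congr!))).mpr (neg_mem hrest)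

end Count

end CfsgLib.Block
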