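import Cfsg.Agent.Lib.Block.Value
import Cfsg.Agent.Lib.Block.Kern
import Cfsg.Agent.Lib.Block.DefectThm
import Cfsg.Agent.Lib.Char.Degree
import Cfsg.Agent.Lib.Char.Linear

/-! # Extension to the defect group of central characters under height zero characters -/

set_option autoImplicit false
set_option linter.unusedSectionVars false
set_option linter.unusedVariables false

namespace CfsgLib.Block

open Cfsg CfsgLib.Char
open scoped ComplexConjugate

universe u

section

variable {G : Type u} [Group G] [Fintype G] {p : ℕ} [hp : Fact p.Prime] {M : Ideal AlgInt}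

theorem classInner_list {H : Type u} [Group H] [Fintype H] (l : List (H → ℂ)) (hl : ∀ η ∈ l, IsIrrCharacter H η)
    {ξ : H → ℂ} (hξ : IsIrrCharacter H ξ) : ∃ n : ℕ, classInner l.sum ξ = n ∧ (ξ ∈ l → n ≠ 0) := by
  classical
  induction l with
  | nil => exact ⟨0, by simpa using classInner_zero_left ξ, by simp⟩
  | cons η t ih =>
    obtain ⟨n, hn, hn'⟩ := ih (fun φ hφ => hl φ (List.mem_cons_of_mem _ hφ))
    have hη := hl η List.mem_cons_self
    rw [List.sum_cons, classInner_add_left, hn]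
    by_cases h : η = ξ
    · subst h
      refine ⟨n + 1, ?_, fun _ => Nat.succ_ne_zero n⟩
      rw [classInner_irr_self hη]
      push_cast
      ring
    · refine ⟨n, ?_, fun hm => ?_⟩
      · rw [classInner_irr_ne hη hξ h, zero_add]
      · rcases List.mem_cons.1 hm with rfl | hm
        · exact absurd rfl h
        · exact hn' hm

/-- The product of a subgroup `D` with a cyclic group commuting with it. -/
def supCyc (D : Subgroup G) (y : G) (hDy : ∀ d ∈ D, d * y = y * d) : Subgroup G where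
  carrier := {g | ∃ d ∈ D, ∃ k : ℤ, g = d * y ^ k}
  mul_mem' := by
    have hc : ∀ d ∈ D, ∀ k : ℤ, Commute d (y ^ k) := fun d hd k => (show Commute d y from hDy d hd).zpow_right k
    rintro _ _ ⟨d, hd, k, rfl⟩ ⟨d', hd', k', rfl⟩
    refine ⟨d * d', D.mul_mem hd hd', k + k', ?_⟩
    rw [zpow_add, mul_assoc, mul_assoc, ← mul_assoc (y ^ k) d', ← (hc d' hd' k).eq, mul_assoc]
  one_mem' := ⟨1, D.one_mem, 0, by simp⟩
  inv_mem' := by
    have hc : ∀ d ∈ D, ∀ k : ℤ, Commute d (y ^ k) := fun d hd k => (show Commute d y from hDy d hd).zpow_right k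
    rintro _ ⟨d, hd, k, rfl⟩
    refine ⟨d⁻¹, D.inv_mem hd, -k, ?_⟩
    rw [mul_inv_rev, zpow_neg, (hc d hd k).inv_inv.eq]

theorem le_supCyc (D : Subgroup G) (y : G) (hDy : ∀ d ∈ D, d * y = y * d) : D ≤ supCyc D y hDy :=
  fun d hd => ⟨d, hd, 0, by simp⟩

theorem y_mem_supCyc (D : Subgroup G) (y : G) (hDy : ∀ d ∈ D, d * y = y * d) : y ∈ supCyc D y hDy :=
  ⟨1, D.one_mem, 1, by simp⟩

theorem comm_supCyc (D : Subgroup G) (y : G) (hDy : ∀ d ∈ D, d * y = y * d) {g : G} (hg : g ∈ supCyc D y hDy) :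
    g * y = y * g := by
  obtain ⟨d, hd, k, rfl⟩ := hg
  have h1 : Commute d y := hDy d hd
  have h2 : Commute (y ^ k) y := (Commute.refl y).zpow_left k
  exact (h1.mul_left h2).eq

theorem isPGroup_quot_center (D : Subgroup G) (y : G) (hDy : ∀ d ∈ D, d * y = y * d) (hDp : IsPGroup p D) :
    IsPGroup p (↥(supCyc D y hDy) ⧸ Subgroup.center ↥(supCyc D y hDy)) := by
  intro q
  obtain ⟨h, rfl⟩ := QuotientGroup.mk_surjective q
  obtain ⟨d, hd, k, hh⟩ := h.2
  obtain ⟨n, hn⟩ := hDp ⟨d, hd⟩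
  refine ⟨n, ?_⟩
  rw [← QuotientGroup.mk_pow, QuotientGroup.eq_one_iff, Subgroup.mem_center_iff]
  have hdn : d ^ p ^ n = 1 := by
    have := congrArg Subtype.val hn
    simpa using this
  have hc : ∀ k : ℤ, Commute d (y ^ k) := fun k => (show Commute d y from hDy d hd).zpow_right k
  have h1 : (h : G) ^ p ^ n = (y ^ k) ^ p ^ n := by
    rw [hh, (hc k).mul_pow, hdn, one_mul]
  intro g
  apply Subtype.ext
  push_cast
  rw [h1]
  have h2 : Commute (g : G) y := comm_supCyc D y hDy g.2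
  exact ((h2.zpow_right k).pow_right _).eq

theorem degree_dvd_index_center {H : Type u} [Group H] [Fintype H] {ξ : H → ℂ} (hξ : IsIrrCharacter H ξ) :
    ∃ n : ℕ, n ∣ (Subgroup.center H).index ∧ ξ 1 = n := by
  obtain ⟨n, ρ, hi, rfl⟩ := hξ
  refine ⟨n, ?_, ?_⟩
  · have := finrank_dvd_index_center ρ
    simpa using this
  · rw [Representation.char_one]
    simp

variable (hM : IsPModular p M)

include hM

/-- A character not vanishing modulo `M` at `y` has a linear constituent on `D⟨y⟩`. -/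
theorem exists_linear_constituent {χ : IrrCharacter G} {D : Subgroup G} {y : G} (hDy : ∀ d ∈ D, d * y = y * d)
    (hDp : IsPGroup p D) (hy : (χ : G → ℂ) y ∉ locI hM.isPrime) [Fintype (supCyc D y hDy)] :
    ∃ l : ↥(supCyc D y hDy) →* ℂˣ,
      ∑ h : ↥(supCyc D y hDy), (χ : G → ℂ) h * conj ((l h : ℂˣ) : ℂ) ≠ 0 := by
  classical
  have hPr := hM.isPrime
  obtain ⟨L, hL, hsum⟩ := (χ.2.isCharacter.restrict (supCyc D y hDy)).exists_list
  have hyH : y ∈ supCyc D y hDy := y_mem_supCyc D y hDy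
  obtain ⟨e, he⟩ : ∃ e : ℕ, (Subgroup.center (supCyc D y hDy)).index = p ^ e := by
    obtain ⟨e, he⟩ := IsPGroup.iff_card.1 (isPGroup_quot_center D y hDy hDp)
    exact ⟨e, by rw [Subgroup.index, he]⟩
  by_cases hex : ∃ ξ ∈ L, ξ 1 = 1
  · obtain ⟨ξ, hξL, hξ1⟩ := hex
    have hξ := hL ξ hξL
    obtain ⟨l, hl⟩ := exists_hom_of_degree_one hξ.isCharacter hξ1
    refine ⟨l, ?_⟩
    obtain ⟨n, hn, hn'⟩ := classInner_list L hL hξ
    have h0 := hn' hξL
    rw [← hsum] at hn
    have hcast : (n : ℂ) ≠ 0 := by exact_mod_cast h0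
    rw [hl, classInner_def] at hn
    intro h
    rw [h, mul_zero] at hn
    exact hcast hn.symm
  · exfalso
    push Not at hex
    apply hy
    have hval : (χ : G → ℂ) y = L.sum ⟨y, hyH⟩ := by
      have := congrFun hsum ⟨y, hyH⟩
      simpa using this
    rw [hval]
    have hkey : ∀ L' : List (↥(supCyc D y hDy) → ℂ), (∀ ξ ∈ L', IsIrrCharacter _ ξ) → (∀ ξ ∈ L', ξ 1 ≠ 1) →
        L'.sum ⟨y, hyH⟩ ∈ locI hPr := by
      intro L'
      induction L' with
      | nil => intro _ _; simpa using (locI hPr).zero_mem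
      | cons ξ t ih =>
        intro h1 h2
        rw [List.sum_cons, Pi.add_apply]
        refine (locI hPr).add_mem ?_ (ih (fun φ hφ => h1 φ (List.mem_cons_of_mem _ hφ))
          (fun φ hφ => h2 φ (List.mem_cons_of_mem _ hφ)))
        have hξ := h1 ξ List.mem_cons_self
        have hne := h2 ξ List.mem_cons_self
        obtain ⟨n, hn, hn1⟩ := degree_dvd_index_center hξ
        rw [he] at hn
        obtain ⟨j, _, rfl⟩ := (Nat.dvd_prime_pow hp.out).1 hn
        have hj : j ≠ 0 := by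
          rintro rfl
          apply hne
          rw [hn1]
          simp
        have hpn : ((p ^ j : ℕ) : ℂ) ∈ locI hPr := (natCast_mem_locI_iff hM _).2 (dvd_pow_self p hj)
        have hcent : centralChar ξ ⟨y, hyH⟩ = ξ ⟨y, hyH⟩ / ξ 1 := by
          have hc : Subgroup.centralizer ({⟨y, hyH⟩} : Set (supCyc D y hDy)) = ⊤ := by
            rw [eq_top_iff]
            intro g _
            rw [Subgroup.mem_centralizer_singleton_iff]
            apply Subtype.ext
            exact comm_supCyc D y hDy g.2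
          rw [centralChar, hc, Subgroup.index_top]
          simp
        have hm := centralChar_mem hPr hξ ⟨y, hyH⟩
        rw [hcent] at hm
        have h3 : ξ ⟨y, hyH⟩ = (p ^ j : ℕ) * (ξ ⟨y, hyH⟩ / ξ 1) := by
          rw [← hn1, mul_div_cancel₀ _ hξ.map_one_ne_zero]
        rw [h3]
        exact locI_mul_right hPr hm hpn
    exact hkey L hL hex

theorem s5001_aux {B : Set (IrrCharacter G)} (hB : IsPBlock M B) {D : Subgroup G} (hD : IsDefectGroup p M B D)
    {Z : Subgroup G} (hZc : Z ≤ Subgroup.center G) (hZD : Z ≤ D) (lam : ↥Z →* ℂˣ) {χ : IrrCharacter G} (hχ : χ ∈ B)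
    (hover : ∀ z : ↥Z, (χ : G → ℂ) z = (χ : G → ℂ) 1 * (lam z : ℂ)) (h0 : blockHeight p B (χ : G → ℂ) = 0) :
    ∃ μ : ↥D →* ℂˣ, ∀ z : ↥Z, μ ⟨(z : G), hZD z.2⟩ = lam z := by
  classical
  have hPr := hM.isPrime
  have hDp : IsPGroup p D := isPGroup_of_defect hD
  obtain ⟨y, hy, S, hS⟩ := hD
  have hDy : ∀ d ∈ D, d * y = y * d := by
    intro d hd
    rw [hS] at hd
    obtain ⟨t, _, rfl⟩ := hd
    have := t.2
    rw [Subgroup.mem_centralizer_singleton_iff] at this
    exact this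
  have h0' : (charDegree (χ : G → ℂ)).factorization p = minNu p B := by
    have h1 : (charDegree (χ : G → ℂ)).factorization p ≤ minNu p B := Nat.sub_eq_zero_iff_le.1 h0
    exact le_antisymm h1 (minNu_le hχ)
  have hnot := char_notMem_of_defectClass hM hB hy hχ h0'
  letI : Fintype (supCyc D y hDy) := Fintype.ofFinite _
  obtain ⟨l, hSum⟩ := exists_linear_constituent hM hDy hDp hnot
  refine ⟨l.comp (Subgroup.inclusion (le_supCyc D y hDy)), fun z => ?_⟩
  apply Units.ext
  have hzH : (z : G) ∈ supCyc D y hDy := le_supCyc D y hDy (hZD z.2)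
  let z' : supCyc D y hDy := ⟨z, hzH⟩
  show ((l z' : ℂˣ) : ℂ) = lam z
  have hzc : ∀ g : G, (z : G) * g = g * z := fun g => (Subgroup.mem_center_iff.1 (hZc z.2) g).symm
  have hχz : ∀ r : G, (χ : G → ℂ) (z * r) = (lam z : ℂ) * (χ : G → ℂ) r := by
    intro r
    rw [char_mul_central χ.2 hzc r, hover z, mul_div_cancel_left₀ _ χ.2.map_one_ne_zero]
  have hre : ∑ h : ↥(supCyc D y hDy), (χ : G → ℂ) h * conj ((l h : ℂˣ) : ℂ) =
      ∑ h : ↥(supCyc D y hDy), (χ : G → ℂ) ((z' * h : supCyc D y hDy) : G) * conj ((l (z' * h) : ℂˣ) : ℂ) :=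
    (Fintype.sum_equiv (Equiv.mulLeft z') _ _ (fun _ => rfl)).symm
  have hfac : ∑ h : ↥(supCyc D y hDy), (χ : G → ℂ) ((z' * h : supCyc D y hDy) : G) * conj ((l (z' * h) : ℂˣ) : ℂ) =
      ((lam z : ℂ) * conj ((l z' : ℂˣ) : ℂ)) * ∑ h : ↥(supCyc D y hDy), (χ : G → ℂ) h * conj ((l h : ℂˣ) : ℂ) := by
    rw [Finset.mul_sum]
    refine Finset.sum_congr rfl fun h _ => ?_
    have : ((z' * h : supCyc D y hDy) : G) = z * (h : G) := rfl
    rw [this, hχz, map_mul, Units.val_mul, map_mul]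
    ring
  rw [hfac] at hre
  have hone : (lam z : ℂ) * conj ((l z' : ℂˣ) : ℂ) = 1 := by
    have h1 := mul_right_cancel₀ hSum ((one_mul _).trans hre)
    exact h1.symm
  have hpow : ((l z' : ℂˣ) : ℂ) ^ Nat.card (supCyc D y hDy) = 1 := by
    rw [← Units.val_pow_eq_pow_val, ← map_pow, pow_card_eq_one', map_one, Units.val_one]
  have hconj := inv_eq_conj_of_pow_eq_one Nat.card_pos hpow
  rw [← hconj] at hone
  have hne : ((l z' : ℂˣ) : ℂ) ≠ 0 := Units.ne_zero _
  field_simp at hone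
  exact hone.symm

end

end CfsgLib.Block
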