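import Cfsg.Agent.Lib.Block.NV3
import Cfsg.Agent.Lib.Block.Kern
import Cfsg.Agent.Lib.Block.KB2
import Cfsg.Agent.Lib.Block.BrauerFeit
import Cfsg.Agent.Lib.Block.FongRey

/-! # Non-vanishing modulo the ideal of the block part of the degree -/

set_option autoImplicit false
set_option linter.unusedSectionVars false
set_option linter.unusedVariables false

namespace CfsgLib.Block

open Cfsg CfsgLib.Char
open scoped ComplexConjugate Pointwise

universe u

section Main

variable {G : Type u} [Group G] [Fintype G] {p : ℕ} [hp : Fact p.Prime] {M : Ideal AlgInt} (hM : IsPModular p M)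

attribute [local instance] centFintype

/-- The degree with the block `p`-part removed. -/
noncomputable def dstar (p : ℕ) {H : Type u} [Group H] [Fintype H] (b : Set (IrrCharacter H)) (ψ : IrrCharacter H) : ℕ :=
  charDegree (ψ : H → ℂ) / p ^ minNu p b

theorem degree_eq_dstar {H : Type u} [Group H] [Fintype H] {b : Set (IrrCharacter H)} {ψ : IrrCharacter H} (hψ : ψ ∈ b) :
    charDegree (ψ : H → ℂ) = p ^ minNu p b * dstar p b ψ :=
  (Nat.mul_div_cancel' (pow_minNu_dvd hψ)).symm

theorem one_eq_dstar {H : Type u} [Group H] [Fintype H] {b : Set (IrrCharacter H)} {ψ : IrrCharacter H} (hψ : ψ ∈ b) :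
    (ψ : H → ℂ) 1 = ((p ^ minNu p b : ℕ) : ℂ) * (dstar p b ψ : ℂ) := by
  rw [← coe_charDegree ψ.2.isCharacter, degree_eq_dstar (p := p) hψ]
  push_cast
  ring

theorem hat_trA_class {H : Type u} [Group H] [Fintype H] {v : H → ℂ} (hv : IsClassFunction H v) (Y : Subgroup H) (a : GA H) :
    hat v (trA Y a) = ((Nat.card H : ℂ) / (Nat.card Y : ℂ)) * hat v a := by
  classical
  rw [trA_eq_sum, hat_smul, hat_sum]
  simp only [hat_cj hv]
  rw [Finset.sum_const, Finset.card_univ, nsmul_eq_mul, Nat.card_eq_fintype_card (α := H)]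
  ring

/-- Expansion of the linear extension of a class function. -/
theorem hat_class_expand {H : Type u} [Group H] [Fintype H] {v : H → ℂ} (hv : IsClassFunction H v) (a : GA H) :
    hat v a = ∑ ψ : IrrCharacter H, classInner v (ψ : H → ℂ) * hat (ψ : H → ℂ) a := by
  classical
  simp only [hat, Finset.mul_sum]
  rw [Finset.sum_comm]
  refine Finset.sum_congr rfl fun c _ => ?_
  rw [classFunction_apply hv c, Finset.mul_sum]
  refine Finset.sum_congr rfl fun ψ _ => ?_
  ring

include hM

/-- Central `p`-elements lie in the defect groups. -/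
theorem central_mem_defect {H : Type u} [Group H] [Fintype H] {f : Set (IrrCharacter H)} {D : Subgroup H}
    (hD : IsDefectGroup p M f D) {x : H} (hx : ∀ h : H, h * x = x * h) {k : ℕ} (hk : orderOf x = p ^ k) : x ∈ D := by
  obtain ⟨g, hg, S, rfl⟩ := hD
  have hxc : x ∈ Subgroup.centralizer ({g} : Set H) := Subgroup.mem_centralizer_singleton_iff.2 (hx g).symm
  let x₂ : Subgroup.centralizer ({g} : Set H) := ⟨x, hxc⟩
  have hT : (Subgroup.zpowers x₂).Normal := by
    constructor
    rintro _ ⟨i, rfl⟩ c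
    refine ⟨i, ?_⟩
    have hc : c * x₂ * c⁻¹ = x₂ := by
      apply Subtype.ext
      show (c : H) * x * (c : H)⁻¹ = x
      rw [hx]
      group
    simp only
    rw [← conj_zpow, hc]
  have hTp : IsPGroup p (Subgroup.zpowers x₂) := by
    rw [IsPGroup.iff_card]
    refine ⟨k, ?_⟩
    rw [Nat.card_zpowers, Subgroup.orderOf_mk, hk]
  have h1 := IsPGroup.to_sup_of_normal_left hTp S.isPGroup'
  have h2 := S.is_maximal' h1 le_sup_right
  have h3 : x₂ ∈ (S : Subgroup _) := by
    rw [← h2]
    exact Subgroup.mem_sup_left (Subgroup.mem_zpowers x₂)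
  exact ⟨x₂, h3, rfl⟩

open Classical in
/-- **The block part of the degree of a height zero character.** -/
theorem projDeg_not_mem {B : Set (IrrCharacter G)} (hB : IsPBlock M B) {χ : IrrCharacter G} (hχ : χ ∈ B)
    (h0 : (charDegree (χ : G → ℂ)).factorization p = minNu p B) {u : G} {k : ℕ} (hu : orderOf u = p ^ k)
    (X : Subgroup G) [Fintype X] (hX : X = Subgroup.centralizer ({u} : Set G)) {b : Set (IrrCharacter X)}
    (hb : IsInducedBlock M X b B) :
    (∑ ψ : IrrCharacter X, if ψ ∈ b then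
      classInner (fun c : X => (χ : G → ℂ) c) (ψ : X → ℂ) * (dstar p b ψ : ℂ) else 0) ∉ locI hM.isPrime := by
  classical
  have hP := hM.isPrime
  have hbb : IsPBlock M b := hb.1
  obtain ⟨D', hD'⟩ := exists_defectGroup hM hbb
  have huX : u ∈ X := by rw [hX]; exact Subgroup.mem_centralizer_singleton_iff.2 rfl
  have hcentu : ∀ c : X, (c : G) * u = u * c := by
    intro c
    have : (c : G) ∈ Subgroup.centralizer ({u} : Set G) := hX ▸ c.2
    exact Subgroup.mem_centralizer_singleton_iff.1 this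
  let u₁ : X := ⟨u, huX⟩
  have hu₁ : ∀ h : X, h * u₁ = u₁ * h := fun h => Subtype.ext (hcentu h)
  have hu₁o : orderOf u₁ = p ^ k := by rw [Subgroup.orderOf_mk, hu]
  have hu₁D : u₁ ∈ D' := central_mem_defect hM hD' hu₁ hu₁o
  let D : Subgroup G := D'.map X.subtype
  have hDp : IsPGroup p D := (isPGroup_of_defect hD').map _
  have hDX : D ≤ X := by
    rintro _ ⟨d, _, rfl⟩
    exact d.2
  have huD : u ∈ D := ⟨u₁, hu₁D, rfl⟩
  have hCX : Subgroup.centralizer (D : Set G) ≤ X := by
    intro z hz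
    rw [hX, Subgroup.mem_centralizer_singleton_iff]
    exact ((Subgroup.mem_centralizer_iff.1 hz) u huD).symm
  have hDN : D ≤ Subgroup.normalizer (X : Set G) := fun d hd => Subgroup.le_normalizer (hDX hd)
  have hfP : PInv D (incl X (fB b)) := pInv_of_cent hDX (isCent_fB b)
  have hFC : PInv (Subgroup.centralizer (D : Set G)) (incl X (fB b)) := pInv_of_cent hCX (isCent_fB b)
  obtain ⟨c, hcD, hcne⟩ := coeff_of_defect (P := D) hD' le_rfl hP
  obtain ⟨e, hpair, hlam⟩ := exists_pair_of_coeff hM hDp hCX hDN hb hfP hcD hcne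
  obtain ⟨R, g, hle, hmax⟩ := exists_maximal_above hM _ _ hpair
  obtain ⟨w, hws, hwf, hwn⟩ := good_chain hM χ.2.isCharacter hle (good_base hM hB hχ h0 hmax)
  simp only at w hws hwf hwn
  have hFs : SVal hP (incl X (fB b)) := sval_incl _ hP (sval_fB hM hbb)
  have hFF : incl X (fB b) * incl X (fB b) = incl X (fB b) := by rw [← incl_mul, fB_mul_self]
  have h1 := step_core hM hDp χ.2.isCharacter hpair.1.2 hws hwf hFs hfP hFC hFF hlam
  have hn1 : hat (χ : G → ℂ) (incl (Subgroup.centralizer (D : Set G)) w * incl X (fB b)) ∉ locI hP := by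
    intro h
    apply hwn
    have h2 := (locI hP).sub_mem h h1
    rwa [sub_sub_cancel] at h2
  set A : GA G := incl (Subgroup.centralizer (D : Set G)) w with hA
  have hAsupp : ∀ g, g ∉ X → A.coeff g = 0 := fun g hg => coeff_incl_not_mem _ _ (fun h => hg (hCX h))
  have hAs : SVal hP A := sval_incl _ hP hws
  let a₀ : GA X := res X A
  let a₁ : GA X := a₀ * fB b
  have hincl : incl X a₀ = A := incl_res_of_support X hAsupp
  have ha₁s : SVal hP a₁ := SVal.mul hP (sval_res _ hP hAs) (sval_fB hM hbb)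
  have ha₁f : a₁ * fB b = a₁ := by
    show a₀ * fB b * fB b = a₀ * fB b
    rw [mul_assoc, fB_mul_self]
  have hhat : hat (fun c : X => (χ : G → ℂ) c) a₁ ∉ locI hP := by
    rw [← hat_incl]
    have : incl X a₁ = A * incl X (fB b) := by
      show incl X (a₀ * fB b) = _
      rw [incl_mul, hincl]
    rw [this]
    exact hn1
  -- invariance under the defect group
  have hAQ : PInv D A := by
    refine pInv_incl ?_ fun c hc u hu => ?_
    · intro c hc
      rw [Subgroup.mem_normalizer_iff]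
      intro u
      constructor
      · intro h
        rwa [(mem_centralizer_iff_conj D u).1 h c hc]
      · intro h
        have h1 := (mem_centralizer_iff_conj D _).1 h c⁻¹ (D.inv_mem hc)
        have h2 : c⁻¹ * (c * u * c⁻¹) * c⁻¹⁻¹ = u := by group
        rw [h2] at h1
        rw [h1]
        exact h
    · congr 1
      apply Subtype.ext
      exact (mem_centralizer_iff_conj D _).1 u.2 c hc
  have ha₀inv : PInv D' a₀ := fun d hd v => hAQ (d : G) ⟨d, hd, rfl⟩ (v : G)
  have ha₁inv : PInv D' a₁ := ha₀inv.mul ((isCent_fB b).pInv _)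
  let T : GA X := trA D' a₁
  have hTc : IsCent T := isCent_trA D' a₁
  have hTs : SVal hP T := sval_trA hP ha₁inv ha₁s
  have hTf : T * fB b = T := by
    show trA D' a₁ * fB b = trA D' a₁
    rw [← trA_mul_cent D' a₁ (isCent_fB b), ha₁f]
  have hχC : IsCharacter X (fun c : X => (χ : G → ℂ) c) := χ.2.isCharacter.restrict X
  have hhatT := hat_trA_class hχC.isClassFunction D' a₁
  have hexp := hat_class_expand hχC.isClassFunction T
  have hzero : ∀ ψ : IrrCharacter X, ψ ∉ b → hat (ψ : X → ℂ) T = 0 := by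
    intro ψ hψ
    rw [← hTf, ← (isCent_fB b).commute, hat_mul_of_cent ψ.2 (isCent_fB b), om_fB, if_neg hψ, zero_mul]
  have hcardD := card_defectGroup hM hbb hD'
  obtain ⟨ψ₀, hψ₀⟩ := IsPBlock.nonempty hP hbb
  have hle' : minNu p b ≤ (Nat.card X).factorization p :=
    (minNu_le hψ₀).trans minNu_le_factorization
  have hdef : (Nat.card X).factorization p = minNu p b + blockDefect p b := by
    rw [blockDefect_eq]; omega
  have hcardX : (Nat.card X : ℂ) = (Nat.card D' : ℂ) * (((p ^ minNu p b : ℕ) : ℂ) * (mm p X : ℂ)) := by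
    have h2 := pow_mul_mm (p := p) (G := X)
    rw [hdef, pow_add] at h2
    rw [← h2, hcardD]
    push_cast
    ring
  have hD0 : (Nat.card D' : ℂ) ≠ 0 := card_subgroup_ne_zero D'
  have hpν : ((p ^ minNu p b : ℕ) : ℂ) ≠ 0 := by exact_mod_cast (pow_pos hp.out.pos _).ne'
  have hmain : (mm p X : ℂ) * hat (fun c : X => (χ : G → ℂ) c) a₁ =
      ∑ ψ : IrrCharacter X, if ψ ∈ b then
        classInner (fun c : X => (χ : G → ℂ) c) (ψ : X → ℂ) * (dstar p b ψ : ℂ) * om (ψ : X → ℂ) T else 0 := by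
    apply mul_left_cancel₀ hpν
    have h2 : ((p ^ minNu p b : ℕ) : ℂ) * ((mm p X : ℂ) * hat (fun c : X => (χ : G → ℂ) c) a₁) =
        hat (fun c : X => (χ : G → ℂ) c) T := by
      show _ = hat (fun c : X => (χ : G → ℂ) c) (trA D' a₁)
      rw [hhatT, hcardX]
      field_simp
    rw [h2, hexp, Finset.mul_sum]
    refine Finset.sum_congr rfl fun ψ _ => ?_
    by_cases hψ : ψ ∈ b
    · rw [if_pos hψ]
      have hone := one_eq_dstar (p := p) hψ
      have hψ1 : (ψ : X → ℂ) 1 ≠ 0 := by
        rw [← coe_charDegree ψ.2.isCharacter]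
        exact_mod_cast charDegree_ne_zero ψ.2
      have h3 : hat (ψ : X → ℂ) T = (ψ : X → ℂ) 1 * om (ψ : X → ℂ) T := by
        rw [om]
        field_simp
      rw [h3, hone]
      ring
    · rw [if_neg hψ, hzero ψ hψ, mul_zero, mul_zero]
  intro hf
  apply hhat
  have hsb : ∀ ψ ∈ b, om (ψ : X → ℂ) T - om (ψ₀ : X → ℂ) T ∈ locI hP := by
    intro ψ hψ
    obtain ⟨θ, hθ⟩ := hbb
    rw [hθ] at hψ hψ₀
    exact om_sub_mem_of_sameBlock hP ψ.2 ψ₀.2 (SameBlock.trans hP (SameBlock.symm hP hψ) hψ₀) hTc hTs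
  have hnat : ∀ ψ : IrrCharacter X, classInner (fun c : X => (χ : G → ℂ) c) (ψ : X → ℂ) * (dstar p b ψ : ℂ) ∈ locR hP := by
    intro ψ
    obtain ⟨n, hn⟩ := hχC.classInner_nat ψ.2
    rw [hn]
    exact mul_mem (natCast_mem _ _) (natCast_mem _ _)
  have h4 : (mm p X : ℂ) * hat (fun c : X => (χ : G → ℂ) c) a₁ ∈ locI hP := by
    have h5 : (∑ ψ : IrrCharacter X, if ψ ∈ b then
        classInner (fun c : X => (χ : G → ℂ) c) (ψ : X → ℂ) * (dstar p b ψ : ℂ) * om (ψ : X → ℂ) T else 0) =
        om (ψ₀ : X → ℂ) T * (∑ ψ : IrrCharacter X, if ψ ∈ b then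
          classInner (fun c : X => (χ : G → ℂ) c) (ψ : X → ℂ) * (dstar p b ψ : ℂ) else 0) +
        ∑ ψ : IrrCharacter X, if ψ ∈ b then
          classInner (fun c : X => (χ : G → ℂ) c) (ψ : X → ℂ) * (dstar p b ψ : ℂ) * (om (ψ : X → ℂ) T - om (ψ₀ : X → ℂ) T) else 0 := by
      rw [Finset.mul_sum, ← Finset.sum_add_distrib]
      refine Finset.sum_congr rfl fun ψ _ => ?_
      split_ifs
      · ring
      · simp
    rw [hmain, h5]
    refine (locI hP).add_mem (locI_mul_left hP (om_mem hP ψ₀.2 hTc hTs) hf) (sum_mem fun ψ _ => ?_)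
    split_ifs with hψ
    · exact locI_mul_left hP (hnat ψ) (hsb ψ hψ)
    · exact zero_mem _
  have hmm0 : (mm p X : ℂ) ≠ 0 := natCast_ne_zero_of_not_dvd hM not_dvd_mm
  have h6 := locI_mul_left hP (natCast_inv_mem hM (not_dvd_mm (p := p) (G := X))) h4
  rwa [← mul_assoc, inv_mul_cancel₀ hmm0, one_mul] at h6

end Main

end CfsgLib.Block
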