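import Cfsg.Agent.Lib.Block.KB3

/-! # The regular inner products in a block, modulo the ideal -/

set_option autoImplicit false
set_option linter.unusedSectionVars false
set_option linter.unusedVariables false

namespace CfsgLib.Block

open Cfsg CfsgLib.Char
open scoped ComplexConjugate Pointwise

universe u

section Reg

variable {H : Type u} [Group H] [Fintype H] {p : ℕ} [hp : Fact p.Prime] {M : Ideal AlgInt} (hM : IsPModular p M)

theorem classInner_tl_eq (ψ ξ : H → ℂ) :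
    classInner (tl p ψ) ξ = ((p ^ (Nat.card H).factorization p : ℕ) : ℂ) * classInner (regPart p ψ) ξ := by
  classical
  have h : tl p ψ = ((p ^ (Nat.card H).factorization p : ℕ) : ℂ) • regPart p ψ := by
    funext x
    by_cases hx : p ∣ orderOf x
    · simp [tl_of_singular _ hx, regPart_of_singular _ hx]
    · simp [tl_of_regular _ hx, regPart_of_regular _ hx]
  rw [h, classInner_smul_left]

theorem classInner_regPart_reg (ψ ξ : H → ℂ) :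
    classInner (regPart p ψ) (regPart p ξ) = classInner (regPart p ψ) ξ := by
  classical
  rw [classInner_def, classInner_def]
  congr 1
  refine Finset.sum_congr rfl fun x _ => ?_
  by_cases hx : p ∣ orderOf x
  · simp [regPart_of_singular _ hx]
  · simp [regPart_of_regular _ hx]

include hM

/-- The integers `p^d ⟨reg ψ, ξ⟩` and their reduction modulo the ideal. -/
theorem exists_nb {b : Set (IrrCharacter H)} (hb : IsPBlock M b) :
    ∃ (n : IrrCharacter H → IrrCharacter H → ℤ) (c : ℂ), c ∈ locR hM.isPrime ∧ c ∉ locI hM.isPrime ∧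
      (∀ ψ ∈ b, ∀ ξ : IrrCharacter H,
        ((p ^ blockDefect p b : ℕ) : ℂ) * classInner (regPart p (ψ : H → ℂ)) (ξ : H → ℂ) = (n ψ ξ : ℂ)) ∧
      (∀ ψ ∈ b, ∀ ξ ∈ b, (n ψ ξ : ℂ) - c * (dstar p b ψ : ℂ) * (dstar p b ξ : ℂ) ∈ locI hM.isPrime) := by
  classical
  have hP := hM.isPrime
  set mν := minNu p b with hmν
  let n : IrrCharacter H → IrrCharacter H → ℤ := fun ψ ξ => nZ p ψ ξ / ((p ^ mν : ℕ) : ℤ)
  have hdvd : ∀ ψ ∈ b, ∀ ξ : IrrCharacter H, ((p ^ mν : ℕ) : ℤ) ∣ nZ p ψ ξ := by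
    intro ψ hψ ξ
    refine dvd_trans ?_ (pow_dvd_nZ (p := p) hM ψ ξ)
    exact_mod_cast pow_dvd_pow p (minNu_le hψ)
  have hnZ : ∀ ψ ∈ b, ∀ ξ : IrrCharacter H, nZ p ψ ξ = ((p ^ mν : ℕ) : ℤ) * n ψ ξ := by
    intro ψ hψ ξ
    exact (Int.mul_ediv_cancel' (hdvd ψ hψ ξ)).symm
  have hnsymm : ∀ ψ ξ : IrrCharacter H, n ψ ξ = n ξ ψ := by
    intro ψ ξ
    show nZ p ψ ξ / _ = nZ p ξ ψ / _
    rw [nZ_symm]
  have hpν : ((p ^ mν : ℕ) : ℂ) ≠ 0 := by exact_mod_cast (pow_pos hp.out.pos _).ne'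
  obtain ⟨ψ₀, hψ₀, hh⟩ := exists_minNu_eq (p := p) (IsPBlock.nonempty hP hb)
  have hle : mν ≤ (Nat.card H).factorization p := (minNu_le hψ₀).trans minNu_le_factorization
  have hdef : (Nat.card H).factorization p = mν + blockDefect p b := by
    rw [blockDefect_eq]; omega
  have h1 : ∀ ψ ∈ b, ∀ ξ : IrrCharacter H,
      ((p ^ blockDefect p b : ℕ) : ℂ) * classInner (regPart p (ψ : H → ℂ)) (ξ : H → ℂ) = (n ψ ξ : ℂ) := by
    intro ψ hψ ξ
    apply mul_left_cancel₀ hpν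
    have h2 := nZ_spec (p := p) ψ ξ
    rw [classInner_tl_eq, hnZ ψ hψ ξ, hdef, pow_add] at h2
    push_cast at h2 ⊢
    rw [← mul_assoc]
    exact h2
  have h2 : ∀ ψ ∈ b, ∀ ξ : IrrCharacter H, (n ψ ξ : ℂ) = (dstar p b ψ : ℂ) * om (ψ : H → ℂ) (aReg p (ξ : H → ℂ)) := by
    intro ψ hψ ξ
    apply mul_left_cancel₀ hpν
    have hone := one_eq_dstar (p := p) hψ
    have hψ1 : (ψ : H → ℂ) 1 ≠ 0 := by
      rw [← coe_charDegree ψ.2.isCharacter]
      exact_mod_cast charDegree_ne_zero ψ.2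
    rw [om_aReg, nZ_spec, hnZ ψ hψ ξ]
    rw [← hmν] at hone
    have hd : (dstar p b ψ : ℂ) ≠ 0 := by
      intro h
      rw [h, mul_zero] at hone
      exact hψ1 hone
    rw [hone]
    push_cast
    have hpν' : (p : ℂ) ^ mν ≠ 0 := by simpa using hpν
    field_simp
  -- the unit
  have hd₀ : ¬ p ∣ dstar p b ψ₀ := by
    intro h
    obtain ⟨t, ht⟩ := h
    have h3 := degree_eq_dstar (p := p) hψ₀
    rw [ht] at h3
    have hdeg0 := charDegree_ne_zero ψ₀.2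
    have h4 : p ^ (mν + 1) ∣ charDegree (ψ₀ : H → ℂ) := ⟨t, by rw [h3, pow_succ]; ring⟩
    have h5 := (hp.out.pow_dvd_iff_le_factorization hdeg0).1 h4
    omega
  set d₀ : ℂ := (dstar p b ψ₀ : ℂ) with hd₀def
  have hd₀0 : d₀ ≠ 0 := natCast_ne_zero_of_not_dvd hM hd₀
  have hd₀i : d₀⁻¹ ∈ locR hP := natCast_inv_mem hM hd₀
  have homs : ∀ ξ : IrrCharacter H, SVal hP (aReg p (ξ : H → ℂ)) := fun ξ => sval_aReg hM ξ.2.isCharacter
  have homc : ∀ ξ : IrrCharacter H, IsCent (aReg p (ξ : H → ℂ)) := fun ξ => isCent_aReg ξ.2.isClassFunction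
  set c : ℂ := om (ψ₀ : H → ℂ) (aReg p (ψ₀ : H → ℂ)) * d₀⁻¹ with hc
  have hom₀ := (height_zero_iff_om hM hb hψ₀ hψ₀).1 hh
  have hsame : ∀ ψ ∈ b, ∀ (a : GA H), IsCent a → SVal hP a → om (ψ : H → ℂ) a - om (ψ₀ : H → ℂ) a ∈ locI hP := by
    intro ψ hψ a ha has
    obtain ⟨θ, hθ⟩ := hb
    rw [hθ] at hψ hψ₀
    exact om_sub_mem_of_sameBlock hP ψ.2 ψ₀.2 (SameBlock.trans hP (SameBlock.symm hP hψ) hψ₀) ha has
  refine ⟨n, c, mul_mem (om_mem hP ψ₀.2 (homc _) (homs _)) hd₀i, ?_, h1, ?_⟩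
  · intro h
    apply hom₀
    have h3 := locI_mul_right hP (natCast_mem _ (dstar p b ψ₀)) h
    rwa [hc, mul_assoc, inv_mul_cancel₀ hd₀0, mul_one] at h3
  · intro ψ hψ ξ hξ
    have h3 : om (ψ₀ : H → ℂ) (aReg p (ξ : H → ℂ)) - (dstar p b ξ : ℂ) * c ∈ locI hP := by
      have h4 : d₀ * om (ψ₀ : H → ℂ) (aReg p (ξ : H → ℂ)) = (dstar p b ξ : ℂ) * om (ξ : H → ℂ) (aReg p (ψ₀ : H → ℂ)) := by
        rw [← h2 ψ₀ hψ₀ ξ, ← h2 ξ hξ ψ₀, hnsymm]
      have h5 : om (ψ₀ : H → ℂ) (aReg p (ξ : H → ℂ)) = d₀⁻¹ * ((dstar p b ξ : ℂ) * om (ξ : H → ℂ) (aReg p (ψ₀ : H → ℂ))) := by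
        rw [← h4]
        field_simp
      have h6 : om (ψ₀ : H → ℂ) (aReg p (ξ : H → ℂ)) - (dstar p b ξ : ℂ) * c =
          (d₀⁻¹ * (dstar p b ξ : ℂ)) * (om (ξ : H → ℂ) (aReg p (ψ₀ : H → ℂ)) - om (ψ₀ : H → ℂ) (aReg p (ψ₀ : H → ℂ))) := by
        rw [h5, hc]
        ring
      rw [h6]
      exact locI_mul_left hP (mul_mem hd₀i (natCast_mem _ _)) (hsame ξ hξ _ (homc _) (homs _))
    have h7 : (n ψ ξ : ℂ) - c * (dstar p b ψ : ℂ) * (dstar p b ξ : ℂ) =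
        (dstar p b ψ : ℂ) * ((om (ψ : H → ℂ) (aReg p (ξ : H → ℂ)) - om (ψ₀ : H → ℂ) (aReg p (ξ : H → ℂ))) +
          (om (ψ₀ : H → ℂ) (aReg p (ξ : H → ℂ)) - (dstar p b ξ : ℂ) * c)) := by
      rw [h2 ψ hψ ξ]
      ring
    rw [h7]
    exact locI_mul_left hP (natCast_mem _ _) ((locI hP).add_mem (hsame ψ hψ _ (homc _) (homs _)) h3)

end Reg

end CfsgLib.Block
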