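import Cfsg.Agent.Lib.Block.KB4
import Cfsg.Agent.Lib.Char.GalSum

/-! # A Parseval identity for the block parts of sections -/

set_option autoImplicit false
set_option linter.unusedSectionVars false
set_option linter.unusedVariables false

namespace CfsgLib.Block

open Cfsg CfsgLib.Char
open scoped ComplexConjugate Pointwise

universe u

section Gen

variable {H : Type u} [Group H] [Fintype H]

theorem sum_inner_mul_conj {ι : Type*} (S : Finset ι) (A : ι → H → ℂ) (f g : H → ℂ) :
    ∑ i ∈ S, classInner (A i) f * conj (classInner (A i) g) =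
      ((Nat.card H : ℂ)⁻¹) ^ 2 * ∑ s, ∑ t, conj (f s) * g t * ∑ i ∈ S, A i s * conj (A i t) := by
  have h : ∀ i, classInner (A i) f * conj (classInner (A i) g) =
      ((Nat.card H : ℂ)⁻¹) ^ 2 * ∑ s, ∑ t, conj (f s) * g t * (A i s * conj (A i t)) := by
    intro i
    rw [classInner_def, classInner_def, map_mul, map_inv₀, Complex.conj_natCast, map_sum, mul_mul_mul_comm,
      Finset.sum_mul_sum, sq]
    congr 1
    refine Finset.sum_congr rfl fun s _ => Finset.sum_congr rfl fun t _ => ?_
    rw [map_mul, Complex.conj_conj]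
    ring
  rw [Finset.sum_congr rfl (fun i _ => h i), ← Finset.mul_sum]
  congr 1
  rw [Finset.sum_comm]
  refine Finset.sum_congr rfl fun s _ => ?_
  rw [Finset.sum_comm]
  refine Finset.sum_congr rfl fun t _ => ?_
  rw [Finset.mul_sum]

end Gen

section Main

variable {G : Type u} [Group G] [Fintype G] {p : ℕ} [hp : Fact p.Prime] {M : Ideal AlgInt} (hM : IsPModular p M)

/-- The regular part of the block part of a section. -/
noncomputable def kbF (p : ℕ) (u : G) (X : Subgroup G) [Fintype X] (b : Set (IrrCharacter X)) (χ : IrrCharacter G) : X → ℂ :=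
  regPart p (proj b (fun c : X => (χ : G → ℂ) (u * (c : G))))

include hM

open Classical in
theorem kbF_kernel {u : G} {k : ℕ} (hu : orderOf u = p ^ k) (X : Subgroup G) [Fintype X]
    (hX : X = Subgroup.centralizer ({u} : Set G)) {b : Set (IrrCharacter X)} (hb : IsPBlock M b) (s t : X) :
    ∑ χ : IrrCharacter G, kbF p u X b χ s * conj (kbF p u X b χ t) =
      ∑ ψ : IrrCharacter X, if ψ ∈ b then regPart p (ψ : X → ℂ) s * conj (regPart p (ψ : X → ℂ) t) else 0 := by
  subst hX
  by_cases hs : p ∣ orderOf s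
  · simp [kbF, regPart_of_singular _ hs]
  by_cases ht : p ∣ orderOf t
  · simp [kbF, regPart_of_singular _ ht]
  simp only [kbF, regPart_of_regular _ hs, regPart_of_regular _ ht]
  exact section_cartan hM hu hb s t hs ht

open Classical in
theorem kbF_star {u : G} {k : ℕ} (hu : orderOf u = p ^ k) (X : Subgroup G) [Fintype X]
    (hX : X = Subgroup.centralizer ({u} : Set G)) {b : Set (IrrCharacter X)} (hb : IsPBlock M b) (f g : X → ℂ) :
    ∑ χ : IrrCharacter G, classInner (kbF p u X b χ) f * conj (classInner (kbF p u X b χ) g) =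
      ∑ ψ : IrrCharacter X, if ψ ∈ b then classInner (regPart p (ψ : X → ℂ)) f * conj (classInner (regPart p (ψ : X → ℂ)) g) else 0 := by
  rw [sum_inner_mul_conj, ← Finset.sum_filter, sum_inner_mul_conj]
  congr 1
  refine Finset.sum_congr rfl fun s _ => Finset.sum_congr rfl fun t _ => ?_
  rw [kbF_kernel hM hu X hX hb s t, Finset.sum_filter]

theorem classInner_reg_off_block {X : Type u} [Group X] [Fintype X] {b : Set (IrrCharacter X)} (hb : IsPBlock M b) {ψ θ : IrrCharacter X}
    (hψ : ψ ∈ b) (hθ : θ ∉ b) : classInner (regPart p (ψ : X → ℂ)) (θ : X → ℂ) = 0 := by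
  classical
  obtain ⟨a, ha, hs⟩ := tl_eq_sum_block hM hb hψ
  have h0 : ((p ^ (Nat.card X).factorization p : ℕ) : ℂ) ≠ 0 := by exact_mod_cast (pow_pos hp.out.pos _).ne'
  apply mul_left_cancel₀ h0
  rw [mul_zero, ← classInner_tl_eq]
  have h1 : tl p (ψ : X → ℂ) = ∑ ξ : IrrCharacter X, (a ξ : ℂ) • (ξ : X → ℂ) := by
    funext x
    rw [hs x, Finset.sum_apply]
    rfl
  rw [h1, classInner_sum_left]
  refine Finset.sum_eq_zero fun ξ _ => ?_
  rw [classInner_smul_left]
  by_cases h : ξ = θ
  · subst h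
    rw [ha _ hθ]
    simp
  · rw [classInner_irr_ne ξ.2 θ.2 (fun e => h (Subtype.ext e)), mul_zero]

open Classical in
theorem sum_reg_inner_sq {X : Type u} [Group X] [Fintype X] {b : Set (IrrCharacter X)} (hb : IsPBlock M b) :
    (∑ ψ : IrrCharacter X, if ψ ∈ b then
      (∑ ξ : IrrCharacter X, if ξ ∈ b then
        classInner (regPart p (ξ : X → ℂ)) (regPart p (ψ : X → ℂ)) *
          conj (classInner (regPart p (ξ : X → ℂ)) (regPart p (ψ : X → ℂ))) else 0) else 0) = (blockRank p b : ℂ) := by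
  have h1 : ∀ ψ ∈ b, (∑ ξ : IrrCharacter X, if ξ ∈ b then
        classInner (regPart p (ξ : X → ℂ)) (regPart p (ψ : X → ℂ)) *
          conj (classInner (regPart p (ξ : X → ℂ)) (regPart p (ψ : X → ℂ))) else 0) =
      classInner (regPart p (ψ : X → ℂ)) (ψ : X → ℂ) := by
    intro ψ hψ
    have h2 := classInner_parseval (isClass_regPart (p := p) ψ.2.isClassFunction) (regPart p (ψ : X → ℂ))
    rw [classInner_regPart_reg] at h2
    rw [h2]
    refine Finset.sum_congr rfl fun ξ _ => ?_
    split_ifs with hξ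
    · have e1 : classInner (regPart p (ξ : X → ℂ)) (regPart p (ψ : X → ℂ)) = classInner (ξ : X → ℂ) (regPart p (ψ : X → ℂ)) := by
        rw [← conj_classInner (regPart p (ψ : X → ℂ)) (regPart p (ξ : X → ℂ)), classInner_regPart_reg, conj_classInner]
      have e2 : conj (classInner (regPart p (ξ : X → ℂ)) (regPart p (ψ : X → ℂ))) = classInner (regPart p (ψ : X → ℂ)) (ξ : X → ℂ) := by
        rw [conj_classInner, classInner_regPart_reg]
      rw [e2, e1, mul_comm]
    · rw [classInner_reg_off_block hM hb hψ hξ, zero_mul]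
  have h3 : ∀ ψ : IrrCharacter X, (if ψ ∈ b then
      (∑ ξ : IrrCharacter X, if ξ ∈ b then
        classInner (regPart p (ξ : X → ℂ)) (regPart p (ψ : X → ℂ)) *
          conj (classInner (regPart p (ξ : X → ℂ)) (regPart p (ψ : X → ℂ))) else 0) else 0) =
      (Nat.card X : ℂ)⁻¹ * ∑ x : X, if ψ ∈ b then pRegularPart p (ψ : X → ℂ) x * (ψ : X → ℂ) x⁻¹ else 0 := by
    intro ψ
    by_cases hψ : ψ ∈ b
    · simp only [if_pos hψ]
      rw [h1 ψ hψ, classInner_def, pRegularPart_eq_regPart]
      congr 1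
      refine Finset.sum_congr rfl fun x _ => ?_
      rw [ψ.2.map_inv]
    · simp [if_neg hψ]
  rw [Finset.sum_congr rfl fun ψ _ => h3 ψ, ← Finset.mul_sum, Finset.sum_comm]
  have h4 := card_mul_blockRank hM hb
  have h5 : ∀ x : X, ∑ᶠ χ ∈ b, pRegularPart p (χ : X → ℂ) x * (χ : X → ℂ) x⁻¹ =
      ∑ ψ : IrrCharacter X, if ψ ∈ b then pRegularPart p (ψ : X → ℂ) x * (ψ : X → ℂ) x⁻¹ else 0 := by
    intro x
    rw [finsum_mem_eq_sum_ite]
  rw [Finset.sum_congr rfl fun x _ => (h5 x).symm, ← h4]
  have h6 : (Nat.card X : ℂ) ≠ 0 := by exact_mod_cast Nat.card_pos.ne'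
  field_simp

theorem kbF_zero {u : G} {k : ℕ} (hu : orderOf u = p ^ k) (X : Subgroup G) [Fintype X]
    (hX : X = Subgroup.centralizer ({u} : Set G)) {b : Set (IrrCharacter X)} {B : Set (IrrCharacter G)}
    (hind : IsInducedBlock M X b B) {χ : IrrCharacter G} (hχ : χ ∉ B) : kbF p u X b χ = 0 := by
  classical
  subst hX
  have hP := hM.isPrime
  funext s
  by_cases hs : p ∣ orderOf s
  · simp [kbF, regPart_of_singular _ hs]
  · simp only [kbF, regPart_of_regular _ hs, Pi.zero_apply]
    refine second_main hM hu ⟨χ, rfl⟩ (self_mem_blockOf hP χ) hind.1 (fun h => hχ ?_) s hs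
    rw [induced_unique hM hind h]
    exact self_mem_blockOf hP χ

open Classical in
/-- **The Parseval identity.** -/
theorem kbF_parseval {u : G} {k : ℕ} (hu : orderOf u = p ^ k) (X : Subgroup G) [Fintype X]
    (hX : X = Subgroup.centralizer ({u} : Set G)) {b : Set (IrrCharacter X)} (hb : IsPBlock M b) :
    ∑ χ : IrrCharacter G, ∑ χ' : IrrCharacter G,
      classInner (kbF p u X b χ) (kbF p u X b χ') * conj (classInner (kbF p u X b χ) (kbF p u X b χ')) =
      (blockRank p b : ℂ) := by
  rw [← sum_reg_inner_sq hM hb, Finset.sum_comm]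
  have h1 : ∀ χ' : IrrCharacter G, ∑ χ : IrrCharacter G,
      classInner (kbF p u X b χ) (kbF p u X b χ') * conj (classInner (kbF p u X b χ) (kbF p u X b χ')) =
      ∑ ψ : IrrCharacter X, if ψ ∈ b then
        classInner (kbF p u X b χ') (regPart p (ψ : X → ℂ)) * conj (classInner (kbF p u X b χ') (regPart p (ψ : X → ℂ))) else 0 := by
    intro χ'
    rw [kbF_star hM hu X hX hb]
    refine Finset.sum_congr rfl fun ψ _ => ?_
    split_ifs
    · rw [conj_classInner, ← conj_classInner (kbF p u X b χ') (regPart p (ψ : X → ℂ)), mul_comm,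
        conj_classInner (kbF p u X b χ') (regPart p (ψ : X → ℂ))]
    · rfl
  rw [Finset.sum_congr rfl fun χ' _ => h1 χ', Finset.sum_comm]
  refine Finset.sum_congr rfl fun ψ _ => ?_
  by_cases hψ : ψ ∈ b
  · simp only [if_pos hψ]
    exact kbF_star hM hu X hX hb _ _
  · simp [if_neg hψ]

end Main

end CfsgLib.Block
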