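import Cfsg.Agent.Lib.Block.KB5

/-! # The bound `k(B)² ≤ p^{2d} l(b)` for blocks all of whose characters have height zero -/

set_option autoImplicit false
set_option linter.unusedSectionVars false
set_option linter.unusedVariables false

namespace CfsgLib.Block

open Cfsg CfsgLib.Char
open scoped ComplexConjugate Pointwise

universe u

section Root

variable {H : Type u} [Group H] [Fintype H]

theorem central_om_root {ψ : H → ℂ} (hψ : IsIrrCharacter H ψ) {z : H} (hz : ∀ g, z * g = g * z) {m : ℕ} (hm : z ^ m = 1) :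
    (ψ z / ψ 1) ^ m = 1 := by
  have h : ∀ (j : ℕ) (r : H), ψ (z ^ j * r) = (ψ z / ψ 1) ^ j * ψ r := by
    intro j
    induction j with
    | zero => intro r; simp
    | succ j ih =>
      intro r
      rw [pow_succ', mul_assoc, char_mul_central hψ hz, ih, pow_succ']
      ring
  have h1 := h m 1
  rw [hm, one_mul] at h1
  have h2 : ψ 1 ≠ 0 := hψ.map_one_ne_zero
  exact (mul_right_cancel₀ h2 (by rw [one_mul]; exact h1)).symm

end Root

section Main

variable {G : Type u} [Group G] [Fintype G] {p : ℕ} [hp : Fact p.Prime] {M : Ideal AlgInt} (hM : IsPModular p M)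

omit hp in
open Classical in
theorem kbF_eq_sum {u : G} (X : Subgroup G) [Fintype X] (b : Set (IrrCharacter X)) (χ : IrrCharacter G) :
    kbF p u X b χ = ∑ ψ : IrrCharacter X,
      (if ψ ∈ b then classInner (fun c : X => (χ : G → ℂ) (u * (c : G))) (ψ : X → ℂ) else 0) • regPart p (ψ : X → ℂ) := by
  funext s
  simp only [Finset.sum_apply, Pi.smul_apply, smul_eq_mul]
  by_cases hs : p ∣ orderOf s
  · simp [kbF, regPart_of_singular _ hs]
  · rw [kbF, regPart_of_regular _ hs, proj_apply]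
    refine Finset.sum_congr rfl fun ψ _ => ?_
    split_ifs
    · rw [regPart_of_regular _ hs]
    · simp

open Classical in
/-- The expansion of the inner products. -/
theorem alpha_formula {u : G} (X : Subgroup G) [Fintype X] {b : Set (IrrCharacter X)}
    (n : IrrCharacter X → IrrCharacter X → ℤ)
    (hn : ∀ ψ ∈ b, ∀ ξ : IrrCharacter X,
        ((p ^ blockDefect p b : ℕ) : ℂ) * classInner (regPart p (ψ : X → ℂ)) (ξ : X → ℂ) = (n ψ ξ : ℂ))
    (χ χ' : IrrCharacter G) :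
    ((p ^ blockDefect p b : ℕ) : ℂ) * classInner (kbF p u X b χ) (kbF p u X b χ') =
      ∑ ψ : IrrCharacter X, ∑ ξ : IrrCharacter X,
        (if ψ ∈ b then classInner (fun c : X => (χ : G → ℂ) (u * (c : G))) (ψ : X → ℂ) else 0) *
          conj (if ξ ∈ b then classInner (fun c : X => (χ' : G → ℂ) (u * (c : G))) (ξ : X → ℂ) else 0) * (n ψ ξ : ℂ) := by
  rw [kbF_eq_sum X b χ, kbF_eq_sum X b χ', classInner_sum_left, Finset.mul_sum]
  refine Finset.sum_congr rfl fun ψ _ => ?_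
  rw [classInner_smul_left, classInner_sum_right, Finset.mul_sum, Finset.mul_sum]
  refine Finset.sum_congr rfl fun ξ _ => ?_
  rw [classInner_smul_right, classInner_regPart_reg]
  by_cases hψ : ψ ∈ b
  · rw [← hn ψ hψ ξ]
    ring
  · simp [if_neg hψ]

include hM

open Classical in
/-- The key congruence. -/
theorem alpha_not_mem {B : Set (IrrCharacter G)} (hB : IsPBlock M B) {χ χ' : IrrCharacter G} (hχ : χ ∈ B) (hχ' : χ' ∈ B)
    (h0 : (charDegree (χ : G → ℂ)).factorization p = minNu p B)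
    (h0' : (charDegree (χ' : G → ℂ)).factorization p = minNu p B) {u : G} {k : ℕ} (hu : orderOf u = p ^ k)
    (X : Subgroup G) [Fintype X] (hX : X = Subgroup.centralizer ({u} : Set G)) {b : Set (IrrCharacter X)}
    (hb : IsInducedBlock M X b B) (n : IrrCharacter X → IrrCharacter X → ℤ) (c : ℂ) (hcR : c ∈ locR hM.isPrime)
    (hcI : c ∉ locI hM.isPrime)
    (hn2 : ∀ ψ ∈ b, ∀ ξ ∈ b, (n ψ ξ : ℂ) - c * (dstar p b ψ : ℂ) * (dstar p b ξ : ℂ) ∈ locI hM.isPrime) :
    (∑ ψ : IrrCharacter X, ∑ ξ : IrrCharacter X,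
        (if ψ ∈ b then classInner (fun c : X => (χ : G → ℂ) (u * (c : G))) (ψ : X → ℂ) else 0) *
          conj (if ξ ∈ b then classInner (fun c : X => (χ' : G → ℂ) (u * (c : G))) (ξ : X → ℂ) else 0) * (n ψ ξ : ℂ)) ∉ locI hM.isPrime := by
  have hP := hM.isPrime
  have huX : u ∈ X := by rw [hX]; exact Subgroup.mem_centralizer_singleton_iff.2 rfl
  let x' : X := ⟨u, huX⟩
  have hz : ∀ g : X, x' * g = g * x' := by
    intro g
    apply Subtype.ext
    have : (g : G) ∈ Subgroup.centralizer ({u} : Set G) := hX ▸ g.2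
    exact (Subgroup.mem_centralizer_singleton_iff.1 this).symm
  have hx'k : x' ^ (p ^ k) = 1 := by
    apply Subtype.ext
    show u ^ (p ^ k) = 1
    rw [← hu, pow_orderOf_eq_one]
  have hf := projDeg_not_mem hM hB hχ h0 hu X hX hb
  have hf' := projDeg_not_mem hM hB hχ' h0' hu X hX hb
  -- the values
  have hval : ∀ (χ₁ : IrrCharacter G) (ψ : IrrCharacter X), ∃ N₁ : ℕ,
      classInner (fun c : X => (χ₁ : G → ℂ) c) (ψ : X → ℂ) = (N₁ : ℂ) ∧
      classInner (fun c : X => (χ₁ : G → ℂ) (u * (c : G))) (ψ : X → ℂ) = ((ψ : X → ℂ) x' / (ψ : X → ℂ) 1) * (N₁ : ℂ) := by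
    intro χ₁ ψ
    obtain ⟨N₁, h1⟩ := (χ₁.2.isCharacter.restrict X).classInner_nat ψ.2
    refine ⟨N₁, h1, ?_⟩
    rw [← h1]
    exact classInner_translate_gen hz (fun c : X => (χ₁ : G → ℂ) c) ψ
  have hroot : ∀ ψ : IrrCharacter X, ((ψ : X → ℂ) x' / (ψ : X → ℂ) 1) ^ (p ^ k) = 1 :=
    fun ψ => central_om_root ψ.2 hz hx'k
  have hω : ∀ ψ : IrrCharacter X, ((ψ : X → ℂ) x' / (ψ : X → ℂ) 1) - 1 ∈ locI hP := fun ψ => root_sub_one_mem hM (hroot ψ)
  have hωc : ∀ ψ : IrrCharacter X, conj ((ψ : X → ℂ) x' / (ψ : X → ℂ) 1) - 1 ∈ locI hP := by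
    intro ψ
    refine root_sub_one_mem hM (k := k) ?_
    rw [← map_pow, hroot, map_one]
  have hωR : ∀ ψ : IrrCharacter X, ((ψ : X → ℂ) x' / (ψ : X → ℂ) 1) ∈ locR hP := by
    intro ψ
    have := (locI hP).add_mem (hω ψ) (locI hP).zero_mem
    exact locR_of_isIntegral hP (IsIntegral.of_pow (pow_pos hp.out.pos k) (by rw [hroot]; exact isIntegral_one))
  have hωcR : ∀ ψ : IrrCharacter X, conj ((ψ : X → ℂ) x' / (ψ : X → ℂ) 1) ∈ locR hP := by
    intro ψ
    refine locR_of_isIntegral hP (IsIntegral.of_pow (pow_pos hp.out.pos k) ?_)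
    rw [← map_pow, hroot, map_one]
    exact isIntegral_one
  set N₁ : IrrCharacter G → IrrCharacter X → ℂ := fun χ₁ ψ => classInner (fun c : X => (χ₁ : G → ℂ) c) (ψ : X → ℂ) with hN₁
  have hN₁R : ∀ χ₁ ψ, N₁ χ₁ ψ ∈ locR hP := by
    intro χ₁ ψ
    obtain ⟨N, h1, -⟩ := hval χ₁ ψ
    show classInner _ _ ∈ _
    rw [h1]
    exact natCast_mem _ _
  have hN₁conj : ∀ χ₁ ψ, conj (N₁ χ₁ ψ) = N₁ χ₁ ψ := by
    intro χ₁ ψ
    obtain ⟨N, h1, -⟩ := hval χ₁ ψ
    show conj (classInner _ _) = classInner _ _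
    rw [h1, Complex.conj_natCast]
  have hv : ∀ (χ₁ : IrrCharacter G) (ψ : IrrCharacter X), classInner (fun c : X => (χ₁ : G → ℂ) (u * (c : G))) (ψ : X → ℂ) = ((ψ : X → ℂ) x' / (ψ : X → ℂ) 1) * N₁ χ₁ ψ := by
    intro χ₁ ψ
    obtain ⟨N, h1, h2⟩ := hval χ₁ ψ
    show _ = _ * classInner _ _
    rw [h1, h2]
  set f : ℂ := ∑ ψ : IrrCharacter X, if ψ ∈ b then N₁ χ ψ * (dstar p b ψ : ℂ) else 0 with hfdef
  set f' : ℂ := ∑ ψ : IrrCharacter X, if ψ ∈ b then N₁ χ' ψ * (dstar p b ψ : ℂ) else 0 with hf'def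
  have hfR : f ∈ locR hP := sum_mem fun ψ _ => by
    split_ifs
    · exact mul_mem (hN₁R _ _) (natCast_mem _ _)
    · exact zero_mem _
  have hf'R : f' ∈ locR hP := sum_mem fun ψ _ => by
    split_ifs
    · exact mul_mem (hN₁R _ _) (natCast_mem _ _)
    · exact zero_mem _
  have hprod : c * f * f' ∉ locI hP := by
    intro h
    rcases locI_prime hP (mul_mem hcR hfR) hf'R h with h1 | h1
    · rcases locI_prime hP hcR hfR h1 with h2 | h2
      · exact hcI h2
      · exact hf h2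
    · exact hf' h1
  have hdiff : (∑ ψ : IrrCharacter X, ∑ ξ : IrrCharacter X,
        (if ψ ∈ b then classInner (fun c : X => (χ : G → ℂ) (u * (c : G))) (ψ : X → ℂ) else 0) *
          conj (if ξ ∈ b then classInner (fun c : X => (χ' : G → ℂ) (u * (c : G))) (ξ : X → ℂ) else 0) * (n ψ ξ : ℂ)) - c * f * f' ∈ locI hP := by
    have hexp : c * f * f' = ∑ ψ : IrrCharacter X, ∑ ξ : IrrCharacter X,
        c * (if ψ ∈ b then N₁ χ ψ * (dstar p b ψ : ℂ) else 0) * (if ξ ∈ b then N₁ χ' ξ * (dstar p b ξ : ℂ) else 0) := by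
      rw [mul_assoc, hfdef, hf'def, Finset.sum_mul_sum, Finset.mul_sum]
      refine Finset.sum_congr rfl fun ψ _ => ?_
      rw [Finset.mul_sum]
      refine Finset.sum_congr rfl fun ξ _ => ?_
      ring
    rw [hexp, ← Finset.sum_sub_distrib]
    refine sum_mem fun ψ _ => ?_
    rw [← Finset.sum_sub_distrib]
    refine sum_mem fun ξ _ => ?_
    by_cases hψ : ψ ∈ b
    · by_cases hξ : ξ ∈ b
      · simp only [if_pos hψ, if_pos hξ]
        rw [hv, hv, map_mul, hN₁conj]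
        set w := (ψ : X → ℂ) x' / (ψ : X → ℂ) 1 with hw
        set w' := (ξ : X → ℂ) x' / (ξ : X → ℂ) 1 with hw'
        have e : w * N₁ χ ψ * (conj w' * N₁ χ' ξ) * (n ψ ξ : ℂ) -
            c * (N₁ χ ψ * (dstar p b ψ : ℂ)) * (N₁ χ' ξ * (dstar p b ξ : ℂ)) =
            (N₁ χ ψ * N₁ χ' ξ * (n ψ ξ : ℂ)) * ((w - 1) * conj w' + (conj w' - 1)) +
            (N₁ χ ψ * N₁ χ' ξ) * ((n ψ ξ : ℂ) - c * (dstar p b ψ : ℂ) * (dstar p b ξ : ℂ)) := by
          ring
        rw [e]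
        have hnR : (n ψ ξ : ℂ) ∈ locR hP := intCast_mem _ _
        refine (locI hP).add_mem (locI_mul_left hP (mul_mem (mul_mem (hN₁R _ _) (hN₁R _ _)) hnR)
          ((locI hP).add_mem (locI_mul_right hP (hωcR ξ) (hω ψ)) (hωc ξ))) (locI_mul_left hP (mul_mem (hN₁R _ _) (hN₁R _ _)) (hn2 ψ hψ ξ hξ))
      · simp [if_neg hξ, zero_mem]
    · simp [if_neg hψ, zero_mem]
  intro h
  apply hprod
  have h2 := (locI hP).sub_mem h hdiff
  rwa [sub_sub_cancel] at h2

/-- **The bound.** -/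
theorem s4716_aux {B : Set (IrrCharacter G)} (hB : IsPBlock M B)
    (hh : ∀ χ ∈ B, (charDegree (χ : G → ℂ)).factorization p = minNu p B) {u : G} {k : ℕ} (hu : orderOf u = p ^ k)
    (X : Subgroup G) [Fintype X] (hX : X = Subgroup.centralizer ({u} : Set G)) {b : Set (IrrCharacter X)}
    (hind : IsInducedBlock M X b B) :
    Nat.card B ^ 2 ≤ p ^ (2 * blockDefect p b) * blockRank p b := by
  classical
  have hP := hM.isPrime
  have hb := hind.1
  obtain ⟨n, c, hcR, hcI, hn1, hn2⟩ := exists_nb hM hb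
  set d := blockDefect p b with hd
  let N : ℕ := Nat.card G
  haveI : NeZero N := ⟨Nat.card_pos.ne'⟩
  let T : Finset (IrrCharacter G) := Finset.univ.filter (· ∈ B)
  have hTmem : ∀ χ, χ ∈ T ↔ χ ∈ B := by
    intro χ
    simp [T]
  have hcardT : Nat.card B = T.card := Nat.subtype_card T hTmem
  let α : IrrCharacter G → IrrCharacter G → ℂ := fun χ χ' =>
    ((p ^ d : ℕ) : ℂ) * classInner (kbF p u X b χ) (kbF p u X b χ')
  let S : Subring ℂ := ((cfEmb N).range.toSubring) ⊓ (integralClosure ℤ ℂ).toSubring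
  have hSroot : ∀ ζ : ℂ, ζ ^ N = 1 → ζ ∈ S := by
    intro ζ hζ
    refine ⟨?_, ?_⟩
    · obtain ⟨w, hw, -⟩ := cf_root N hζ
      exact ⟨w, hw⟩
    · exact IsIntegral.of_pow (Nat.card_pos (α := G)) (by rw [hζ]; exact isIntegral_one)
  have huX : u ∈ X := by rw [hX]; exact Subgroup.mem_centralizer_singleton_iff.2 rfl
  let x' : X := ⟨u, huX⟩
  have hz : ∀ g : X, x' * g = g * x' := by
    intro g
    apply Subtype.ext
    have : (g : G) ∈ Subgroup.centralizer ({u} : Set G) := hX ▸ g.2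
    exact (Subgroup.mem_centralizer_singleton_iff.1 this).symm
  have hx'N : x' ^ N = 1 := by
    apply Subtype.ext
    show u ^ Nat.card G = 1
    exact pow_card_eq_one'
  have hvS : ∀ (χ₁ : IrrCharacter G) (ψ : IrrCharacter X),
      classInner (fun c : X => (χ₁ : G → ℂ) (u * (c : G))) (ψ : X → ℂ) ∈ S ∧
      conj (classInner (fun c : X => (χ₁ : G → ℂ) (u * (c : G))) (ψ : X → ℂ)) ∈ S := by
    intro χ₁ ψ
    obtain ⟨N₁, h1⟩ := (χ₁.2.isCharacter.restrict X).classInner_nat ψ.2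
    have h2 : classInner (fun c : X => (χ₁ : G → ℂ) (u * (c : G))) (ψ : X → ℂ) = ((ψ : X → ℂ) x' / (ψ : X → ℂ) 1) * (N₁ : ℂ) := by
      rw [← h1]
      exact classInner_translate_gen hz (fun c : X => (χ₁ : G → ℂ) c) ψ
    have hr : ((ψ : X → ℂ) x' / (ψ : X → ℂ) 1) ^ N = 1 := central_om_root ψ.2 hz hx'N
    rw [h2, map_mul, Complex.conj_natCast]
    refine ⟨mul_mem (hSroot _ hr) (natCast_mem _ _), mul_mem (hSroot _ ?_) (natCast_mem _ _)⟩
    rw [← map_pow, hr, map_one]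
  have hαS : ∀ χ χ', α χ χ' ∈ S := by
    intro χ χ'
    show ((p ^ d : ℕ) : ℂ) * classInner (kbF p u X b χ) (kbF p u X b χ') ∈ S
    rw [hd, alpha_formula (u := u) X n hn1 χ χ']
    refine sum_mem fun ψ _ => sum_mem fun ξ _ => mul_mem (mul_mem ?_ ?_) (intCast_mem _ _)
    · split_ifs
      · exact (hvS χ ψ).1
      · exact zero_mem _
    · split_ifs
      · exact (hvS χ' ξ).2
      · rw [map_zero]
        exact zero_mem _
  have hα0 : ∀ χ ∈ B, ∀ χ' ∈ B, α χ χ' ≠ 0 := by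
    intro χ hχ χ' hχ' h
    have h1 := alpha_not_mem hM hB hχ hχ' (hh χ hχ) (hh χ' hχ') hu X hX hind n c hcR hcI hn2
    rw [← alpha_formula (u := u) X n hn1 χ χ'] at h1
    apply h1
    have h2 : ((p ^ blockDefect p b : ℕ) : ℂ) * classInner (kbF p u X b χ) (kbF p u X b χ') = 0 := h
    rw [h2]
    exact zero_mem _
  have hex : ∀ i : T × T, ∃ y : CF N, cfEmb N y = α i.1 i.2 := fun i => (hαS _ _).1
  choose y hy using hex
  have hy0 : ∀ i, y i ≠ 0 := by
    intro i h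
    apply hα0 _ ((hTmem _).1 i.1.2) _ ((hTmem _).1 i.2.2)
    rw [← hy i, h, map_zero]
  have hyint : ∀ i, IsIntegral ℤ (cfEmb N (y i)) := by
    intro i
    rw [hy i]
    exact (hαS _ _).2
  have hzeroL : ∀ χ, χ ∉ T → ∀ f : X → ℂ, classInner (kbF p u X b χ) f = 0 := by
    intro χ hχ f
    rw [kbF_zero hM hu X hX hind (fun h => hχ ((hTmem χ).2 h)), classInner_zero_left]
  have hzeroR : ∀ χ, χ ∉ T → ∀ f : X → ℂ, classInner f (kbF p u X b χ) = 0 := by
    intro χ hχ f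
    rw [kbF_zero hM hu X hX hind (fun h => hχ ((hTmem χ).2 h)), classInner_zero_right]
  have hT : ∑ i, cfEmb N (y i) * conj (cfEmb N (y i)) = ((p ^ (2 * d) * blockRank p b : ℕ) : ℂ) := by
    simp only [hy]
    rw [Fintype.sum_prod_type]
    have h1 : ∑ χ : T, ∑ χ' : T, α χ χ' * conj (α χ χ') =
        ∑ χ ∈ T, ∑ χ' ∈ T, α χ χ' * conj (α χ χ') := by
      rw [← Finset.sum_coe_sort T (fun χ => ∑ χ' ∈ T, α χ χ' * conj (α χ χ'))]
      refine Finset.sum_congr rfl fun χ _ => ?_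
      rw [← Finset.sum_coe_sort T (fun χ' => α χ χ' * conj (α χ χ'))]
    rw [h1]
    have h2 : ∑ χ ∈ T, ∑ χ' ∈ T, α χ χ' * conj (α χ χ') =
        ∑ χ : IrrCharacter G, ∑ χ' : IrrCharacter G, α χ χ' * conj (α χ χ') := by
      rw [← Finset.sum_subset (Finset.subset_univ T)]
      · refine Finset.sum_congr rfl fun χ _ => ?_
        rw [← Finset.sum_subset (Finset.subset_univ T)]
        intro χ' _ hχ'
        show ((p ^ d : ℕ) : ℂ) * classInner _ _ * conj (((p ^ d : ℕ) : ℂ) * classInner _ _) = 0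
        rw [hzeroR χ' hχ']
        simp
      · intro χ _ hχ
        refine Finset.sum_eq_zero fun χ' _ => ?_
        show ((p ^ d : ℕ) : ℂ) * classInner _ _ * conj (((p ^ d : ℕ) : ℂ) * classInner _ _) = 0
        rw [hzeroL χ hχ]
        simp
    rw [h2]
    have h3 : ∀ χ χ' : IrrCharacter G, α χ χ' * conj (α χ χ') = ((p ^ (2 * d) : ℕ) : ℂ) *
        (classInner (kbF p u X b χ) (kbF p u X b χ') * conj (classInner (kbF p u X b χ) (kbF p u X b χ'))) := by
      intro χ χ'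
      show ((p ^ d : ℕ) : ℂ) * _ * conj (((p ^ d : ℕ) : ℂ) * _) = _
      rw [map_mul, Complex.conj_natCast, two_mul, pow_add]
      push_cast
      ring
    simp only [h3, ← Finset.mul_sum]
    rw [kbF_parseval hM hu X hX hb]
    push_cast
    ring
  have h := cf_card_le N y hy0 hyint _ hT
  rw [Fintype.card_prod, Fintype.card_coe] at h
  rw [hcardT, sq]
  exact h

end Main

end CfsgLib.Block
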