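import Cfsg.Agent.Lib.Block.KB6

/-! # Robinson's bound on the number of height zero characters of a `2`-block -/

set_option autoImplicit false
set_option linter.unusedSectionVars false
set_option linter.unusedVariables false

namespace CfsgLib.Block

open Cfsg CfsgLib.Char
open scoped ComplexConjugate Pointwise

universe u

section Sym

theorem sym_sum_even {ι : Type*} [DecidableEq ι] (S : Finset ι) (c : ι → ι → ℤ) (hc : ∀ i j, c i j = c j i) :
    (2 : ℤ) ∣ ∑ i ∈ S, ∑ j ∈ S, c i j - ∑ i ∈ S, c i i := by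
  induction S using Finset.induction_on with
  | empty => simp
  | insert a S ha ih =>
    have h0 : ∑ i ∈ insert a S, ∑ j ∈ insert a S, c i j - ∑ i ∈ insert a S, c i i =
        2 * ∑ j ∈ S, c a j + (∑ i ∈ S, ∑ j ∈ S, c i j - ∑ i ∈ S, c i i) := by
      have h1 : ∑ i ∈ S, ∑ j ∈ insert a S, c i j = ∑ j ∈ S, c a j + ∑ i ∈ S, ∑ j ∈ S, c i j := by
        rw [← Finset.sum_congr rfl (fun j _ => hc j a), ← Finset.sum_add_distrib]
        refine Finset.sum_congr rfl fun i _ => ?_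
        rw [Finset.sum_insert ha]
      rw [Finset.sum_insert ha, Finset.sum_insert ha, Finset.sum_insert ha, h1]
      ring
    rw [h0]
    exact dvd_add (dvd_mul_right _ _) ih

end Sym

section Avg

theorem cf_root_avg (k : ℕ) [NeZero (2 ^ k)] {w : CF (2 ^ k)} (hw : w ^ (2 ^ k) = 1) (h1 : w ≠ 1) (h2 : w ≠ -1) :
    ∑ σ : CF (2 ^ k) ≃ₐ[ℚ] CF (2 ^ k), σ w = 0 := by
  classical
  obtain ⟨j, hj, hoj⟩ := (Nat.dvd_prime_pow Nat.prime_two).1 (orderOf_dvd_of_pow_eq_one hw)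
  have hw2j : w ^ (2 ^ j) = 1 := by rw [← hoj]; exact pow_orderOf_eq_one w
  have hj2 : 2 ≤ j := by
    by_contra hlt
    have hj' : j = 0 ∨ j = 1 := by omega
    rcases hj' with rfl | rfl
    · apply h1
      simpa using hw2j
    · have h3 : (w - 1) * (w + 1) = 0 := by
        have : w ^ 2 = 1 := by simpa using hw2j
        linear_combination this
      rcases mul_eq_zero.1 h3 with h4 | h4
      · exact h1 (sub_eq_zero.1 h4)
      · exact h2 (eq_neg_of_add_eq_zero_left h4)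
  obtain ⟨i, rfl⟩ : ∃ i, j = i + 2 := ⟨j - 2, by omega⟩
  have hv : w ^ (2 ^ (i + 1)) = -1 := by
    have h3 : (w ^ (2 ^ (i + 1)) - 1) * (w ^ (2 ^ (i + 1)) + 1) = 0 := by
      have : (w ^ (2 ^ (i + 1))) ^ 2 = 1 := by
        rw [← pow_mul, ← pow_succ]
        exact hw2j
      linear_combination this
    rcases mul_eq_zero.1 h3 with h4 | h4
    · exfalso
      have h5 : orderOf w ∣ 2 ^ (i + 1) := orderOf_dvd_of_pow_eq_one (sub_eq_zero.1 h4)
      rw [hoj] at h5
      have h6 := (Nat.pow_dvd_pow_iff_le_right (by norm_num : 1 < 2)).1 h5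
      omega
    · exact eq_neg_of_add_eq_zero_left h4
  have hcop : (1 + 2 ^ (i + 1)).Coprime (2 ^ k) := by
    apply Nat.Coprime.pow_right
    rw [Nat.coprime_two_right]
    exact Even.one_add (by rw [pow_succ']; exact even_two_mul _)
  obtain ⟨σ₀, hσ₀⟩ := cf_sigma (2 ^ k) hcop
  have h3 : σ₀ w = -w := by
    rw [hσ₀ w hw, pow_add, pow_one, hv]
    ring
  have h4 : ∑ σ : CF (2 ^ k) ≃ₐ[ℚ] CF (2 ^ k), σ (σ₀ w) = ∑ σ : CF (2 ^ k) ≃ₐ[ℚ] CF (2 ^ k), σ w :=
    Fintype.sum_equiv (Equiv.mulRight σ₀) _ _ fun σ => rfl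
  rw [h3] at h4
  simp only [map_neg, Finset.sum_neg_distrib] at h4
  exact self_eq_neg.1 h4.symm

end Avg

section Main

variable {G : Type u} [Group G] [Fintype G] {p : ℕ} [hp : Fact p.Prime] {M : Ideal AlgInt} (hM : IsPModular p M)

include hM

open Classical in
/-- The row identity for the inner products of the block parts of the sections. -/
theorem kbF_row {u : G} {k : ℕ} (hu : orderOf u = p ^ k) (X : Subgroup G) [Fintype X]
    (hX : X = Subgroup.centralizer ({u} : Set G)) {b : Set (IrrCharacter X)} (hb : IsPBlock M b) (χ : IrrCharacter G) :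
    ∑ χ' : IrrCharacter G, classInner (kbF p u X b χ) (kbF p u X b χ') * conj (classInner (kbF p u X b χ) (kbF p u X b χ')) =
      classInner (kbF p u X b χ) (kbF p u X b χ) := by
  have h1 := kbF_star hM hu X hX hb (kbF p u X b χ) (kbF p u X b χ)
  have hcl : IsClassFunction X (kbF p u X b χ) := isClass_regPart (isClass_proj _ _)
  have h2 := classInner_parseval hcl (kbF p u X b χ)
  have h3 : ∀ χ' : IrrCharacter G, classInner (kbF p u X b χ) (kbF p u X b χ') * conj (classInner (kbF p u X b χ) (kbF p u X b χ')) =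
      classInner (kbF p u X b χ') (kbF p u X b χ) * conj (classInner (kbF p u X b χ') (kbF p u X b χ)) := by
    intro χ'
    rw [conj_classInner, ← conj_classInner (kbF p u X b χ) (kbF p u X b χ'), conj_classInner, mul_comm]
    rw [conj_classInner]
  rw [Finset.sum_congr rfl fun χ' _ => h3 χ', h1, h2]
  refine Finset.sum_congr rfl fun ξ _ => ?_
  have hr : classInner (kbF p u X b χ) (ξ : X → ℂ) = classInner (kbF p u X b χ) (regPart p (ξ : X → ℂ)) := by
    rw [classInner_def, classInner_def]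
    congr 1
    refine Finset.sum_congr rfl fun s _ => ?_
    by_cases hs : p ∣ orderOf s
    · simp [kbF, regPart_of_singular _ hs]
    · rw [regPart_of_regular _ hs]
  split_ifs with hξ
  · rw [hr, conj_classInner, ← conj_classInner (kbF p u X b χ) (ξ : X → ℂ), hr, conj_classInner, mul_comm]
  · have h0 : classInner (kbF p u X b χ) (ξ : X → ℂ) = 0 := by
      rw [kbF_eq_sum X b χ, classInner_sum_left]
      refine Finset.sum_eq_zero fun ψ _ => ?_
      rw [classInner_smul_left]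
      split_ifs with hψ
      · rw [classInner_reg_off_block hM hb hψ hξ, mul_zero]
      · rw [zero_mul]
    rw [h0, zero_mul]

open Classical in
/-- The trace of the projection. -/
theorem kbF_trace {u : G} {k : ℕ} (hu : orderOf u = p ^ k) (X : Subgroup G) [Fintype X]
    (hX : X = Subgroup.centralizer ({u} : Set G)) {b : Set (IrrCharacter X)} (hb : IsPBlock M b) :
    ∑ χ : IrrCharacter G, classInner (kbF p u X b χ) (kbF p u X b χ) = (blockRank p b : ℂ) := by
  rw [← kbF_parseval hM hu X hX hb]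
  exact Finset.sum_congr rfl fun χ _ => (kbF_row hM hu X hX hb χ).symm

end Main

section Two

variable {G : Type u} [Group G] [Fintype G] {M : Ideal AlgInt} (hM : IsPModular 2 M)

include hM

open Classical in
theorem s4541_core {B : Set (IrrCharacter G)} (hB : IsPBlock M B) {u : G} {k : ℕ} (hu : orderOf u = 2 ^ k)
    (X : Subgroup G) [Fintype X] (hX : X = Subgroup.centralizer ({u} : Set G)) {b : Set (IrrCharacter X)}
    (hind : IsInducedBlock M X b B) :
    ∃ t : IrrCharacter G → ℤ, (∀ χ, 0 ≤ t χ) ∧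
      (∀ χ ∈ B, (charDegree (χ : G → ℂ)).factorization 2 = minNu 2 B → Odd (t χ) ∧
        (Nat.card {χ : IrrCharacter G // χ ∈ B ∧ blockHeight 2 B (χ : G → ℂ) = 0} : ℤ) ≤ 2 ^ blockDefect 2 b * t χ) ∧
      ∑ χ, t χ = 2 ^ blockDefect 2 b * (blockRank 2 b : ℤ) := by
  have hP := hM.isPrime
  have hb := hind.1
  obtain ⟨n, c, hcR, hcI, hn1, hn2⟩ := exists_nb hM hb
  set d := blockDefect 2 b with hd
  haveI hNZ : NeZero (2 ^ k) := ⟨pow_ne_zero _ two_ne_zero⟩
  have huX : u ∈ X := by rw [hX]; exact Subgroup.mem_centralizer_singleton_iff.2 rfl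
  let x' : X := ⟨u, huX⟩
  have hz : ∀ g : X, x' * g = g * x' := by
    intro g
    apply Subtype.ext
    have : (g : G) ∈ Subgroup.centralizer ({u} : Set G) := hX ▸ g.2
    exact (Subgroup.mem_centralizer_singleton_iff.1 this).symm
  have hx'k : x' ^ (2 ^ k) = 1 := by
    apply Subtype.ext
    show u ^ (2 ^ k) = 1
    rw [← hu, pow_orderOf_eq_one]
  have hroot : ∀ ψ : IrrCharacter X, ((ψ : X → ℂ) x' / (ψ : X → ℂ) 1) ^ (2 ^ k) = 1 :=
    fun ψ => central_om_root ψ.2 hz hx'k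
  choose w hw hw' using fun ψ : IrrCharacter X => cf_root (2 ^ k) (hroot ψ)
  have hm : ∀ (χ₁ : IrrCharacter G) (ψ : IrrCharacter X), ∃ N₁ : ℕ,
      classInner (fun c : X => (χ₁ : G → ℂ) c) (ψ : X → ℂ) = (N₁ : ℂ) :=
    fun χ₁ ψ => (χ₁.2.isCharacter.restrict X).classInner_nat ψ.2
  choose m hm' using hm
  have hval : ∀ (χ₁ : IrrCharacter G) (ψ : IrrCharacter X),
      classInner (fun c : X => (χ₁ : G → ℂ) (u * (c : G))) (ψ : X → ℂ) = ((ψ : X → ℂ) x' / (ψ : X → ℂ) 1) * (m χ₁ ψ : ℂ) := by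
    intro χ₁ ψ
    rw [← hm']
    exact classInner_translate_gen hz (fun c : X => (χ₁ : G → ℂ) c) ψ
  let a : IrrCharacter G → IrrCharacter X → ℤ := fun χ₁ ψ => if ψ ∈ b then (m χ₁ ψ : ℤ) else 0
  obtain ⟨τ, hτ, hcomm⟩ := cf_conj (2 ^ k)
  have hττ : ∀ x, τ (τ x) = x := by
    intro x
    apply cfEmb_injective (2 ^ k)
    rw [hτ, hτ, Complex.conj_conj]
  have hτroot : ∀ x : CF (2 ^ k), x ^ (2 ^ k) = 1 → (τ x) ^ (2 ^ k) = 1 := by
    intro x hx
    rw [← map_pow, hx, map_one]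
  let v : IrrCharacter X → IrrCharacter X → CF (2 ^ k) := fun ψ ξ => w ψ * τ (w ξ)
  have hvroot : ∀ ψ ξ, (v ψ ξ) ^ (2 ^ k) = 1 := by
    intro ψ ξ
    show (w ψ * τ (w ξ)) ^ (2 ^ k) = 1
    rw [mul_pow, hw' ψ, hτroot _ (hw' ξ), one_mul]
  have hvemb : ∀ ψ ξ, cfEmb (2 ^ k) (v ψ ξ) = ((ψ : X → ℂ) x' / (ψ : X → ℂ) 1) * conj ((ξ : X → ℂ) x' / (ξ : X → ℂ) 1) := by
    intro ψ ξ
    show cfEmb (2 ^ k) (w ψ * τ (w ξ)) = _
    rw [map_mul, hτ, hw, hw]
  let y : IrrCharacter G → IrrCharacter G → CF (2 ^ k) := fun χ χ' =>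
    ∑ ψ, ∑ ξ, ((a χ ψ * a χ' ξ * n ψ ξ : ℤ) : CF (2 ^ k)) * v ψ ξ
  have hy : ∀ χ χ', cfEmb (2 ^ k) (y χ χ') = ((2 ^ d : ℕ) : ℂ) * classInner (kbF 2 u X b χ) (kbF 2 u X b χ') := by
    intro χ χ'
    rw [hd, alpha_formula (p := 2) (u := u) X n hn1 χ χ']
    show cfEmb (2 ^ k) (∑ ψ, ∑ ξ, ((a χ ψ * a χ' ξ * n ψ ξ : ℤ) : CF (2 ^ k)) * v ψ ξ) = _
    rw [map_sum]
    refine Finset.sum_congr rfl fun ψ _ => ?_
    rw [map_sum]
    refine Finset.sum_congr rfl fun ξ _ => ?_
    rw [map_mul, hvemb, map_intCast]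
    by_cases hψ : ψ ∈ b
    · by_cases hξ : ξ ∈ b
      · simp only [a, if_pos hψ, if_pos hξ, hval]
        rw [map_mul, Complex.conj_natCast]
        push_cast
        ring
      · simp [a, if_neg hξ]
    · simp [a, if_neg hψ]
  have hyint : ∀ χ χ', IsIntegral ℤ (cfEmb (2 ^ k) (y χ χ')) := by
    intro χ χ'
    show IsIntegral ℤ (cfEmb (2 ^ k) (∑ ψ, ∑ ξ, ((a χ ψ * a χ' ξ * n ψ ξ : ℤ) : CF (2 ^ k)) * v ψ ξ))
    rw [map_sum]
    refine IsIntegral.sum _ fun ψ _ => ?_
    rw [map_sum]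
    refine IsIntegral.sum _ fun ξ _ => ?_
    rw [map_mul, map_intCast]
    refine IsIntegral.mul isIntegral_algebraMap ?_
    refine IsIntegral.of_pow (n := 2 ^ k) (pow_pos two_pos k) ?_
    rw [← map_pow, hvroot, map_one]
    exact isIntegral_one
  -- the row identity in the field
  have hrow : ∀ χ, ∑ χ', y χ χ' * τ (y χ χ') = ((2 ^ d : ℕ) : CF (2 ^ k)) * y χ χ := by
    intro χ
    apply cfEmb_injective (2 ^ k)
    rw [map_sum, map_mul, hy, map_natCast]
    have h1 := kbF_row hM hu X hX hb χ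
    have h2 : ∀ χ', cfEmb (2 ^ k) (y χ χ' * τ (y χ χ')) = ((2 ^ d : ℕ) : ℂ) * ((2 ^ d : ℕ) : ℂ) *
        (classInner (kbF 2 u X b χ) (kbF 2 u X b χ') * conj (classInner (kbF 2 u X b χ) (kbF 2 u X b χ'))) := by
      intro χ'
      rw [map_mul, hτ, hy, map_mul, Complex.conj_natCast]
      ring
    rw [Finset.sum_congr rfl fun χ' _ => h2 χ', ← Finset.mul_sum, h1]
    ring
  have htrace : ∑ χ, y χ χ = ((2 ^ d * blockRank 2 b : ℕ) : CF (2 ^ k)) := by
    apply cfEmb_injective (2 ^ k)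
    rw [map_sum, map_natCast]
    simp only [hy]
    rw [← Finset.mul_sum, kbF_trace hM hu X hX hb]
    push_cast
    ring
  -- the average
  let Gal := CF (2 ^ k) ≃ₐ[ℚ] CF (2 ^ k)
  let ε : IrrCharacter X → IrrCharacter X → ℤ := fun ψ ξ => if v ψ ξ = 1 then 1 else if v ψ ξ = -1 then -1 else 0
  have havg : ∀ ψ ξ, ∑ σ : Gal, σ (v ψ ξ) = ((Nat.card Gal : ℕ) : CF (2 ^ k)) * ((ε ψ ξ : ℤ) : CF (2 ^ k)) := by
    intro ψ ξ
    show _ = _ * (((if v ψ ξ = 1 then 1 else if v ψ ξ = -1 then -1 else 0 : ℤ)) : CF (2 ^ k))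
    by_cases h1 : v ψ ξ = 1
    · rw [if_pos h1, h1]
      simp [Nat.card_eq_fintype_card]
    · rw [if_neg h1]
      by_cases h2 : v ψ ξ = -1
      · rw [if_pos h2, h2]
        simp [Nat.card_eq_fintype_card]
      · rw [if_neg h2, cf_root_avg k (hvroot ψ ξ) h1 h2]
        simp
  let t : IrrCharacter G → ℤ := fun χ => ∑ ψ, ∑ ξ, a χ ψ * a χ ξ * n ψ ξ * ε ψ ξ
  have hNg : (Nat.card Gal : ℂ) ≠ 0 := by
    have : 0 < Nat.card Gal := Nat.card_pos
    exact_mod_cast this.ne'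
  have hs : ∀ χ, ∑ σ : Gal, cfEmb (2 ^ k) (σ (y χ χ)) = (Nat.card Gal : ℂ) * (t χ : ℂ) := by
    intro χ
    have h1 : ∑ σ : Gal, σ (y χ χ) = ((Nat.card Gal : ℕ) : CF (2 ^ k)) * ((t χ : ℤ) : CF (2 ^ k)) := by
      show ∑ σ : Gal, σ (∑ ψ, ∑ ξ, ((a χ ψ * a χ ξ * n ψ ξ : ℤ) : CF (2 ^ k)) * v ψ ξ) = _
      simp only [map_sum, map_mul, map_intCast]
      rw [Finset.sum_comm]
      show _ = _ * (((∑ ψ, ∑ ξ, a χ ψ * a χ ξ * n ψ ξ * ε ψ ξ : ℤ)) : CF (2 ^ k))
      push_cast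
      rw [Finset.mul_sum]
      refine Finset.sum_congr rfl fun ψ _ => ?_
      rw [Finset.sum_comm, Finset.mul_sum]
      refine Finset.sum_congr rfl fun ξ _ => ?_
      rw [← Finset.mul_sum]
      have h2 := havg ψ ξ
      rw [h2]
      push_cast
      ring
    have h3 := congrArg (cfEmb (2 ^ k)) h1
    rw [map_sum, map_mul, map_natCast, map_intCast] at h3
    exact h3
  -- the real sums
  let r : IrrCharacter G → ℝ := fun χ => ∑ χ', ∑ σ : Gal, ‖cfEmb (2 ^ k) (σ (y χ χ'))‖ ^ 2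
  have hr : ∀ χ, (((2 ^ d : ℕ) : ℝ) * (Nat.card Gal : ℝ) * (t χ : ℝ)) = r χ := by
    intro χ
    apply Complex.ofReal_injective
    have h1 : ∀ σ : Gal, ∑ χ', ((‖cfEmb (2 ^ k) (σ (y χ χ'))‖ ^ 2 : ℝ) : ℂ) = ((2 ^ d : ℕ) : ℂ) * cfEmb (2 ^ k) (σ (y χ χ)) := by
      intro σ
      have h2 := congrArg (fun x => cfEmb (2 ^ k) (σ x)) (hrow χ)
      simp only [map_sum, map_mul, map_natCast] at h2
      rw [← h2]
      refine Finset.sum_congr rfl fun χ' _ => ?_
      rw [hcomm, hτ, Complex.mul_conj']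
      push_cast
      rfl
    have h3 : ((r χ : ℝ) : ℂ) = ∑ σ : Gal, ((2 ^ d : ℕ) : ℂ) * cfEmb (2 ^ k) (σ (y χ χ)) := by
      rw [Finset.sum_congr rfl fun σ _ => (h1 σ).symm]
      show ((∑ χ', ∑ σ : Gal, ‖cfEmb (2 ^ k) (σ (y χ χ'))‖ ^ 2 : ℝ) : ℂ) = _
      rw [Finset.sum_comm]
      push_cast
      rfl
    rw [h3, ← Finset.mul_sum, hs]
    push_cast
    ring
  have hrnn : ∀ χ, 0 ≤ r χ := fun χ => Finset.sum_nonneg fun χ' _ => Finset.sum_nonneg fun σ _ => by positivity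
  have hpos2 : (0 : ℝ) < ((2 ^ d : ℕ) : ℝ) * (Nat.card Gal : ℝ) := by
    have h1 : 0 < Nat.card Gal := Nat.card_pos
    have h2 : 0 < 2 ^ d := pow_pos two_pos d
    positivity
  refine ⟨t, fun χ => ?_, fun χ hχ h0 => ⟨?_, ?_⟩, ?_⟩
  · have h1 := hrnn χ
    rw [← hr χ] at h1
    have h2 : (0 : ℝ) ≤ (t χ : ℝ) := nonneg_of_mul_nonneg_right h1 hpos2
    exact_mod_cast h2
  · -- oddness
    have hA := alpha_not_mem hM hB hχ hχ h0 h0 hu X hX hind n c hcR hcI hn2
    let A₀ : ℤ := ∑ ψ, ∑ ξ, a χ ψ * a χ ξ * n ψ ξ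
    have h1 : (∑ ψ : IrrCharacter X, ∑ ξ : IrrCharacter X,
        (if ψ ∈ b then classInner (fun c : X => (χ : G → ℂ) (u * (c : G))) (ψ : X → ℂ) else 0) *
          conj (if ξ ∈ b then classInner (fun c : X => (χ : G → ℂ) (u * (c : G))) (ξ : X → ℂ) else 0) * (n ψ ξ : ℂ)) - (A₀ : ℂ) ∈ locI hP := by
      show _ - (((∑ ψ, ∑ ξ, a χ ψ * a χ ξ * n ψ ξ : ℤ)) : ℂ) ∈ locI hP
      push_cast
      rw [← Finset.sum_sub_distrib]
      refine sum_mem fun ψ _ => ?_
      rw [← Finset.sum_sub_distrib]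
      refine sum_mem fun ξ _ => ?_
      have hω : ((ψ : X → ℂ) x' / (ψ : X → ℂ) 1) - 1 ∈ locI hP := root_sub_one_mem hM (hroot ψ)
      have hωc : conj ((ξ : X → ℂ) x' / (ξ : X → ℂ) 1) - 1 ∈ locI hP := by
        refine root_sub_one_mem hM (k := k) ?_
        rw [← map_pow, hroot, map_one]
      have hωcR : conj ((ξ : X → ℂ) x' / (ξ : X → ℂ) 1) ∈ locR hP := by
        refine locR_of_isIntegral hP (IsIntegral.of_pow (n := 2 ^ k) (pow_pos two_pos k) ?_)
        rw [← map_pow, hroot, map_one]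
        exact isIntegral_one
      by_cases hψ : ψ ∈ b
      · by_cases hξ : ξ ∈ b
        · simp only [a, if_pos hψ, if_pos hξ, hval]
          rw [map_mul, Complex.conj_natCast]
          have e : ((ψ : X → ℂ) x' / (ψ : X → ℂ) 1) * (m χ ψ : ℂ) * (conj ((ξ : X → ℂ) x' / (ξ : X → ℂ) 1) * (m χ ξ : ℂ)) * (n ψ ξ : ℂ) -
              (((m χ ψ : ℤ) : ℂ) * ((m χ ξ : ℤ) : ℂ) * (n ψ ξ : ℂ)) =
              ((m χ ψ : ℂ) * (m χ ξ : ℂ) * (n ψ ξ : ℂ)) *
                ((((ψ : X → ℂ) x' / (ψ : X → ℂ) 1) - 1) * conj ((ξ : X → ℂ) x' / (ξ : X → ℂ) 1) + (conj ((ξ : X → ℂ) x' / (ξ : X → ℂ) 1) - 1)) := by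
            push_cast
            ring
          rw [e]
          exact locI_mul_left hP (mul_mem (mul_mem (natCast_mem _ _) (natCast_mem _ _)) (intCast_mem _ _))
            ((locI hP).add_mem (locI_mul_right hP hωcR hω) hωc)
        · simp [a, if_neg hξ, zero_mem]
      · simp [a, if_neg hψ, zero_mem]
    have h2 : (2 : ℤ) ∣ t χ - A₀ := by
      have hsym : ∀ ψ ξ, a χ ψ * a χ ξ * n ψ ξ * (ε ψ ξ - 1) = a χ ξ * a χ ψ * n ξ ψ * (ε ξ ψ - 1) := by
        intro ψ ξ
        by_cases hψ : ψ ∈ b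
        · by_cases hξ : ξ ∈ b
          · have hn : n ψ ξ = n ξ ψ := by
              have e1 := hn1 ψ hψ ξ
              have e2 := hn1 ξ hξ ψ
              have e3 : (n ξ ψ : ℂ) = (n ψ ξ : ℂ) := by
                have e4 := congrArg (starRingEnd ℂ) e1
                rw [← classInner_regPart_reg (p := 2) (ψ : X → ℂ) (ξ : X → ℂ), map_mul, Complex.conj_natCast, conj_classInner,
                  classInner_regPart_reg (p := 2) (ξ : X → ℂ) (ψ : X → ℂ), e2, map_intCast] at e4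
                exact e4
              have e5 : n ξ ψ = n ψ ξ := by exact_mod_cast e3
              exact e5.symm
            have hε : ε ψ ξ = ε ξ ψ := by
              have hv : v ξ ψ = τ (v ψ ξ) := by
                show w ξ * τ (w ψ) = τ (w ψ * τ (w ξ))
                rw [map_mul, hττ, mul_comm]
              show (if v ψ ξ = 1 then (1 : ℤ) else if v ψ ξ = -1 then -1 else 0) = if v ξ ψ = 1 then 1 else if v ξ ψ = -1 then -1 else 0
              have h1' : v ξ ψ = 1 ↔ v ψ ξ = 1 := by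
                rw [hv]
                constructor
                · intro h
                  have := congrArg τ h
                  rwa [hττ, map_one] at this
                · intro h
                  rw [h, map_one]
              have h2' : v ξ ψ = -1 ↔ v ψ ξ = -1 := by
                rw [hv]
                constructor
                · intro h
                  have := congrArg τ h
                  rwa [hττ, map_neg, map_one] at this
                · intro h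
                  rw [h, map_neg, map_one]
              simp only [h1', h2']
            rw [hn, hε]
            ring
          · simp [a, if_neg hξ]
        · simp [a, if_neg hψ]
      have hdiag : ∀ ψ, a χ ψ * a χ ψ * n ψ ψ * (ε ψ ψ - 1) = 0 := by
        intro ψ
        have hv1 : v ψ ψ = 1 := by
          apply cfEmb_injective (2 ^ k)
          rw [hvemb, map_one, Complex.mul_conj']
          have hn1' : ‖((ψ : X → ℂ) x' / (ψ : X → ℂ) 1)‖ = 1 := norm_eq_one_of_pow_eq_one (pow_pos two_pos k) (hroot ψ)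
          rw [hn1']
          simp
        have : ε ψ ψ = 1 := by
          show (if v ψ ψ = 1 then (1 : ℤ) else _) = 1
          rw [if_pos hv1]
        rw [this]
        ring
      have h3 := sym_sum_even (Finset.univ : Finset (IrrCharacter X)) (fun ψ ξ => a χ ψ * a χ ξ * n ψ ξ * (ε ψ ξ - 1)) hsym
      simp only [hdiag, Finset.sum_const_zero, sub_zero] at h3
      have e : t χ - A₀ = ∑ ψ, ∑ ξ, a χ ψ * a χ ξ * n ψ ξ * (ε ψ ξ - 1) := by
        show (∑ ψ, ∑ ξ, a χ ψ * a χ ξ * n ψ ξ * ε ψ ξ) - (∑ ψ, ∑ ξ, a χ ψ * a χ ξ * n ψ ξ) = _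
        rw [← Finset.sum_sub_distrib]
        refine Finset.sum_congr rfl fun ψ _ => ?_
        rw [← Finset.sum_sub_distrib]
        refine Finset.sum_congr rfl fun ξ _ => ?_
        ring
      rw [e]
      exact h3
    rw [← Int.not_even_iff_odd, even_iff_two_dvd]
    intro h3
    apply hA
    have h4 : (2 : ℤ) ∣ A₀ := by
      have := (Int.dvd_iff_dvd_of_dvd_sub h2).1 h3
      exact this
    have h5 : (A₀ : ℂ) ∈ locI hP := (intCast_mem_locI_iff hM A₀).2 (by exact_mod_cast h4)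
    have h6 := (locI hP).add_mem h1 h5
    rwa [sub_add_cancel] at h6
  · -- the lower bound
    let T : Finset (IrrCharacter G) := Finset.univ.filter (fun χ₁ => χ₁ ∈ B ∧ blockHeight 2 B (χ₁ : G → ℂ) = 0)
    have hTmem : ∀ χ₁, χ₁ ∈ T ↔ (χ₁ ∈ B ∧ blockHeight 2 B (χ₁ : G → ℂ) = 0) := by
      intro χ₁
      simp [T]
    have hcardT : Nat.card {χ₁ : IrrCharacter G // χ₁ ∈ B ∧ blockHeight 2 B (χ₁ : G → ℂ) = 0} = T.card := Nat.subtype_card T hTmem
    have h1 : (T.card : ℝ) * (Nat.card Gal : ℝ) ≤ r χ := by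
      have h2 : ∀ χ' ∈ T, (Nat.card Gal : ℝ) ≤ ∑ σ : Gal, ‖cfEmb (2 ^ k) (σ (y χ χ'))‖ ^ 2 := by
        intro χ' hχ'
        obtain ⟨hχ'B, hχ'0⟩ := (hTmem χ').1 hχ'
        have h0' := (blockHeight_eq_zero_iff hχ'B).1 hχ'0
        have hA := alpha_not_mem hM hB hχ hχ'B h0 h0' hu X hX hind n c hcR hcI hn2
        rw [← alpha_formula (p := 2) (u := u) X n hn1 χ χ', ← hd, ← hy] at hA
        refine cf_sum_ge (2 ^ k) (x := y χ χ') ?_ (hyint _ _)
        intro h
        apply hA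
        rw [h, map_zero]
        exact zero_mem _
      have h3 := Finset.sum_le_sum h2
      rw [Finset.sum_const, nsmul_eq_mul] at h3
      refine h3.trans ?_
      exact Finset.sum_le_sum_of_subset_of_nonneg (Finset.subset_univ T)
        (fun χ' _ _ => Finset.sum_nonneg fun σ _ => by positivity)
    rw [← hr χ] at h1
    rw [hcardT]
    have h2 : (T.card : ℝ) ≤ ((2 : ℝ) ^ d) * (t χ : ℝ) := by
      have h3 : (0 : ℝ) < (Nat.card Gal : ℝ) := by
        have : 0 < Nat.card Gal := Nat.card_pos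
        exact_mod_cast this
      have h4 : ((T.card : ℝ)) * (Nat.card Gal : ℝ) ≤ (((2 : ℝ) ^ d) * (t χ : ℝ)) * (Nat.card Gal : ℝ) := by
        refine h1.trans (le_of_eq ?_)
        push_cast
        ring
      exact le_of_mul_le_mul_right h4 h3
    exact_mod_cast h2
  · -- the trace
    have h1 : ∀ σ : Gal, ∑ χ, cfEmb (2 ^ k) (σ (y χ χ)) = ((2 ^ d * blockRank 2 b : ℕ) : ℂ) := by
      intro σ
      have h2 := congrArg (fun x => cfEmb (2 ^ k) (σ x)) htrace
      simp only [map_sum, map_natCast] at h2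
      exact h2
    have h3 : (Nat.card Gal : ℂ) * ∑ χ, (t χ : ℂ) = (Nat.card Gal : ℂ) * ((2 ^ d * blockRank 2 b : ℕ) : ℂ) := by
      rw [Finset.mul_sum, Finset.sum_congr rfl fun χ _ => (hs χ).symm, Finset.sum_comm,
        Finset.sum_congr rfl fun σ _ => h1 σ, Finset.sum_const, Finset.card_univ, nsmul_eq_mul, Nat.card_eq_fintype_card]
    have h4 := mul_left_cancel₀ hNg h3
    have h5 : ((∑ χ, t χ : ℤ) : ℂ) = ((2 ^ d * (blockRank 2 b : ℤ) : ℤ) : ℂ) := by
      push_cast at h4 ⊢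
      exact h4
    exact_mod_cast h5

end Two

section Final

theorem s4541_combi (k₀ l Q : ℕ) (hQ : 0 < Q) (h : k₀ ≠ 0 → ∃ m : ℕ, Odd m ∧ k₀ ≤ m * Q ∧ k₀ * m ≤ Q * l) :
    (Odd (Nat.sqrt l) → k₀ ≤ Nat.sqrt l * Q) ∧ (¬ Odd (Nat.sqrt l) → (Nat.sqrt l + 1) * k₀ ≤ l * Q) ∧ (l ≤ 3 → k₀ ≤ Q) := by
  have hs1 : Nat.sqrt l * Nat.sqrt l ≤ l := Nat.sqrt_le l
  have hs2 : l < (Nat.sqrt l + 1) * (Nat.sqrt l + 1) := Nat.lt_succ_sqrt l
  set s := Nat.sqrt l with hs
  have p1 : Odd s → k₀ ≤ s * Q := by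
    intro hodd
    by_cases h0 : k₀ = 0
    · simp [h0]
    obtain ⟨m, hm, h1, h2⟩ := h h0
    by_cases hms : m ≤ s
    · exact h1.trans (Nat.mul_le_mul_right Q hms)
    · have hm2 : s + 2 ≤ m := by
        obtain ⟨a, rfl⟩ := hm
        obtain ⟨b, hb⟩ := hodd
        omega
      have h3 : k₀ * (s + 2) ≤ (s * Q) * (s + 2) := by
        have h4 : k₀ * (s + 2) ≤ k₀ * m := Nat.mul_le_mul_left _ hm2
        have h5 : Q * l ≤ Q * (s * (s + 2)) := Nat.mul_le_mul_left _ (by nlinarith)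
        calc k₀ * (s + 2) ≤ k₀ * m := h4
          _ ≤ Q * l := h2
          _ ≤ Q * (s * (s + 2)) := h5
          _ = (s * Q) * (s + 2) := by ring
      exact Nat.le_of_mul_le_mul_right h3 (by omega)
  have p2 : ¬ Odd s → (s + 1) * k₀ ≤ l * Q := by
    intro heven
    by_cases h0 : k₀ = 0
    · simp [h0]
    obtain ⟨m, hm, h1, h2⟩ := h h0
    by_cases hms : s + 1 ≤ m
    · calc (s + 1) * k₀ ≤ m * k₀ := Nat.mul_le_mul_right _ hms
        _ = k₀ * m := mul_comm _ _
        _ ≤ Q * l := h2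
        _ = l * Q := mul_comm _ _
    · have hms' : m + 1 ≤ s := by
        have hne : m ≠ s := fun e => heven (e ▸ hm)
        omega
      obtain ⟨j, hj⟩ := Nat.exists_eq_add_of_le hms'
      have h3 : (s + 1) * m ≤ l := by
        refine le_trans ?_ hs1
        rw [hj]
        nlinarith
      calc (s + 1) * k₀ ≤ (s + 1) * (m * Q) := Nat.mul_le_mul_left _ h1
        _ = ((s + 1) * m) * Q := by ring
        _ ≤ l * Q := Nat.mul_le_mul_right _ h3
  refine ⟨p1, p2, fun h3 => ?_⟩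
  have hs3 : s ≤ 1 := by
    by_contra hlt
    have : 2 ≤ s := by omega
    nlinarith
  interval_cases hss : s
  · have hl : l = 0 := by omega
    have := p2 (by decide)
    rw [hl] at this
    have h0 : k₀ = 0 := by simpa using this
    rw [h0]
    exact Nat.zero_le _
  · have := p1 (by decide)
    simpa using this

end Final

end CfsgLib.Block
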