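import Cfsg.Agent.Lib.Block.V4B3

/-! # Non-vanishing of subsection parts for height zero characters: local steps -/

set_option autoImplicit false
set_option linter.unusedSectionVars false
set_option linter.unusedVariables false

namespace CfsgLib.Block

open Cfsg CfsgLib.Char
open scoped ComplexConjugate Pointwise

universe u

section Step

variable {G : Type u} [Group G] [Fintype G] {p : ℕ} [hp : Fact p.Prime] {M : Ideal AlgInt} (hM : IsPModular p M)
include hM

/-- `χ(g) ≡ χ(g_{p'})`. -/
theorem char_pReg_cong {χ : G → ℂ} (hχ : IsCharacter G χ) (g : G) : χ g - χ (pReg p g) ∈ locI hM.isPrime := by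
  obtain ⟨k, hk⟩ := orderOf_pPart (p := p) g
  have h := char_value_congr hM hχ _ _ hk (commute_pPart_pReg (p := p) g).eq
  rwa [pPart_mul_pReg] at h

/-- Truncation to the centralizer preserves the value of a character mod the ideal. -/
theorem hat_cong_brC {Q : Subgroup G} [Fintype (Subgroup.centralizer (Q : Set G))] (hQ : IsPGroup p Q)
    {χ : G → ℂ} (hχ : IsCharacter G χ) {κ : GA G} (hs : SVal hM.isPrime κ) (hκ : PInv Q κ) :
    hat χ κ - hat χ (incl (Subgroup.centralizer (Q : Set G)) (brC Q κ)) ∈ locI hM.isPrime := by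
  classical
  have hP := hM.isPrime
  have hCc : ∀ c ∈ Q, ∀ u, c * u * c⁻¹ ∈ Subgroup.centralizer (Q : Set G) ↔ u ∈ Subgroup.centralizer (Q : Set G) := by
    intro c hc u
    constructor
    · intro h
      have h1 := (mem_centralizer_iff_conj Q _).1 h c⁻¹ (Q.inv_mem hc)
      have h2 : c⁻¹ * (c * u * c⁻¹) * c⁻¹⁻¹ = u := by group
      rw [h2] at h1
      rw [h1]
      exact h
    · intro h
      rwa [(mem_centralizer_iff_conj Q u).1 h c hc]
  have h0 : incl (Subgroup.centralizer (Q : Set G)) (brC Q κ) = resTo (Subgroup.centralizer (Q : Set G)) κ :=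
    incl_res _ _
  rw [h0, hat, hat, ← Finset.sum_sub_distrib]
  have h1 := divBy_one_sum_conj hM hQ (fun v => κ.coeff v * χ v - (resTo (Subgroup.centralizer (Q : Set G)) κ).coeff v * χ v) ?_ ?_
  · exact DivBy.mem_locI hM (n := 0) h1
  · intro c hc v
    have e : χ (c * v * c⁻¹) = χ v := hχ.isClassFunction v c
    rw [e, hκ c hc, resTo_inv (hCc c hc) (hκ c hc)]
  · intro v hv
    refine ⟨sub_mem (mul_mem (hs _) (char_mem hP hχ v)) (mul_mem (sval_resTo hP _ hs _) (char_mem hP hχ v)), ?_⟩
    by_contra hc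
    push Not at hc
    have hvC : v ∈ Subgroup.centralizer (Q : Set G) := (mem_centralizer_iff_conj Q v).2 hc
    apply hv
    rw [coeff_resTo_of_mem _ hvC, sub_self]

/-- The basic step: an idempotent `F` which is `≡ 1` on the block `f'` of `C(Q)` acts trivially mod the ideal. -/
theorem step_core {Q : Subgroup G} [Fintype (Subgroup.centralizer (Q : Set G))] (hQ : IsPGroup p Q)
    {χ : G → ℂ} (hχ : IsCharacter G χ) {f' : Set (IrrCharacter (Subgroup.centralizer (Q : Set G)))}
    (hf' : IsPBlock M f') {a' : GA (Subgroup.centralizer (Q : Set G))} (has : SVal hM.isPrime a')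
    (haf : a' * fB f' = a') {F : GA G} (hFs : SVal hM.isPrime F) (hFQ : PInv Q F)
    (hFC : PInv (Subgroup.centralizer (Q : Set G)) F) (hFF : F * F = F)
    (hlam : ∀ ξ ∈ f', lam Q (ξ : _ → ℂ) F - 1 ∈ locI hM.isPrime) :
    hat χ (incl (Subgroup.centralizer (Q : Set G)) a' * F) - hat χ (incl (Subgroup.centralizer (Q : Set G)) a') ∈ locI hM.isPrime := by
  classical
  have hP := hM.isPrime
  set A : GA G := incl (Subgroup.centralizer (Q : Set G)) a' with hA
  have hAQ : PInv Q A := by
    refine pInv_incl ?_ fun c hc u hu => ?_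
    · intro c hc
      rw [Subgroup.mem_normalizer_iff]
      intro u
      constructor
      · intro h
        rwa [(mem_centralizer_iff_conj Q u).1 h c hc]
      · intro h
        have h1 := (mem_centralizer_iff_conj Q _).1 h c⁻¹ (Q.inv_mem hc)
        have h2 : c⁻¹ * (c * u * c⁻¹) * c⁻¹⁻¹ = u := by group
        rw [h2] at h1
        rw [h1]
        exact h
    · congr 1
      apply Subtype.ext
      exact (mem_centralizer_iff_conj Q _).1 u.2 c hc
  set κ : GA G := A * (1 - F) with hκ
  have hκs : SVal hP κ := SVal.mul hP (sval_incl _ hP has) (SVal.sub hP (sval_one hP) hFs)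
  have hκQ : PInv Q κ := hAQ.mul ((PInv.one Q).sub hFQ)
  have h1 := hat_cong_brC hM hQ hχ hκs hκQ
  set w' := brC Q F with hw'
  have hbr : brC Q κ = a' * (1 - w') := by
    rw [hκ, hA, brC, res_incl_mul]
    congr 1
    rw [← brC, brC_sub, brC_one]
  have hwc : IsCent w' := isCent_brC hFC
  have hws : SVal hP w' := sval_brC hM hFs
  set z := w' * fB f' with hz
  have hzc : IsCent z := hwc.mul (isCent_fB f')
  have hzs : SVal hP z := SVal.mul hP hws (sval_fB hM hf')
  have hzz : CDiv hM 1 (z - z * z) := by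
    have h2 := brC_mul_cdiv hM hQ hFs hFs hFQ hFQ
    rw [hFF] at h2
    have h3 := CDiv.mul_right hM (sval_fB hM hf') h2
    convert h3 using 1
    have h4 : fB f' * w' = w' * fB f' := (isCent_fB f').commute w'
    have h5 := fB_mul_self f'
    calc z - z * z = w' * fB f' - w' * (fB f' * w') * fB f' := by rw [hz]; noncomm_ring
      _ = w' * fB f' - w' * (w' * fB f') * fB f' := by rw [h4]
      _ = w' * fB f' - w' * w' * (fB f' * fB f') := by noncomm_ring
      _ = w' * fB f' - w' * w' * fB f' := by rw [h5]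
      _ = (w' - w' * w') * fB f' := by noncomm_ring
  have hom : ∀ ξ : IrrCharacter (Subgroup.centralizer (Q : Set G)),
      om (ξ : _ → ℂ) z - om (ξ : _ → ℂ) (fB f') ∈ locI hP := by
    intro ξ
    rw [hz, om_mul_of_cent ξ.2 hwc, om_fB]
    by_cases hξ : ξ ∈ f'
    · rw [if_pos hξ, mul_one]
      exact hlam ξ hξ
    · rw [if_neg hξ, mul_zero, sub_self]
      exact zero_mem _
  have hc := cdiv_of_idem_cong hM hzc (isCent_fB f') hzs (sval_fB hM hf') hzz (fB_mul_self f') hom
  have hu : a' * (1 - w') = - (a' * (z - fB f')) := by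
    have h4 : fB f' * w' = w' * fB f' := (isCent_fB f').commute w'
    calc a' * (1 - w') = (a' * fB f') * (1 - w') := by rw [haf]
      _ = a' * (fB f' - fB f' * w') := by noncomm_ring
      _ = a' * (fB f' - w' * fB f') := by rw [h4]
      _ = _ := by rw [hz]; noncomm_ring
  have hc2 : ∀ c, (a' * (1 - w')).coeff c ∈ locI hP := by
    intro c
    rw [hu]
    have h5 := DivBy.mem_locI hM (n := 0) (CDiv.mul_left hM has hc c)
    have h6 : (-(a' * (z - fB f'))).coeff c = - (a' * (z - fB f')).coeff c := coeff_neg' _ _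
    rw [h6]
    exact neg_mem h5
  have h2 : hat χ (incl (Subgroup.centralizer (Q : Set G)) (brC Q κ)) ∈ locI hP := by
    rw [hbr, hat_incl, hat]
    refine sum_mem fun c _ => ?_
    exact locI_mul_right hP (char_mem hP hχ _) (hc2 c)
  have h3 := (locI hP).add_mem h1 h2
  rw [sub_add_cancel, hκ, mul_sub, mul_one, hat_sub] at h3
  have h4 := neg_mem h3
  rwa [neg_sub] at h4

end Step

end CfsgLib.Block
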