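import Cfsg.Agent.Lib.Block.NV1

/-! # Non-vanishing of subsection parts for height zero characters: the good pairs -/

set_option autoImplicit false
set_option linter.unusedSectionVars false
set_option linter.unusedVariables false

namespace CfsgLib.Block

open Cfsg CfsgLib.Char
open scoped ComplexConjugate Pointwise

universe u

attribute [local instance] centFintype

section Good

variable {G : Type u} [Group G] [Fintype G] {p : ℕ} [hp : Fact p.Prime] {M : Ideal AlgInt} (hM : IsPModular p M)

/-- A pair `(Q,f)` is good for `χ` if some element of the `f`-part of the algebra of `C(Q)` is detected by `χ`. -/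
def GoodP (hP : M.IsPrime) (χ : G → ℂ) (a : BrauerPairIdx G) : Prop :=
  ∃ w : GA (Subgroup.centralizer (a.1 : Set G)), SVal hP w ∧ w * fB a.2 = w ∧
    hat χ (incl (Subgroup.centralizer (a.1 : Set G)) w) ∉ locI hP

include hM

/-- A good pair stays good when passing down a normal inclusion. -/
theorem good_step {χ : G → ℂ} (hχ : IsCharacter G χ) {a b : BrauerPairIdx G} (h : NormalSubpairRel p M a b)
    (hb : GoodP hM.isPrime χ b) : GoodP hM.isPrime χ a := by
  classical
  have hP := hM.isPrime
  obtain ⟨Q, f⟩ := a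
  obtain ⟨Q', f'⟩ := b
  obtain ⟨w', hws, hwf, hwn⟩ := hb
  simp only at w' hws hwf hwn
  have h' : IsNormalSubpair p M Q f Q' f' := h
  obtain ⟨hf, he, hQP, hPN, hst, hall⟩ := (isNormal_iff hP).1 h'
  have hPX := le_normalizer_centralizer hPN
  have hCX := centralizer_anti hQP
  set F : GA G := incl (Subgroup.centralizer (Q : Set G)) (fB f) with hF
  have hFFs : SVal hP F := sval_incl _ hP (sval_fB hM hf.2)
  have hFQ : PInv Q' F := pInv_incl_fB _ hPX ((stable_iff_stabilizes _ hPX f).2 hst)
  have hFC : PInv (Subgroup.centralizer (Q' : Set G)) F := pInv_of_cent hCX (isCent_fB f)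
  have hFF : F * F = F := by
    rw [hF, ← incl_mul, fB_mul_self]
  have h1 := step_core hM he.1 hχ he.2 hws hwf hFFs hFQ hFC hFF (fun ξ hξ => hall ξ hξ)
  set A : GA G := incl (Subgroup.centralizer (Q' : Set G)) w' with hA
  refine ⟨res (Subgroup.centralizer (Q : Set G)) A * fB f, ?_, ?_, ?_⟩
  · exact SVal.mul hP (sval_res _ hP (sval_incl _ hP hws)) (sval_fB hM hf.2)
  · simp only
    rw [mul_assoc, fB_mul_self]
  · simp only
    have h2 : incl (Subgroup.centralizer (Q : Set G)) (res (Subgroup.centralizer (Q : Set G)) A * fB f) = A * F := by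
      rw [incl_mul, incl_res]
      congr 1
      apply MonoidAlgebra.ext
      ext g
      show (resTo _ A).coeff g = A.coeff g
      by_cases hg : g ∈ Subgroup.centralizer (Q : Set G)
      · rw [coeff_resTo_of_mem _ hg]
      · rw [coeff_resTo_of_not_mem _ hg, hA, coeff_incl_not_mem _ _ (fun h => hg (hCX h))]
    rw [h2]
    intro h3
    apply hwn
    have h4 := (locI hP).sub_mem h3 h1
    rwa [sub_sub_cancel] at h4

theorem good_chain {χ : G → ℂ} (hχ : IsCharacter G χ) {a b : BrauerPairIdx G}
    (h : Relation.ReflTransGen (NormalSubpairRel p M) a b) (hb : GoodP hM.isPrime χ b) : GoodP hM.isPrime χ a := by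
  induction h using Relation.ReflTransGen.head_induction_on with
  | refl => exact hb
  | head hab _ ih => exact good_step hM hχ hab ih

omit hM hp in
theorem hat_cj {χ : G → ℂ} (hχ : IsClassFunction G χ) (t : G) (w : GA G) : hat χ (cj t w) = hat χ w := by
  classical
  rw [hat, hat]
  refine Fintype.sum_equiv (MulAut.conj t⁻¹).toEquiv _ _ fun g => ?_
  rw [coeff_cj]
  have e : (MulAut.conj t⁻¹).toEquiv g = t⁻¹ * g * t := by simp
  rw [e]
  congr 1
  have := hχ (t⁻¹ * g * t) t
  rw [← this]
  congr 1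
  group

omit hM hp in
theorem cj_incl_fB_cs (Q : Subgroup G) (t : G) (f : Set (IrrCharacter (Subgroup.centralizer (Q : Set G)))) :
    cj t (incl (Subgroup.centralizer (Q : Set G)) (fB f)) =
      incl (Subgroup.centralizer ((cs Q t : Subgroup G) : Set G)) (fB (conjBlock Q t f)) := by
  classical
  apply MonoidAlgebra.ext
  ext y
  show (cj t (incl _ (fB f))).coeff y = (incl _ (fB (conjBlock Q t f))).coeff y
  rw [coeff_cj]
  have hiff : t⁻¹ * y * t ∈ Subgroup.centralizer (Q : Set G) ↔ y ∈ Subgroup.centralizer ((cs Q t : Subgroup G) : Set G) := by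
    have h := mem_centralizer_cs (Q := Q) (x := t) (c := t⁻¹ * y * t)
    have e : t * (t⁻¹ * y * t) * t⁻¹ = y := by group
    rw [e] at h
    exact h.symm
  by_cases hy : y ∈ Subgroup.centralizer ((cs Q t : Subgroup G) : Set G)
  · rw [coeff_incl_mem _ _ hy, coeff_incl_mem _ _ (hiff.2 hy), coeff_fB, coeff_fB, conjBlock_eq, blockCoeff_setT]
    rfl
  · rw [coeff_incl_not_mem _ _ hy, coeff_incl_not_mem _ _ (fun h => hy (hiff.1 h))]

/-- Good pairs are permuted by conjugation. -/
theorem good_conj {χ : G → ℂ} (hχ : IsCharacter G χ) {a : BrauerPairIdx G} (t : G)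
    (h : GoodP hM.isPrime χ a) : GoodP hM.isPrime χ (cp t a) := by
  classical
  have hP := hM.isPrime
  obtain ⟨Q, f⟩ := a
  obtain ⟨w, hws, hwf, hwn⟩ := h
  simp only at w hws hwf hwn
  set A := incl (Subgroup.centralizer (Q : Set G)) w with hA
  have hiff : ∀ y, t⁻¹ * y * t ∈ Subgroup.centralizer (Q : Set G) ↔ y ∈ Subgroup.centralizer ((cs Q t : Subgroup G) : Set G) := by
    intro y
    have h := mem_centralizer_cs (Q := Q) (x := t) (c := t⁻¹ * y * t)
    have e : t * (t⁻¹ * y * t) * t⁻¹ = y := by group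
    rw [e] at h
    exact h.symm
  have hincl : incl (Subgroup.centralizer ((cs Q t : Subgroup G) : Set G))
      (res (Subgroup.centralizer ((cs Q t : Subgroup G) : Set G)) (cj t A)) = cj t A := by
    rw [incl_res]
    apply MonoidAlgebra.ext
    ext g
    show (resTo _ (cj t A)).coeff g = (cj t A).coeff g
    by_cases hg : g ∈ Subgroup.centralizer ((cs Q t : Subgroup G) : Set G)
    · rw [coeff_resTo_of_mem _ hg]
    · rw [coeff_resTo_of_not_mem _ hg, coeff_cj, hA, coeff_incl_not_mem _ _ (fun h => hg ((hiff g).1 h))]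
  refine ⟨res (Subgroup.centralizer ((cs Q t : Subgroup G) : Set G)) (cj t A), ?_, ?_, ?_⟩
  · intro c
    show (cj t A).coeff c ∈ locR hP
    rw [coeff_cj]
    exact sval_incl _ hP hws _
  · have h1 : incl (Subgroup.centralizer ((cs Q t : Subgroup G) : Set G))
        (res (Subgroup.centralizer ((cs Q t : Subgroup G) : Set G)) (cj t A) * fB (conjBlock Q t f)) = cj t A := by
      rw [incl_mul, hincl, ← cj_incl_fB_cs, ← cj_mul, hA, ← incl_mul, hwf]
    have h2 := congrArg (res (Subgroup.centralizer ((cs Q t : Subgroup G) : Set G))) h1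
    rw [res_incl] at h2
    exact h2
  · show hat χ (incl (Subgroup.centralizer ((cs Q t : Subgroup G) : Set G)) _) ∉ _
    rw [hincl, hat_cj hχ.isClassFunction]
    exact hwn

/-- The maximal pairs of a block are good for a character of height zero. -/
theorem good_base {B : Set (IrrCharacter G)} (hB : IsPBlock M B) {χ : IrrCharacter G} (hχ : χ ∈ B)
    (h0 : (charDegree (χ : G → ℂ)).factorization p = minNu p B) {D : Subgroup G}
    {c : Set (IrrCharacter (Subgroup.centralizer (D : Set G)))} (hmax : IsMaximalBrauerPair p M B D c) :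
    GoodP hM.isPrime (χ : G → ℂ) ⟨D, c⟩ := by
  classical
  have hPr := hM.isPrime
  have hD := isDefectGroup_of_maximal hM hmax
  have hDp : IsPGroup p D := hmax.1.1.1
  obtain ⟨z, hz, S, hS⟩ := hD
  have hzD : z ∈ Subgroup.centralizer (D : Set G) := by
    rw [Subgroup.mem_centralizer_iff]
    intro d hd
    rw [hS] at hd
    obtain ⟨e, _, rfl⟩ := hd
    exact Subgroup.mem_centralizer_singleton_iff.1 e.2
  have hzχ := char_notMem_of_defectClass hM hB hz hχ h0
  let a₀ : GA (Subgroup.centralizer (D : Set G)) := MonoidAlgebra.single ⟨z, hzD⟩ 1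
  have ha₀s : SVal hPr a₀ := sval_single hPr (one_mem _)
  have hsum : ∑ c' ∈ blockSet M (Subgroup.centralizer (D : Set G)), hat (χ : G → ℂ) (incl _ (a₀ * fB c')) = (χ : G → ℂ) z := by
    have h1 : ∑ c' ∈ blockSet M (Subgroup.centralizer (D : Set G)), (a₀ * fB c') = a₀ := by
      rw [← Finset.mul_sum, sum_fB hPr, mul_one]
    have h2 : hat (fun h : Subgroup.centralizer (D : Set G) => (χ : G → ℂ) h) a₀ = (χ : G → ℂ) z := by
      rw [hat_single, one_mul]
    simp only [hat_incl]
    rw [← hat_sum, h1, h2]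
  obtain ⟨c', hc', hn⟩ : ∃ c' ∈ blockSet M (Subgroup.centralizer (D : Set G)), hat (χ : G → ℂ) (incl _ (a₀ * fB c')) ∉ locI hPr := by
    by_contra hcon
    push Not at hcon
    apply hzχ
    rw [← hsum]
    exact sum_mem hcon
  have hc'b : IsPBlock M c' := mem_blockSet.1 hc'
  set a₁ := a₀ * fB c' with ha₁
  have ha₁s : SVal hPr a₁ := SVal.mul hPr ha₀s (sval_fB hM hc'b)
  have ha₁f : a₁ * fB c' = a₁ := by rw [ha₁, mul_assoc, fB_mul_self]
  -- the pair `(D, c')` belongs to `B`
  have hpair : IsBrauerPairOf p M B D c' := by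
    obtain ⟨B₁, hB₁, -⟩ := existsUnique_block_of_pair hM (P := D) ⟨hDp, hc'b⟩
    by_cases hne : B = B₁
    · rw [hne]; exact hB₁
    exfalso
    obtain ⟨_, hB₁b, hl⟩ := (isPair_iff hPr).1 hB₁
    have hfs : SVal hPr (fB B) := sval_fB hM hB
    have hfs₁ : SVal hPr (fB B₁) := sval_fB hM hB₁b
    set F : GA G := 1 - fB B with hF
    have hFs : SVal hPr F := SVal.sub hPr (sval_one hPr) hfs
    have hFC : ∀ T : Subgroup G, PInv T F := fun T => (PInv.one T).sub ((isCent_fB B).pInv T)
    have hFF : F * F = F := by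
      rw [hF]
      have := fB_mul_self B
      calc (1 - fB B) * (1 - fB B) = 1 - fB B - fB B + fB B * fB B := by noncomm_ring
        _ = 1 - fB B := by rw [this]; abel
    have hlam : ∀ ξ ∈ c', lam D (ξ : _ → ℂ) F - 1 ∈ locI hPr := by
      intro ξ hξ
      have h1 := lam_mul_sub_mem hM hDp ξ.2 hfs hfs₁ ((isCent_fB B).pInv _) ((isCent_fB B₁).pInv _)
        ((isCent_fB B).pInv _) ((isCent_fB B₁).pInv _)
      rw [fB_mul_of_ne hPr hB hB₁b hne] at h1
      have h2 : lam D (ξ : _ → ℂ) (0 : GA G) = 0 := by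
        have h := lam_smul (P := D) (ξ : Subgroup.centralizer (D : Set G) → ℂ) (0 : ℂ) (0 : GA G)
        simpa using h
      rw [h2, zero_sub] at h1
      have h3 := hl ξ hξ
      have h4 := lam_mem hM ξ.2 ((isCent_fB B).pInv _) hfs
      have h5 := locI_mul_left hPr h4 h3
      have h6 := neg_mem h1
      have h7 := (locI hPr).sub_mem h6 h5
      rw [hF, lam_sub, lam_one ξ.2]
      convert neg_mem h7 using 1
      ring
    have h1 := step_core hM hDp χ.2.isCharacter hc'b ha₁s ha₁f hFs (hFC _) (hFC _) hFF hlam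
    have h2 : hat (χ : G → ℂ) (incl (Subgroup.centralizer (D : Set G)) a₁ * F) = 0 := by
      rw [hF, mul_sub, mul_one, hat_sub, ← (isCent_fB B).commute, hat_mul_of_cent χ.2 (isCent_fB B), om_fB, if_pos hχ, one_mul, sub_self]
    rw [h2, zero_sub] at h1
    exact hn (by simpa using neg_mem h1)
  obtain ⟨n, -, hn'⟩ := exists_conj_of_pairs hM (isDefectGroup_of_maximal hM hmax) hpair hmax.1
  have h3 := good_conj hM χ.2.isCharacter (a := ⟨D, c'⟩) n ⟨a₁, ha₁s, ha₁f, hn⟩
  rwa [hn'] at h3

end Good

end CfsgLib.Block
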