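import Cfsg.Agent.Lib.Block.NV2

/-! # Non-vanishing of subsection parts for height zero characters -/

set_option autoImplicit false
set_option linter.unusedSectionVars false
set_option linter.unusedVariables false

namespace CfsgLib.Block

open Cfsg CfsgLib.Char
open scoped ComplexConjugate Pointwise

universe u

section Translate

variable {C : Type u} [Group C] [Fintype C]

/-- Inner products with a function translated by a central element. -/
theorem classInner_translate_gen {x' : C} (hz : ∀ g : C, x' * g = g * x') (g : C → ℂ) (ψ : IrrCharacter C) :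
    classInner (fun c => g (x' * c)) (ψ : C → ℂ) = ((ψ : C → ℂ) x' / (ψ : C → ℂ) 1) * classInner g (ψ : C → ℂ) := by
  classical
  have hzi : ∀ g : C, x'⁻¹ * g = g * x'⁻¹ := by
    intro g
    calc x'⁻¹ * g = x'⁻¹ * (g * x') * x'⁻¹ := by group
      _ = x'⁻¹ * (x' * g) * x'⁻¹ := by rw [hz]
      _ = g * x'⁻¹ := by group
  have hr : conj ((ψ : C → ℂ) x'⁻¹ / (ψ : C → ℂ) 1) = (ψ : C → ℂ) x' / (ψ : C → ℂ) 1 := by
    rw [map_div₀, conj_irr_one ψ.2, ψ.2.map_inv, Complex.conj_conj]
  rw [classInner_def, classInner_def, mul_left_comm]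
  congr 1
  have e := Equiv.sum_comp (Equiv.mulLeft x') (fun d => g d * conj ((ψ : C → ℂ) (x'⁻¹ * d)))
  rw [← hr, Finset.mul_sum]
  refine Eq.trans ?_ (e.trans ?_)
  · refine Finset.sum_congr rfl fun c _ => ?_
    simp only [Equiv.coe_mulLeft, inv_mul_cancel_left]
  · refine Finset.sum_congr rfl fun d _ => ?_
    rw [char_mul_central ψ.2 hzi, map_mul]
    ring

end Translate

section Main

variable {G : Type u} [Group G] [Fintype G] {p : ℕ} [hp : Fact p.Prime] {M : Ideal AlgInt} (hM : IsPModular p M)
include hM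

attribute [local instance] centFintype

/-- **S4428**: the subsection part of a height zero character does not vanish on `p`-regular elements. -/
theorem s4428 {B : Set (IrrCharacter G)} (hB : IsPBlock M B) {χ : IrrCharacter G} (hχ : χ ∈ B)
    (h0 : (charDegree (χ : G → ℂ)).factorization p = minNu p B) {x : G} {k : ℕ} (hx : orderOf x = p ^ k)
    [Fintype (Subgroup.centralizer ({x} : Set G))] {b : Set (IrrCharacter (Subgroup.centralizer ({x} : Set G)))}
    (hb : IsInducedBlock M (Subgroup.centralizer ({x} : Set G)) b B) :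
    ∃ y : Subgroup.centralizer ({x} : Set G), ¬ p ∣ orderOf y ∧
      proj b (fun c : Subgroup.centralizer ({x} : Set G) => (χ : G → ℂ) (x * (c : G))) y ≠ 0 := by
  classical
  have hP := hM.isPrime
  by_contra hcon
  push Not at hcon
  have hzp : IsPGroup p (Subgroup.zpowers x) := by
    rw [IsPGroup.iff_card]
    exact ⟨k, by rw [Nat.card_zpowers, hx]⟩
  have h1 := (isInducedBlock_congr (centralizer_singleton_eq_zpowers x)).1 hb
  have h2 : IsBrauerPairOf p M B (Subgroup.zpowers x) (setT (prT x) b) := (isPair_iff_isInduced hM hzp).2 h1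
  obtain ⟨R, g, hle, hmax⟩ := exists_maximal_above hM _ _ h2
  obtain ⟨w, hws, hwf, hwn⟩ := good_chain hM χ.2.isCharacter hle (good_base hM hB hχ h0 hmax)
  simp only at w hws hwf hwn
  have hCZ : (Subgroup.centralizer ({x} : Set G)) = (Subgroup.centralizer ((Subgroup.zpowers x : Subgroup G) : Set G)) := centralizer_singleton_eq_zpowers x
  set A : GA G := incl (Subgroup.centralizer ((Subgroup.zpowers x : Subgroup G) : Set G)) w with hA
  have hAres : resTo (Subgroup.centralizer ({x} : Set G)) A = A := by
    apply MonoidAlgebra.ext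
    ext g
    show (resTo (Subgroup.centralizer ({x} : Set G)) A).coeff g = A.coeff g
    by_cases hg : g ∈ (Subgroup.centralizer ({x} : Set G))
    · rw [coeff_resTo_of_mem _ hg]
    · rw [coeff_resTo_of_not_mem _ hg, hA, coeff_incl_not_mem _ _ (fun h => hg (hCZ ▸ h))]
  let a₀ : GA (Subgroup.centralizer ({x} : Set G)) := res (Subgroup.centralizer ({x} : Set G)) A
  have hincl : incl (Subgroup.centralizer ({x} : Set G)) a₀ = A := by rw [incl_res, hAres]
  have ha₀s : SVal hP a₀ := sval_res _ hP (sval_incl _ hP hws)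
  have hfb : incl (Subgroup.centralizer ({x} : Set G)) (fB b) = incl (Subgroup.centralizer ((Subgroup.zpowers x : Subgroup G) : Set G)) (fB (setT (prT x) b)) := by
    apply MonoidAlgebra.ext
    ext y
    show (incl (Subgroup.centralizer ({x} : Set G)) (fB b)).coeff y = (incl (Subgroup.centralizer ((Subgroup.zpowers x : Subgroup G) : Set G)) (fB (setT (prT x) b))).coeff y
    by_cases hy : y ∈ (Subgroup.centralizer ({x} : Set G))
    · rw [coeff_incl_mem _ _ hy, coeff_incl_mem _ _ (hCZ ▸ hy), coeff_fB, coeff_fB, blockCoeff_setT]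
      rfl
    · rw [coeff_incl_not_mem _ _ hy, coeff_incl_not_mem _ _ (fun h => hy (hCZ ▸ h))]
  have ha₀f : a₀ * fB b = a₀ := by
    have h3 : incl (Subgroup.centralizer ({x} : Set G)) (a₀ * fB b) = incl (Subgroup.centralizer ({x} : Set G)) a₀ := by
      rw [incl_mul, hincl, hfb, hA, ← incl_mul, hwf]
    have h4 := congrArg (res (Subgroup.centralizer ({x} : Set G))) h3
    rwa [res_incl, res_incl] at h4
  -- the section function
  let x' : (Subgroup.centralizer ({x} : Set G)) := ⟨x, Subgroup.mem_centralizer_singleton_iff.2 rfl⟩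
  have hz : ∀ g : (Subgroup.centralizer ({x} : Set G)), x' * g = g * x' := by
    intro g
    apply Subtype.ext
    exact (Subgroup.mem_centralizer_singleton_iff.1 g.2).symm
  let θ : (Subgroup.centralizer ({x} : Set G)) → ℂ := fun c => (χ : G → ℂ) (x * (c : G))
  let χC : (Subgroup.centralizer ({x} : Set G)) → ℂ := fun c => (χ : G → ℂ) (c : G)
  have hχC : IsCharacter (Subgroup.centralizer ({x} : Set G)) χC := χ.2.isCharacter.restrict (Subgroup.centralizer ({x} : Set G))
  have hθ : IsClassFunction (Subgroup.centralizer ({x} : Set G)) θ := isClass_sectionFun χ.2.isClassFunction x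
  have hαeq : ∀ ψ : IrrCharacter (Subgroup.centralizer ({x} : Set G)), classInner θ (ψ : (Subgroup.centralizer ({x} : Set G)) → ℂ) = ((ψ : (Subgroup.centralizer ({x} : Set G)) → ℂ) x' / (ψ : (Subgroup.centralizer ({x} : Set G)) → ℂ) 1) * classInner χC (ψ : (Subgroup.centralizer ({x} : Set G)) → ℂ) :=
    fun ψ => classInner_translate_gen hz χC ψ
  have hα : ∀ ψ : IrrCharacter (Subgroup.centralizer ({x} : Set G)), classInner θ (ψ : (Subgroup.centralizer ({x} : Set G)) → ℂ) ∈ locR hP := by
    intro ψ
    rw [hαeq]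
    obtain ⟨n, hn⟩ := hχC.classInner_nat ψ.2
    rw [hn]
    refine mul_mem ?_ (natCast_mem _ n)
    have hs := om_mem hP ψ.2 (isCent_single_central hz) (sval_single hP (c := 1) (one_mem _))
    rw [om, hat_single, one_mul] at hs
    exact hs
  -- all values of the block part are in the ideal
  have hval : ∀ c : (Subgroup.centralizer ({x} : Set G)), proj b θ c ∈ locI hP := by
    intro c
    have h3 : proj b θ (pReg p c) = 0 := hcon _ (not_dvd_orderOf_pReg c)
    rw [← sub_zero (proj b θ c), ← h3, proj_apply, proj_apply, ← Finset.sum_sub_distrib]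
    refine sum_mem fun ψ _ => ?_
    split_ifs with hψ
    · rw [← mul_sub]
      exact locI_mul_left hP (hα ψ) (char_pReg_cong hM ψ.2.isCharacter c)
    · rw [sub_self]
      exact zero_mem _
  have hhat1 : hat (proj b θ) a₀ ∈ locI hP := by
    rw [hat]
    exact sum_mem fun c _ => locI_mul_left hP (ha₀s c) (hval c)
  -- non-members of `b` do not contribute
  have hzero : ∀ ψ : IrrCharacter (Subgroup.centralizer ({x} : Set G)), ψ ∉ b → hat (ψ : (Subgroup.centralizer ({x} : Set G)) → ℂ) a₀ = 0 := by
    intro ψ hψ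
    rw [← ha₀f, ← (isCent_fB b).commute, hat_mul_of_cent ψ.2 (isCent_fB b), om_fB, if_neg hψ, zero_mul]
  have hsum : ∀ (v : (Subgroup.centralizer ({x} : Set G)) → ℂ), hat v a₀ = ∑ c, a₀.coeff c * v c := fun v => rfl
  have hθhat : hat θ a₀ = hat (proj b θ) a₀ := by
    have e1 : hat θ a₀ = ∑ ψ : IrrCharacter (Subgroup.centralizer ({x} : Set G)), classInner θ (ψ : (Subgroup.centralizer ({x} : Set G)) → ℂ) * hat (ψ : (Subgroup.centralizer ({x} : Set G)) → ℂ) a₀ := by
      rw [hsum]
      simp only [hsum]
      simp only [Finset.mul_sum]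
      rw [Finset.sum_comm]
      refine Finset.sum_congr rfl fun c _ => ?_
      rw [classFunction_apply hθ c, Finset.mul_sum]
      refine Finset.sum_congr rfl fun ψ _ => ?_
      ring
    have e2 : hat (proj b θ) a₀ = ∑ ψ : IrrCharacter (Subgroup.centralizer ({x} : Set G)), if ψ ∈ b then classInner θ (ψ : (Subgroup.centralizer ({x} : Set G)) → ℂ) * hat (ψ : (Subgroup.centralizer ({x} : Set G)) → ℂ) a₀ else 0 := by
      rw [hsum]
      simp only [proj_apply, Finset.mul_sum]
      rw [Finset.sum_comm]
      refine Finset.sum_congr rfl fun ψ _ => ?_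
      split_ifs with hψ
      · rw [hsum, Finset.mul_sum]
        refine Finset.sum_congr rfl fun c _ => ?_
        ring
      · simp
    rw [e1, e2]
    refine Finset.sum_congr rfl fun ψ _ => ?_
    split_ifs with hψ
    · rfl
    · rw [hzero ψ hψ, mul_zero]
  have hcong : hat θ a₀ - hat (χ : G → ℂ) A ∈ locI hP := by
    rw [← hincl, hat_incl, hsum, hsum, ← Finset.sum_sub_distrib]
    refine sum_mem fun c _ => ?_
    rw [← mul_sub]
    exact locI_mul_left hP (ha₀s c) (char_value_congr hM χ.2.isCharacter x (c : G) hx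
      (Subgroup.mem_centralizer_singleton_iff.1 c.2).symm)
  apply hwn
  have h5 := (locI hP).sub_mem (hθhat ▸ hhat1) hcong
  rwa [sub_sub_cancel] at h5

end Main

end CfsgLib.Block
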