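import Cfsg.Agent.Lib.Block.Real
import Cfsg.Agent.Lib.Block.Rank

/-! # Galois-stable two-blocks of full defect -/

set_option autoImplicit false
set_option linter.unusedSectionVars false
set_option linter.unusedVariables false

namespace CfsgLib.Block

open Cfsg CfsgLib.Char
open scoped ComplexConjugate

universe u

variable {G : Type u} [Group G] [Fintype G] {M : Ideal AlgInt} (hM : IsPModular 2 M)

include hM

/-- The key congruence for two-blocks, assuming only the symmetry of the idempotent and of the central character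
on odd classes. -/
theorem om_fB_sub_one_coeff' {B : Set (IrrCharacter G)} (hB : IsPBlock M B)
    (hinv : ∀ g : G, blockCoeff B g⁻¹ = blockCoeff B g)
    {θ : IrrCharacter G} (hdeg : ¬ 2 ∣ charDegree (θ : G → ℂ))
    (hsame : ∀ g : G, ¬ 2 ∣ orderOf g →
      centralChar (θ : G → ℂ) g⁻¹ - centralChar (θ : G → ℂ) g ∈ locI hM.isPrime) :
    om (θ : G → ℂ) (fB B) - blockCoeff B 1 ∈ locI hM.isPrime := by
  classical
  letI : Fintype (ConjClasses G) := Fintype.ofFinite _
  have hP := hM.isPrime
  have hs := sval_fB hM hB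
  have h2I : (2 : ℂ) ∈ locI hP := by
    have := p_mem_locI hM
    simpa using this
  set f : ConjClasses G → ℂ := fun E => (fB B).coeff E.out * centralChar (θ : G → ℂ) E.out with hf
  set E₁ : ConjClasses G := ConjClasses.mk 1 with hE₁
  have hout₁ : E₁.out = 1 := by
    have := out_isConj E₁ 1 rfl
    exact isConj_one_right.1 this.symm
  have hcc₁ : centralChar (θ : G → ℂ) 1 = 1 := by
    rw [centralChar]
    have : Subgroup.centralizer ({(1 : G)} : Set G) = ⊤ := by
      ext x
      simp [Subgroup.mem_centralizer_singleton_iff]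
    rw [this, Subgroup.index_top, Nat.cast_one, one_mul, div_self θ.2.map_one_ne_zero]
  rw [om_eq_sum_classes θ.2 (isCent_fB B), ← Finset.add_sum_erase _ _ (Finset.mem_univ E₁)]
  have h1 : (fB B).coeff E₁.out * centralChar (θ : G → ℂ) E₁.out = blockCoeff B 1 := by
    rw [hout₁, hcc₁, mul_one, coeff_fB]
  rw [h1, add_sub_cancel_left]
  let π := QuotientAddGroup.mk' (locI hP)
  rw [← QuotientAddGroup.eq_zero_iff]
  change π _ = 0
  rw [map_sum]
  refine Finset.sum_involution (fun E _ => invClass E) ?_ ?_ ?_ ?_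
  · intro E _
    change π _ + π _ = 0
    rw [← map_add, QuotientAddGroup.mk'_apply, QuotientAddGroup.eq_zero_iff]
    have hc : IsConj (invClass E).out (E.out)⁻¹ := out_isConj _ _ rfl
    obtain ⟨c, hc'⟩ := isConj_iff.1 hc.symm
    have e1 : (fB B).coeff (invClass E).out = (fB B).coeff E.out := by
      rw [← hc', (isCent_fB B).conj, coeff_fB, coeff_fB, hinv]
    have e2 : centralChar (θ : G → ℂ) (invClass E).out = centralChar (θ : G → ℂ) (E.out)⁻¹ := by
      rw [← hc', centralChar_conj θ.2]
    rw [e1, e2]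
    by_cases hreg : 2 ∣ orderOf E.out
    · rw [coeff_fB, blockCoeff_singular hM hB hreg, zero_mul, zero_mul, add_zero]
      exact (locI hP).zero_mem
    have h3 := hsame _ hreg
    have h4 : (fB B).coeff E.out * centralChar (θ : G → ℂ) E.out + (fB B).coeff E.out * centralChar (θ : G → ℂ) (E.out)⁻¹ =
        (fB B).coeff E.out * (2 * centralChar (θ : G → ℂ) E.out + (centralChar (θ : G → ℂ) (E.out)⁻¹ - centralChar (θ : G → ℂ) E.out)) := by
      ring
    rw [h4]
    refine locI_mul_left hP (hs _) ((locI hP).add_mem ?_ h3)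
    exact locI_mul_right hP (centralChar_mem hP θ.2 _) h2I
  · intro E hE hne heq
    apply hne
    rw [QuotientAddGroup.mk'_apply, QuotientAddGroup.eq_zero_iff]
    have hE1 : E ≠ E₁ := (Finset.mem_erase.1 hE).1
    have hreal : IsConj E.out (E.out)⁻¹ := by
      have h3 : ConjClasses.mk (E.out)⁻¹ = E := heq
      have h4 : ConjClasses.mk (E.out)⁻¹ = ConjClasses.mk E.out := h3.trans (mk_out E).symm
      exact (ConjClasses.mk_eq_mk_iff_isConj.1 h4).symm
    by_cases hreg : 2 ∣ orderOf E.out
    · rw [coeff_fB, blockCoeff_singular hM hB hreg, zero_mul]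
      exact (locI hP).zero_mem
    · have hev : 2 ∣ (Subgroup.centralizer ({E.out} : Set G)).index := by
        by_contra hodd
        apply hE1
        have h3 := eq_one_of_real_of_odd hreal hreg hodd
        rw [← mk_out E, h3]
      refine locI_mul_left hP (hs _) ?_
      rw [centralChar, ← coe_charDegree θ.2.isCharacter, mul_div_assoc, div_eq_mul_inv]
      exact locI_mul_right hP (mul_mem (char_mem hP θ.2.isCharacter _) (natCast_inv_mem hM hdeg))
        ((natCast_mem_locI_iff hM _).2 hev)
  · intro E hE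
    refine Finset.mem_erase.2 ⟨fun h => (Finset.mem_erase.1 hE).1 ?_, Finset.mem_univ _⟩
    rw [← invClass_invClass E, h, hE₁, invClass]
    have h3 : (ConjClasses.mk (1 : G)).out = 1 := hout₁
    rw [h3, inv_one]
  · intro E _
    exact invClass_invClass E

/-- **S4517** -/
theorem principal_of_stable_full_defect (k : ℕ) (hk : Nat.Coprime k (Nat.card G))
    (hk₂ : ∀ g : G, Odd (orderOf g) → g ^ k = g⁻¹) (B : Set (IrrCharacter G)) (hB : IsPBlock M B)
    (hdef : blockDefect 2 B = (Nat.card G).factorization 2)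
    (hstab : ∀ χ ∈ B, ∃ ψ ∈ B, ∀ g : G, (ψ : G → ℂ) g = (χ : G → ℂ) (g ^ k)) :
    B = principalBlock M G := by
  classical
  have hP := hM.isPrime
  choose! σ hσB hσ using hstab
  -- an odd-degree character
  obtain ⟨ζ, hζ, hζ2⟩ := exists_minNu_eq (p := 2) (IsPBlock.nonempty hP hB)
  have hle : (charDegree (ζ : G → ℂ)).factorization 2 ≤ (Nat.card G).factorization 2 := minNu_le_factorization
  have h4 : blockDefect 2 B = (Nat.card G).factorization 2 - minNu 2 B := rfl
  have h5 : (charDegree (ζ : G → ℂ)).factorization 2 = 0 := by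
    rw [← hζ2] at h4
    omega
  have hdeg : ¬ 2 ∣ charDegree (ζ : G → ℂ) := by
    intro hd
    have := (Nat.Prime.dvd_iff_one_le_factorization Nat.prime_two (charDegree_ne_zero ζ.2)).1 hd
    omega
  have hodd : ∀ g : G, ¬ 2 ∣ orderOf g → Odd (orderOf g) := fun g hg => by
    rwa [← Nat.not_even_iff_odd, even_iff_two_dvd]
  have hσg : ∀ χ ∈ B, ∀ g : G, ¬ 2 ∣ orderOf g → (σ χ : G → ℂ) g = (χ : G → ℂ) g⁻¹ := by
    intro χ hχ g hg
    rw [hσ χ hχ, hk₂ g (hodd g hg)]
  have hσ1 : ∀ χ ∈ B, (σ χ : G → ℂ) 1 = (χ : G → ℂ) 1 := by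
    intro χ hχ
    rw [hσ χ hχ, one_pow]
  -- symmetry of the idempotent
  have hinj : Set.InjOn σ B := by
    intro χ hχ χ' hχ' h
    apply Subtype.ext
    funext g
    have hbij := (powCoprime hk.symm).surjective g
    obtain ⟨h', rfl⟩ := hbij
    have h1 := hσ χ hχ h'
    have h2 := hσ χ' hχ' h'
    rw [h] at h1
    exact h1.symm.trans h2
  have hinv : ∀ g : G, blockCoeff B g⁻¹ = blockCoeff B g := by
    intro g
    by_cases hreg : 2 ∣ orderOf g
    · rw [blockCoeff_singular hM hB hreg, blockCoeff_singular hM hB (by rwa [orderOf_inv])]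
    rw [blockCoeff, blockCoeff, finsum_mem_eq_sum_ite, finsum_mem_eq_sum_ite]
    congr 1
    rw [← Finset.sum_filter, ← Finset.sum_filter]
    symm
    refine Finset.sum_bij (fun χ _ => σ χ) ?_ ?_ ?_ ?_
    · intro χ hχ
      have hχ' := (Finset.mem_filter.1 hχ).2
      exact Finset.mem_filter.2 ⟨Finset.mem_univ _, hσB χ hχ'⟩
    · intro χ hχ χ' hχ' h
      exact hinj (Finset.mem_filter.1 hχ).2 (Finset.mem_filter.1 hχ').2 h
    · intro ψ hψ
      have hψ' := (Finset.mem_filter.1 hψ).2
      have hfin : B.Finite := Set.toFinite B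
      have hsurj : Set.SurjOn σ B B := by
        have : Set.BijOn σ B B := (Set.Finite.injOn_iff_bijOn_of_mapsTo hfin (fun χ hχ => hσB χ hχ)).1 hinj
        exact this.surjOn
      obtain ⟨χ, hχ, rfl⟩ := hsurj hψ'
      exact ⟨χ, Finset.mem_filter.2 ⟨Finset.mem_univ _, hχ⟩, rfl⟩
    · intro χ hχ
      have hχ' := (Finset.mem_filter.1 hχ).2
      rw [hσ1 χ hχ', hσg χ hχ' g⁻¹ (by rwa [orderOf_inv]), inv_inv]
  -- central characters
  have hcc : ∀ θ : IrrCharacter G, θ ∈ B → ∀ g : G, ¬ 2 ∣ orderOf g →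
      centralChar (θ : G → ℂ) g⁻¹ - centralChar (θ : G → ℂ) g ∈ locI hP := by
    intro θ hθ g hg
    have h1 : centralChar (θ : G → ℂ) g⁻¹ = centralChar (σ θ : G → ℂ) g := by
      have h2 : Subgroup.centralizer ({g⁻¹} : Set G) = Subgroup.centralizer ({g} : Set G) := by
        ext x
        rw [Subgroup.mem_centralizer_singleton_iff, Subgroup.mem_centralizer_singleton_iff]
        exact Commute.inv_right_iff (a := x) (b := g)
      simp only [centralChar]
      rw [h2, hσg θ hθ g hg, hσ1 θ hθ]
    rw [h1]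
    have h3 : SameBlock M (σ θ : G → ℂ) (θ : G → ℂ) := sameBlock_of_mem hP hB (hσB θ hθ) hθ
    exact (h3 g)
  have hcc1 : ∀ g : G, ¬ 2 ∣ orderOf g →
      centralChar ((oneIrr G : IrrCharacter G) : G → ℂ) g⁻¹ - centralChar ((oneIrr G : IrrCharacter G) : G → ℂ) g ∈ locI hP := by
    intro g hg
    have h2 : Subgroup.centralizer ({g⁻¹} : Set G) = Subgroup.centralizer ({g} : Set G) := by
      ext x
      rw [Subgroup.mem_centralizer_singleton_iff, Subgroup.mem_centralizer_singleton_iff]
      exact Commute.inv_right_iff (a := x) (b := g)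
    simp only [centralChar]
    rw [h2]
    have : ∀ y : G, ((oneIrr G : IrrCharacter G) : G → ℂ) y = 1 := fun _ => rfl
    simp only [this, sub_self]
    exact (locI hP).zero_mem
  have hd1 : ¬ 2 ∣ charDegree ((oneIrr G : IrrCharacter G) : G → ℂ) := by
    rw [charDegree_oneIrr]
    omega
  have e1 := om_fB_sub_one_coeff' hM hB hinv hd1 hcc1
  have e2 := om_fB_sub_one_coeff' hM hB hinv hdeg (hcc ζ hζ)
  by_contra hnp
  have hone : oneIrr G ∉ B := by
    intro h
    exact hnp (blockOf_eq_of_mem hP hB h)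
  rw [om_fB, if_neg hone, zero_sub] at e1
  rw [om_fB, if_pos hζ] at e2
  apply one_notMem_locI hP
  have := (locI hP).sub_mem e2 e1
  simpa using this

end CfsgLib.Block
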