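import Cfsg.Agent.Lib.Block.RobLin
import Cfsg.Agent.Lib.Block.Spectral
import Cfsg.Agent.Lib.Block.Kern

/-! # Blocks with a normal defect group: the form on the classes of defect `D` -/

set_option autoImplicit false
set_option linter.unusedSectionVars false
set_option linter.unusedVariables false

namespace CfsgLib.Block

open Cfsg CfsgLib.Char
open scoped ComplexConjugate

universe u

variable {G : Type u} [Group G]

/-- The class condition in a working form. -/
def PD (p : ℕ) (D : Subgroup G) (x : G) : Prop :=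
  ¬ p ∣ orderOf x ∧ D ≤ Subgroup.centralizer ({x} : Set G) ∧
    ∀ Q : Subgroup G, IsPGroup p Q → Q ≤ Subgroup.centralizer ({x} : Set G) → Q ≤ D

section PD

variable [Fintype G] {p : ℕ} [hp : Fact p.Prime] {D : Subgroup G}

theorem pd_iff [hn : D.Normal] (hDp : IsPGroup p D) (x : G) :
    (¬ p ∣ orderOf x ∧ ∃ Q : Sylow p (Subgroup.centralizer ({x} : Set G)),
      (Q : Subgroup (Subgroup.centralizer ({x} : Set G))).map (Subgroup.centralizer ({x} : Set G)).subtype = D) ↔ PD p D x := by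
  constructor
  · rintro ⟨hr, Q, hQ⟩
    refine ⟨hr, ?_, fun R hR hRL => ?_⟩
    · rw [← hQ]; exact map_sylow_le _ Q
    · obtain ⟨c, -, hc⟩ := exists_conj_le_sylow _ Q hRL hR
      rw [hQ] at hc
      intro b hb
      have := hn.conj_mem _ (hc b hb) c
      simpa [mul_assoc] using this
  · rintro ⟨hr, hDC, hmax⟩
    have h1 : IsPGroup p (D.subgroupOf (Subgroup.centralizer ({x} : Set G))) := hDp.comap_subtype
    obtain ⟨Q, hQ⟩ := h1.exists_le_sylow
    exact ⟨hr, Q, le_antisymm (hmax _ (isPGroup_map_sylow _ Q) (map_sylow_le _ Q)) (normal_le_map_sylow _ Q hn hDp hDC)⟩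

theorem centralizer_inv_singleton (x : G) :
    Subgroup.centralizer ({x⁻¹} : Set G) = Subgroup.centralizer ({x} : Set G) := by
  ext g
  rw [Subgroup.mem_centralizer_singleton_iff, Subgroup.mem_centralizer_singleton_iff]
  exact Commute.inv_right_iff (a := g) (b := x)

theorem PD.inv {x : G} (h : PD p D x) : PD p D x⁻¹ := by
  have e := centralizer_inv_singleton x
  refine ⟨by rw [orderOf_inv]; exact h.1, by rw [e]; exact h.2.1, by rw [e]; exact h.2.2⟩

theorem PD.conj [hn : D.Normal] {x : G} (h : PD p D x) (y : G) : PD p D (y * x * y⁻¹) := by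
  refine ⟨?_, ?_, ?_⟩
  · have : orderOf (y * x * y⁻¹) = orderOf x := by
      have := MulEquiv.orderOf_eq (MulAut.conj y) x
      rwa [MulAut.conj_apply] at this
    rw [this]
    exact h.1
  · intro d hd
    rw [Subgroup.mem_centralizer_singleton_iff]
    have h1 := h.2.1 (hn.conj_mem d hd y⁻¹)
    rw [Subgroup.mem_centralizer_singleton_iff] at h1
    have h2 : y⁻¹ * d * y * x = x * (y⁻¹ * d * y) := by simpa using h1
    calc d * (y * x * y⁻¹) = y * (y⁻¹ * d * y * x) * y⁻¹ := by group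
      _ = y * (x * (y⁻¹ * d * y)) * y⁻¹ := by rw [h2]
      _ = y * x * y⁻¹ * d := by group
  · intro Q hQ hQC
    have h1 : Q.map (MulAut.conj y⁻¹).toMonoidHom ≤ D := by
      refine h.2.2 _ (hQ.map _) ?_
      rintro _ ⟨c, hc, rfl⟩
      have h2 := hQC hc
      rw [Subgroup.mem_centralizer_singleton_iff] at h2 ⊢
      simp only [MulEquiv.coe_toMonoidHom, MulAut.conj_apply, inv_inv]
      calc y⁻¹ * c * y * x = y⁻¹ * (c * (y * x * y⁻¹)) * y := by group
        _ = y⁻¹ * ((y * x * y⁻¹) * c) * y := by rw [h2]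
        _ = x * (y⁻¹ * c * y) := by group
    intro c hc
    have h2 : y⁻¹ * c * y ∈ D := by
      have := h1 ⟨c, hc, rfl⟩
      simpa [MulAut.conj_apply] using this
    have := hn.conj_mem _ h2 y
    simpa [mul_assoc] using this

theorem pd_index [hn : D.Normal] (hDp : IsPGroup p D) {x : G} (h : PD p D x) :
    ∃ q : ℕ, ¬ p ∣ q ∧ (Subgroup.centralizer ({x} : Set G)).index =
      p ^ ((Nat.card G).factorization p - (Nat.card D).factorization p) * q := by
  obtain ⟨-, Q, hQ⟩ := (pd_iff hDp x).2 h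
  have h1 : Nat.card D = Nat.card Q := by
    rw [← hQ]
    exact Subgroup.card_map_of_injective (Subgroup.subtype_injective _)
  rw [Sylow.card_eq_multiplicity] at h1
  have h2 : (Nat.card D).factorization p = (Nat.card (Subgroup.centralizer ({x} : Set G))).factorization p := by
    rw [h1, Nat.factorization_pow]
    simp [hp.out.factorization_self]
  have h3 := card_centralizer_factorization (p := p) x
  have hne : (Subgroup.centralizer ({x} : Set G)).index ≠ 0 := Subgroup.index_ne_zero_of_finite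
  refine ⟨_, Nat.not_dvd_ordCompl hp.out hne, ?_⟩
  have h4 : (Nat.card G).factorization p - (Nat.card D).factorization p = (Subgroup.centralizer ({x} : Set G)).index.factorization p := by
    omega
  rw [h4]
  exact (Nat.ordProj_mul_ordCompl_eq_self _ p).symm

end PD

section Blocks

variable [Fintype G] {p : ℕ} [hp : Fact p.Prime] {D : Subgroup G} {M : Ideal AlgInt} (hM : IsPModular p M)
include hM

theorem isDefectGroup_of_centralChar [hn : D.Normal] (hDp : IsPGroup p D) {B : Set (IrrCharacter G)} (hB : IsPBlock M B)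
    {χ : IrrCharacter G} (hχ : χ ∈ B) {x : G} (hx : PD p D x)
    (hh : centralChar (χ : G → ℂ) x ∉ locI hM.isPrime) : IsDefectGroup p M B D := by
  classical
  obtain ⟨g₀, hg₀⟩ := exists_defectClass hM hB
  let D₀ : Sylow p (Subgroup.centralizer ({g₀} : Set G)) := default
  have h1 := normal_le_of_defectClass hM hB hg₀ D₀ hn hDp
  obtain ⟨y, hy⟩ := minmax_b hM hB hg₀ D₀ hχ hh
  have h2 : (D₀ : Subgroup _).map (Subgroup.centralizer ({g₀} : Set G)).subtype ≤ D := by
    have hE : IsPGroup p (((D₀ : Subgroup _).map (Subgroup.centralizer ({g₀} : Set G)).subtype).map (MulAut.conj y).toMonoidHom) :=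
      (isPGroup_map_sylow _ D₀).map _
    have h3 := hx.2.2 _ hE (by
      rintro _ ⟨c, hc, rfl⟩
      exact hy c hc)
    intro c hc
    have h4 : y * c * y⁻¹ ∈ D := h3 ⟨c, hc, rfl⟩
    have := hn.conj_mem _ h4 y⁻¹
    simpa [mul_assoc] using this
  exact ⟨g₀, hg₀, D₀, le_antisymm h1 h2⟩

theorem pd_of_blockCoeff [hn : D.Normal] (hDp : IsPGroup p D) {B : Set (IrrCharacter G)} (hB : IsPBlock M B)
    (hD : IsDefectGroup p M B D) {g : G} (h : blockCoeff B g ∉ locI hM.isPrime) : PD p D g := by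
  classical
  obtain ⟨g₀, hg₀, D₀, hD₀⟩ := hD
  refine ⟨?_, ?_, ?_⟩
  · intro hd
    exact h (by rw [blockCoeff_singular hM hB hd]; exact zero_mem _)
  · intro d hd
    have hg : g ∈ Subgroup.centralizer (D : Set G) := by
      by_contra hnot
      exact h (by rw [blockCoeff_eq_zero_of_not_centralizer hM D hDp hB hnot]; exact zero_mem _)
    rw [Subgroup.mem_centralizer_iff] at hg
    rw [Subgroup.mem_centralizer_singleton_iff]
    exact hg d hd
  · intro Q hQ hQC
    obtain ⟨y, hy⟩ := minmax_a hM hB hg₀ D₀ h hQ hQC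
    intro c hc
    have h1 := hy c hc
    rw [← hD₀] at h1
    have := hn.conj_mem _ h1 y
    simpa [mul_assoc] using this

omit hM in
theorem dvd_orderOf_mul (hDp : IsPGroup p D) {x d : G} (hx : ¬ p ∣ orderOf x) (hd : d ∈ D) (hne : d ≠ 1)
    (hc : Commute x d) : p ∣ orderOf (x * d) := by
  obtain ⟨k, hk⟩ := IsPGroup.iff_orderOf.1 hDp ⟨d, hd⟩
  rw [Subgroup.orderOf_mk] at hk
  have hk0 : k ≠ 0 := by
    rintro rfl
    rw [pow_zero, orderOf_eq_one_iff] at hk
    exact hne hk
  have hcop : Nat.Coprime (orderOf x) (orderOf d) := by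
    rw [hk]
    exact Nat.Coprime.pow_right _ ((Nat.Prime.coprime_iff_not_dvd hp.out).2 hx).symm
  rw [hc.orderOf_mul_eq_mul_orderOf_of_coprime hcop, hk]
  exact Dvd.dvd.mul_left (dvd_pow_self p hk0) _

theorem mul_avgA_coeff [hn : D.Normal] (hDp : IsPGroup p D) {x : G} (hx : ¬ p ∣ orderOf x)
    (hxD : D ≤ Subgroup.centralizer ({x} : Set G)) {B : Set (IrrCharacter G)} (hB : IsPBlock M B) :
    (fB B * avgA D).coeff x = (Nat.card D : ℂ)⁻¹ * blockCoeff B x := by
  classical
  rw [coeff_mul_sum', Finset.sum_eq_single (1 : G)]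
  · rw [coeff_avgA, if_pos D.one_mem, inv_one, mul_one, coeff_fB, mul_comm]
  · intro g _ hg1
    rw [coeff_avgA]
    split_ifs with hg
    · have h1 := hxD (D.inv_mem hg)
      rw [Subgroup.mem_centralizer_singleton_iff] at h1
      have h2 : Commute x g⁻¹ := h1.symm
      rw [coeff_fB, blockCoeff_singular hM hB (dvd_orderOf_mul hDp hx (D.inv_mem hg) (by simpa using hg1) h2), zero_mul]
    · rw [mul_zero]
  · intro h
    exact absurd (Finset.mem_univ _) h

open Classical in
theorem blockCoeff_formula [hn : D.Normal] (hDp : IsPGroup p D) {x : G} (hx : ¬ p ∣ orderOf x)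
    (hxD : D ≤ Subgroup.centralizer ({x} : Set G)) {B : Set (IrrCharacter G)} (hB : IsPBlock M B) :
    blockCoeff B x = (Nat.card D : ℂ) * ∑ χ : IrrCharacter G,
      if χ ∈ B then om (χ : G → ℂ) (avgA D) * ((χ : G → ℂ) 1 / (Nat.card G : ℂ) * conj ((χ : G → ℂ) x)) else 0 := by
  have h0 := mul_avgA_coeff hM hDp hx hxD hB
  have hc : IsCent (fB B * avgA D) := (isCent_fB B).mul (isCent_avgA D)
  have h1 : (fB B * avgA D).coeff x = ∑ χ : IrrCharacter G,
      if χ ∈ B then om (χ : G → ℂ) (avgA D) * ((χ : G → ℂ) 1 / (Nat.card G : ℂ) * conj ((χ : G → ℂ) x)) else 0 := by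
    conv_lhs => rw [fourier hc]
    rw [coeff_sum']
    refine Finset.sum_congr rfl fun χ _ => ?_
    rw [coeff_smul', om_mul_of_cent χ.2 (isCent_fB B), om_fB, coeff_eChi]
    split_ifs <;> ring
  rw [← h1, h0]
  have hD0 : (Nat.card D : ℂ) ≠ 0 := by exact_mod_cast (Nat.card_pos (α := D)).ne'
  field_simp

end Blocks

section Form

variable [Fintype G]

open Classical in
/-- The sum of the coefficients on a subgroup. -/
noncomputable def tS (S : Subgroup G) (a : GA G) : ℂ := ∑ s : G, if s ∈ S then a.coeff s else 0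

theorem tS_cent (S : Subgroup G) {a : GA G} (ha : IsCent a) :
    tS S a = ∑ χ : IrrCharacter G, om (χ : G → ℂ) a * tS S (eChi (χ : G → ℂ)) := by
  classical
  conv_lhs => rw [fourier ha]
  simp only [tS, coeff_sum', coeff_smul', Finset.mul_sum]
  rw [Finset.sum_comm]
  refine Finset.sum_congr rfl fun s _ => ?_
  split_ifs
  · rfl
  · simp

theorem tS_fB {p : ℕ} [hp : Fact p.Prime] {M : Ideal AlgInt} (hM : IsPModular p M) {S : Subgroup G} (hS : IsPGroup p S)
    {B : Set (IrrCharacter G)} (hB : IsPBlock M B) : tS S (fB B) = blockCoeff B 1 := by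
  classical
  rw [tS, Finset.sum_eq_single (1 : G)]
  · rw [if_pos S.one_mem, coeff_fB]
  · intro s _ hs
    split_ifs with h
    · obtain ⟨k, hk⟩ := IsPGroup.iff_orderOf.1 hS ⟨s, h⟩
      rw [Subgroup.orderOf_mk] at hk
      have hk0 : k ≠ 0 := by
        rintro rfl
        rw [pow_zero, orderOf_eq_one_iff] at hk
        exact hs hk
      rw [coeff_fB]
      exact blockCoeff_singular hM hB (by rw [hk]; exact dvd_pow_self p hk0)
    · rfl
  · intro h
    exact absurd (Finset.mem_univ _) h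

theorem exists_tS_eChi (S : Subgroup G) {χ : G → ℂ} (hχ : IsIrrCharacter G χ) :
    ∃ n : ℕ, tS S (eChi χ) = χ 1 * (n : ℂ) / (S.index : ℂ) := by
  classical
  letI : Fintype S := Fintype.ofFinite _
  obtain ⟨n, hn⟩ := (isCharacter_one (G := S)).classInner_nat_of_char (hχ.isCharacter.restrict S)
  refine ⟨n, ?_⟩
  have h1 : tS S (eChi χ) = χ 1 / (Nat.card G : ℂ) * ∑ s : S, conj (χ (s : G)) := by
    rw [tS, Finset.mul_sum, ← Finset.sum_filter]
    rw [Finset.sum_subtype (p := fun x => x ∈ S) (Finset.univ.filter (· ∈ S)) (by simp) (fun s => (eChi χ).coeff s)]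
    refine Finset.sum_congr rfl fun s _ => ?_
    rw [coeff_eChi]
  rw [classInner_def] at hn
  simp only [one_mul] at hn
  have hS0 : (Nat.card S : ℂ) ≠ 0 := by exact_mod_cast (Nat.card_pos (α := S)).ne'
  have hI0 : (S.index : ℂ) ≠ 0 := by exact_mod_cast Subgroup.index_ne_zero_of_finite
  have h2 : ∑ s : S, conj (χ (s : G)) = (Nat.card S : ℂ) * n := by
    rw [← hn]
    field_simp
  have h3 : (Nat.card G : ℂ) = (S.index : ℂ) * (Nat.card S : ℂ) := by
    exact_mod_cast (Subgroup.index_mul_card S).symm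
  rw [h1, h2, h3]
  field_simp

theorem card_pairs (S : Subgroup G) (a b : G) :
    (Nat.card {yz : G × G // yz.1 ∈ (ConjClasses.mk a).carrier ∧ yz.2 ∈ (ConjClasses.mk b).carrier ∧ yz.2 * yz.1⁻¹ ∈ S} : ℂ) =
      tS S (cSum b * cSum a⁻¹) := by
  classical
  let Q : G × G → Prop := fun yz => yz.1 ∈ (ConjClasses.mk a).carrier ∧ yz.2 ∈ (ConjClasses.mk b).carrier ∧ yz.2 * yz.1⁻¹ ∈ S
  have h1 : (Nat.card {yz : G × G // Q yz} : ℂ) = ∑ yz : G × G, if Q yz then (1 : ℂ) else 0 := by
    rw [Nat.card_eq_fintype_card, Fintype.card_subtype, Finset.card_filter]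
    push_cast
    rfl
  let e : G × G ≃ G × G :=
    { toFun := fun sg => (sg.1⁻¹ * sg.2, sg.2)
      invFun := fun yz => (yz.2 * yz.1⁻¹, yz.2)
      left_inv := fun sg => by ext <;> simp
      right_inv := fun yz => by ext <;> simp }
  have h2 : (∑ yz : G × G, if Q yz then (1 : ℂ) else 0) = ∑ sg : G × G, if Q (e sg) then (1 : ℂ) else 0 :=
    (Equiv.sum_comp e _).symm
  show (Nat.card {yz : G × G // Q yz} : ℂ) = _
  rw [h1, h2, Fintype.sum_prod_type, tS]
  refine Finset.sum_congr rfl fun s _ => ?_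
  rw [coeff_mul_sum]
  by_cases hs : s ∈ S
  · rw [if_pos hs]
    refine Finset.sum_congr rfl fun g _ => ?_
    have hQ : Q (e (s, g)) ↔ IsConj g b ∧ IsConj (g⁻¹ * s) a⁻¹ := by
      show (s⁻¹ * g ∈ (ConjClasses.mk a).carrier ∧ g ∈ (ConjClasses.mk b).carrier ∧ g * (s⁻¹ * g)⁻¹ ∈ S) ↔ _
      have e1 : g * (s⁻¹ * g)⁻¹ = s := by group
      rw [e1, ConjClasses.mem_carrier_iff_mk_eq, ConjClasses.mem_carrier_iff_mk_eq, ConjClasses.mk_eq_mk_iff_isConj,
        ConjClasses.mk_eq_mk_iff_isConj]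
      have e2 : (g⁻¹ * s) = (s⁻¹ * g)⁻¹ := by group
      rw [e2, isConj_inv_inv]
      tauto
    rw [coeff_cSum, coeff_cSum]
    by_cases h3 : IsConj g b
    · by_cases h4 : IsConj (g⁻¹ * s) a⁻¹
      · rw [if_pos (hQ.2 ⟨h3, h4⟩), if_pos h3, if_pos h4, one_mul]
      · rw [if_neg (fun h => h4 (hQ.1 h).2), if_neg h4, mul_zero]
    · rw [if_neg (fun h => h3 (hQ.1 h).1), if_neg h3, zero_mul]
  · rw [if_neg hs]
    refine Finset.sum_eq_zero fun g _ => ?_
    rw [if_neg]
    intro h
    apply hs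
    have e1 : g * (s⁻¹ * g)⁻¹ = s := by group
    have := h.2.2
    simpa [e] using this

end Form

section Main

variable [Fintype G] {p : ℕ} [hp : Fact p.Prime] {D : Subgroup G} {M : Ideal AlgInt} (hM : IsPModular p M)
include hM

open Classical in
/-- Summing over class representatives of the classes of defect `D`. -/
theorem sum_reps [hn : D.Normal] (hDp : IsPGroup p D) {B : Set (IrrCharacter G)} (hB : IsPBlock M B)
    (hD : IsDefectGroup p M B D) {ι : Type*} [Fintype ι] (z : ι → G)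
    (hinj : Function.Injective fun i => ConjClasses.mk (z i))
    (hsurj : ∀ g, PD p D g → ∃ i, ConjClasses.mk (z i) = ConjClasses.mk g) (χ : IrrCharacter G) :
    ∑ i, blockCoeff B (z i) * centralChar (χ : G → ℂ) (z i) - (if χ ∈ B then 1 else 0) ∈ locI hM.isPrime := by
  have hP := hM.isPrime
  letI : Fintype (ConjClasses G) := Fintype.ofFinite _
  have h0 := om_fB B χ
  rw [om_eq_sum_classes χ.2 (isCent_fB B)] at h0
  let E : Finset (ConjClasses G) := Finset.univ.image fun i => ConjClasses.mk (z i)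
  have hclass : ∀ (g : G), blockCoeff B (ConjClasses.mk g).out * centralChar (χ : G → ℂ) (ConjClasses.mk g).out =
      blockCoeff B g * centralChar (χ : G → ℂ) g := by
    intro g
    have h1 : IsConj (ConjClasses.mk g).out g := ConjClasses.mk_eq_mk_iff_isConj.1 (Quotient.out_eq' _)
    obtain ⟨c, hc⟩ := isConj_iff.1 h1
    have e1 : blockCoeff B g = blockCoeff B (ConjClasses.mk g).out := by
      conv_lhs => rw [← hc]
      exact blockCoeff_conj B _ c
    have e2 : centralChar (χ : G → ℂ) g = centralChar (χ : G → ℂ) (ConjClasses.mk g).out := by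
      conv_lhs => rw [← hc]
      exact centralChar_conj χ.2 _ c
    rw [e1, e2]
  have h1 : ∑ F : ConjClasses G, (fB B).coeff F.out * centralChar (χ : G → ℂ) F.out =
      ∑ F ∈ E, (fB B).coeff F.out * centralChar (χ : G → ℂ) F.out +
        ∑ F ∈ Eᶜ, (fB B).coeff F.out * centralChar (χ : G → ℂ) F.out := (Finset.sum_add_sum_compl _ _).symm
  have h2 : ∑ F ∈ E, (fB B).coeff F.out * centralChar (χ : G → ℂ) F.out =
      ∑ i, blockCoeff B (z i) * centralChar (χ : G → ℂ) (z i) := by
    rw [Finset.sum_image (fun i _ j _ h => hinj h)]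
    refine Finset.sum_congr rfl fun i _ => ?_
    rw [coeff_fB, hclass]
  have h3 : ∑ F ∈ Eᶜ, (fB B).coeff F.out * centralChar (χ : G → ℂ) F.out ∈ locI hP := by
    refine sum_mem fun F hF => ?_
    have hnot : (fB B).coeff F.out ∈ locI hP := by
      by_contra hc
      have hpd := pd_of_blockCoeff hM hDp hB hD hc
      obtain ⟨i, hi⟩ := hsurj _ hpd
      apply Finset.mem_compl.1 hF
      refine Finset.mem_image.2 ⟨i, Finset.mem_univ _, ?_⟩
      show ConjClasses.mk (z i) = F
      rw [hi]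
      exact Quotient.out_eq' F
    exact locI_mul_right hP (centralChar_mem hP χ.2 _) hnot
  rw [h1, h2] at h0
  rw [← h0]
  have e : ∀ a b : ℂ, a - (a + b) = -b := fun a b => by ring
  rw [e]
  exact neg_mem h3

/-- Arithmetic of the `p`-parts. -/
theorem arith_parts (hDp : IsPGroup p D) (S : Sylow p G) :
    p ^ ((Nat.card G).factorization p - (Nat.card D).factorization p) * Nat.card D = Nat.card (S : Subgroup G) := by
  obtain ⟨k, hk⟩ := IsPGroup.iff_card.1 hDp
  have hS := Sylow.card_eq_multiplicity S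
  have h1 : (Nat.card D).factorization p = k := by
    rw [hk, Nat.factorization_pow]
    simp [hp.out.factorization_self]
  have h2 : k ≤ (Nat.card G).factorization p := by
    have h3 : p ^ k ∣ Nat.card G := by
      rw [← hk]
      exact Subgroup.card_subgroup_dvd_card D
    exact (hp.out.pow_dvd_iff_le_factorization Nat.card_pos.ne').1 h3
  rw [h1, hS, hk, ← pow_add]
  congr 1
  omega

/-- The degree in a block with defect group `D` is divisible by `p ^ (a - δ)`. -/
theorem dvd_degree_of_defect {B : Set (IrrCharacter G)} (hB : IsPBlock M B) (hD : IsDefectGroup p M B D)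
    {χ : IrrCharacter G} (hχ : χ ∈ B) :
    p ^ ((Nat.card G).factorization p - (Nat.card D).factorization p) ∣ charDegree (χ : G → ℂ) := by
  have h1 := card_defectGroup hM hB hD
  have h2 : (Nat.card D).factorization p = blockDefect p B := by
    rw [h1, Nat.factorization_pow]
    simp [hp.out.factorization_self]
  have h3 : blockDefect p B = (Nat.card G).factorization p - minNu p B := rfl
  refine dvd_trans (pow_dvd_pow p ?_) (pow_minNu_dvd hχ)
  omega

end Main

section Final

variable [Fintype G] {p : ℕ} [hp : Fact p.Prime] {D : Subgroup G} {M : Ideal AlgInt} (hM : IsPModular p M)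
include hM

omit hp in
theorem pairs_div (S : Subgroup G) (a b : G) (N : ℂ) :
    (Nat.card {yz : G × G // yz.1 ∈ (ConjClasses.mk a).carrier ∧ yz.2 ∈ (ConjClasses.mk b).carrier ∧ yz.2 * yz.1⁻¹ ∈ S} : ℂ) / N =
      ∑ χ : IrrCharacter G, centralChar (χ : G → ℂ) b * centralChar (χ : G → ℂ) a⁻¹ * (tS S (eChi (χ : G → ℂ)) / N) := by
  rw [card_pairs, tS_cent S ((isCent_cSum b).mul (isCent_cSum a⁻¹)), Finset.sum_div]
  refine Finset.sum_congr rfl fun χ _ => ?_
  rw [om_mul_of_cent χ.2 (isCent_cSum b), om_cSum χ.2, om_cSum χ.2, mul_div_assoc]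

theorem term_eq (S : Sylow p G) {χ : IrrCharacter G} {b : G} {N q : ℕ} (hN : N ≠ 0)
    (hx : (Subgroup.centralizer ({b} : Set G)).index = N * q) :
    ∃ r ∈ locR hM.isPrime, centralChar (χ : G → ℂ) b * (tS (S : Subgroup G) (eChi (χ : G → ℂ)) / (N : ℂ)) = r := by
  have hP := hM.isPrime
  obtain ⟨n, hn⟩ := exists_tS_eChi (S : Subgroup G) χ.2
  have hm : ¬ p ∣ (S : Subgroup G).index := S.not_dvd_index
  have hm0 : ((S : Subgroup G).index : ℂ) ≠ 0 := natCast_ne_zero_of_not_dvd hM hm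
  have h1 := χ.2.map_one_ne_zero
  have hN0 : (N : ℂ) ≠ 0 := by exact_mod_cast hN
  refine ⟨(q : ℂ) * (χ : G → ℂ) b * ((n : ℂ) * ((S : Subgroup G).index : ℂ)⁻¹), ?_, ?_⟩
  · refine mul_mem (mul_mem (natCast_mem _ q) (locR_of_isIntegral hP (χ.2.isCharacter.isIntegral b))) ?_
    exact mul_mem (natCast_mem _ n) (natCast_inv_mem hM hm)
  · rw [hn, centralChar, hx]
    push_cast
    field_simp

/-- In a block with defect group `D`. -/
theorem tS_div_mem (S : Sylow p G) {B : Set (IrrCharacter G)} (hB : IsPBlock M B) (hD : IsDefectGroup p M B D)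
    {χ : IrrCharacter G} (hχ : χ ∈ B) :
    tS (S : Subgroup G) (eChi (χ : G → ℂ)) / ((p ^ ((Nat.card G).factorization p - (Nat.card D).factorization p) : ℕ) : ℂ) ∈ locR hM.isPrime := by
  have hP := hM.isPrime
  obtain ⟨n, hn⟩ := exists_tS_eChi (S : Subgroup G) χ.2
  have hm : ¬ p ∣ (S : Subgroup G).index := S.not_dvd_index
  have hm0 : ((S : Subgroup G).index : ℂ) ≠ 0 := natCast_ne_zero_of_not_dvd hM hm
  obtain ⟨d, hd⟩ := dvd_degree_of_defect hM hB hD hχ
  have h1 : (χ : G → ℂ) 1 = ((p ^ ((Nat.card G).factorization p - (Nat.card D).factorization p) : ℕ) : ℂ) * (d : ℂ) := by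
    rw [← coe_charDegree χ.2.isCharacter, hd]
    push_cast
    rfl
  have hN0 : ((p ^ ((Nat.card G).factorization p - (Nat.card D).factorization p) : ℕ) : ℂ) ≠ 0 := by
    exact_mod_cast (pow_pos hp.out.pos _).ne'
  have e : tS (S : Subgroup G) (eChi (χ : G → ℂ)) / ((p ^ ((Nat.card G).factorization p - (Nat.card D).factorization p) : ℕ) : ℂ) =
      (d : ℂ) * (n : ℂ) * ((S : Subgroup G).index : ℂ)⁻¹ := by
    rw [hn, h1]
    field_simp
  rw [e]
  exact mul_mem (mul_mem (natCast_mem _ d) (natCast_mem _ n)) (natCast_inv_mem hM hm)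

open Classical in
theorem L_formula (S : Sylow p G) {B : Set (IrrCharacter G)} (hB : IsPBlock M B) (N : ℂ) :
    blockCoeff B 1 / N = ∑ χ : IrrCharacter G, if χ ∈ B then tS (S : Subgroup G) (eChi (χ : G → ℂ)) / N else 0 := by
  rw [← tS_fB hM S.isPGroup' hB, tS_cent _ (isCent_fB B), Finset.sum_div]
  refine Finset.sum_congr rfl fun χ _ => ?_
  rw [om_fB]
  split_ifs <;> ring

open Classical in
/-- The key congruence. -/
theorem star_congr [hn : D.Normal] (hDp : IsPGroup p D) (S : Sylow p G) {B : Set (IrrCharacter G)} (hB : IsPBlock M B)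
    (hD : IsDefectGroup p M B D) {χ₀ : IrrCharacter G} (hχ₀ : χ₀ ∈ B) {x : G} (hx : PD p D x) {q : ℕ}
    (hq : (Subgroup.centralizer ({x} : Set G)).index = p ^ ((Nat.card G).factorization p - (Nat.card D).factorization p) * q) :
    (q : ℂ) * blockCoeff B x⁻¹ - blockCoeff B 1 / ((p ^ ((Nat.card G).factorization p - (Nat.card D).factorization p) : ℕ) : ℂ) *
      centralChar (χ₀ : G → ℂ) x ∈ locI hM.isPrime := by
  have hP := hM.isPrime
  obtain ⟨N, hN⟩ : ∃ N, N = p ^ ((Nat.card G).factorization p - (Nat.card D).factorization p) := ⟨_, rfl⟩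
  rw [← hN] at hq ⊢
  have hN0 : (N : ℂ) ≠ 0 := by
    rw [hN]
    exact_mod_cast (pow_pos hp.out.pos _).ne'
  have hSc : N * Nat.card D = Nat.card (S : Subgroup G) := by
    rw [hN]
    exact arith_parts hM hDp S
  have hGc : (Nat.card G : ℂ) = ((S : Subgroup G).index : ℂ) * ((N : ℂ) * (Nat.card D : ℂ)) := by
    have := (Subgroup.index_mul_card (S : Subgroup G)).symm
    rw [← hSc] at this
    exact_mod_cast this
  have hD0 : (Nat.card D : ℂ) ≠ 0 := by exact_mod_cast (Nat.card_pos (α := D)).ne'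
  have hm : ¬ p ∣ (S : Subgroup G).index := S.not_dvd_index
  have hm0 : ((S : Subgroup G).index : ℂ) ≠ 0 := natCast_ne_zero_of_not_dvd hM hm
  let r : IrrCharacter G → ℂ := fun χ => om (χ : G → ℂ) (avgA D) * (Nat.card D : ℂ) * ((χ : G → ℂ) 1) ^ 2 / ((Nat.card G : ℂ) * (N : ℂ))
  have hr : ∀ χ ∈ B, r χ ∈ locR hP := by
    intro χ hχ
    obtain ⟨d, hd⟩ := dvd_degree_of_defect hM hB hD hχ
    rw [← hN] at hd
    have h1 : (χ : G → ℂ) 1 = (N : ℂ) * (d : ℂ) := by
      rw [← coe_charDegree χ.2.isCharacter, hd]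
      push_cast
      rfl
    have e : r χ = om (χ : G → ℂ) (avgA D) * ((d : ℂ) ^ 2 * ((S : Subgroup G).index : ℂ)⁻¹) := by
      show om (χ : G → ℂ) (avgA D) * (Nat.card D : ℂ) * ((χ : G → ℂ) 1) ^ 2 / ((Nat.card G : ℂ) * (N : ℂ)) = _
      rw [h1, hGc]
      field_simp
    rw [e]
    refine mul_mem ?_ (mul_mem (pow_mem (natCast_mem _ d) 2) (natCast_inv_mem hM hm))
    rcases om_avgA_cases D χ with h | h
    · rw [h.1]; exact one_mem _
    · rw [h.1]; exact zero_mem _
  have h1 : blockCoeff B 1 / (N : ℂ) = ∑ χ : IrrCharacter G, if χ ∈ B then r χ else 0 := by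
    have hC : D ≤ Subgroup.centralizer ({(1 : G)} : Set G) := by
      intro d _
      rw [Subgroup.mem_centralizer_singleton_iff]
      simp
    rw [blockCoeff_formula hM hDp (x := (1 : G)) (by simpa using hp.out.one_lt.ne') hC hB, Finset.mul_sum, Finset.sum_div]
    refine Finset.sum_congr rfl fun χ _ => ?_
    split_ifs
    · have h2 : conj ((χ : G → ℂ) 1) = (χ : G → ℂ) 1 := by
        rw [← coe_charDegree χ.2.isCharacter, Complex.conj_natCast]
      rw [h2]
      show _ = om (χ : G → ℂ) (avgA D) * (Nat.card D : ℂ) * ((χ : G → ℂ) 1) ^ 2 / ((Nat.card G : ℂ) * (N : ℂ))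
      have hG0 : (Nat.card G : ℂ) ≠ 0 := by exact_mod_cast (Nat.card_pos (α := G)).ne'
      field_simp
    · rw [mul_zero, zero_div]
  have h2 : (q : ℂ) * blockCoeff B x⁻¹ = ∑ χ : IrrCharacter G, if χ ∈ B then r χ * centralChar (χ : G → ℂ) x else 0 := by
    have hC : D ≤ Subgroup.centralizer ({x⁻¹} : Set G) := by
      rw [centralizer_inv_singleton]
      exact hx.2.1
    rw [blockCoeff_formula hM hDp (x := x⁻¹) (by rw [orderOf_inv]; exact hx.1) hC hB, Finset.mul_sum, Finset.mul_sum]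
    refine Finset.sum_congr rfl fun χ _ => ?_
    split_ifs
    · have h3 : conj ((χ : G → ℂ) x⁻¹) = (χ : G → ℂ) x := by
        rw [χ.2.map_inv, Complex.conj_conj]
      rw [h3]
      show _ = om (χ : G → ℂ) (avgA D) * (Nat.card D : ℂ) * ((χ : G → ℂ) 1) ^ 2 / ((Nat.card G : ℂ) * (N : ℂ)) * centralChar (χ : G → ℂ) x
      rw [centralChar, hq]
      have hG0 : (Nat.card G : ℂ) ≠ 0 := by exact_mod_cast (Nat.card_pos (α := G)).ne'
      have h10 := χ.2.map_one_ne_zero
      push_cast
      field_simp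
    · rw [mul_zero, mul_zero]
  rw [h1, h2, Finset.sum_mul, ← Finset.sum_sub_distrib]
  refine sum_mem fun χ _ => ?_
  split_ifs with hχ
  · have e : r χ * centralChar (χ : G → ℂ) x - r χ * centralChar (χ₀ : G → ℂ) x =
        r χ * (centralChar (χ : G → ℂ) x - centralChar (χ₀ : G → ℂ) x) := by ring
    rw [e]
    refine locI_mul_left hP (hr χ hχ) ?_
    have hb := blockOf_eq_of_mem hP hB hχ
    have h3 : χ₀ ∈ blockOf M (χ : G → ℂ) := hb ▸ hχ₀
    exact h3 x
  · simp

end Final

section Assembly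

variable [Fintype G] {p : ℕ} [hp : Fact p.Prime] {D : Subgroup G} {M : Ideal AlgInt} (hM : IsPModular p M)
include hM

theorem robinson_main [hn : D.Normal] (hDp : IsPGroup p D) (S : Sylow p G) {ι : Type*} [Fintype ι] [DecidableEq ι]
    (x : ι → G) (hxP : ∀ i, PD p D (x i)) (hinj : Function.Injective fun i => ConjClasses.mk (x i))
    (hsurj : ∀ g, PD p D g → ∃ i, ConjClasses.mk (x i) = ConjClasses.mk g) :
    Nat.card {B : Set (IrrCharacter G) // IsPBlock M B ∧ IsDefectGroup p M B D} =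
      (Matrix.of fun i j : ι => ((Nat.card {yz : G × G // yz.1 ∈ (ConjClasses.mk (x i)).carrier ∧ yz.2 ∈ (ConjClasses.mk (x j)).carrier ∧ yz.2 * yz.1⁻¹ ∈ (S : Subgroup G)} / p ^ ((Nat.card G).factorization p - (Nat.card D).factorization p) : ℕ) : ZMod p)).rank := by
  classical
  have hP := hM.isPrime
  obtain ⟨N, hN⟩ : ∃ N, N = p ^ ((Nat.card G).factorization p - (Nat.card D).factorization p) := ⟨_, rfl⟩
  rw [← hN]
  have hN0' : N ≠ 0 := by
    rw [hN]
    exact (pow_pos hp.out.pos _).ne'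
  have hN0 : (N : ℂ) ≠ 0 := by exact_mod_cast hN0'
  have hq : ∀ i, ∃ q : ℕ, ¬ p ∣ q ∧ (Subgroup.centralizer ({x i} : Set G)).index = N * q := by
    intro i
    rw [hN]
    exact pd_index hDp (hxP i)
  choose q hqp hq using hq
  -- the number of pairs
  let c : ι → ι → ℕ := fun i j => Nat.card {yz : G × G // yz.1 ∈ (ConjClasses.mk (x i)).carrier ∧ yz.2 ∈ (ConjClasses.mk (x j)).carrier ∧ yz.2 * yz.1⁻¹ ∈ (S : Subgroup G)}
  have hc : ∀ i j, (c i j : ℂ) / (N : ℂ) =
      ∑ χ : IrrCharacter G, centralChar (χ : G → ℂ) (x j) * centralChar (χ : G → ℂ) (x i)⁻¹ * (tS (S : Subgroup G) (eChi (χ : G → ℂ)) / (N : ℂ)) :=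
    fun i j => pairs_div hM _ _ _ _
  have hterm : ∀ (χ : IrrCharacter G) j, centralChar (χ : G → ℂ) (x j) * (tS (S : Subgroup G) (eChi (χ : G → ℂ)) / (N : ℂ)) ∈ locR hP := by
    intro χ j
    obtain ⟨r, hr, hr'⟩ := term_eq hM S (χ := χ) hN0' (hq j)
    rw [hr']
    exact hr
  have hdvd : ∀ i j, N ∣ c i j := by
    intro i j
    by_cases h0 : c i j = 0
    · rw [h0]; exact dvd_zero _
    · have h1 : DivBy hM ((Nat.card G).factorization p - (Nat.card D).factorization p) (c i j : ℂ) := by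
        rw [DivBy]
        have e : ((p : ℂ) ^ ((Nat.card G).factorization p - (Nat.card D).factorization p)) = (N : ℂ) := by
          rw [hN]
          push_cast
          rfl
        rw [e, hc]
        refine sum_mem fun χ _ => ?_
        have e2 : centralChar (χ : G → ℂ) (x j) * centralChar (χ : G → ℂ) (x i)⁻¹ * (tS (S : Subgroup G) (eChi (χ : G → ℂ)) / (N : ℂ)) =
            (centralChar (χ : G → ℂ) (x j) * (tS (S : Subgroup G) (eChi (χ : G → ℂ)) / (N : ℂ))) * centralChar (χ : G → ℂ) (x i)⁻¹ := by ring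
        rw [e2]
        exact mul_mem (hterm χ j) (centralChar_mem hP χ.2 _)
      rw [hN]
      exact (divBy_natCast_iff hM h0).1 h1
  have hnc : ∀ i j, ((c i j / N : ℕ) : ℂ) = (c i j : ℂ) / (N : ℂ) := fun i j => Nat.cast_div (hdvd i j) hN0
  -- the index set
  letI : Fintype {B : Set (IrrCharacter G) // IsPBlock M B ∧ IsDefectGroup p M B D} := Fintype.ofFinite _
  rw [Nat.card_eq_fintype_card]
  have hne : ∀ b : {B : Set (IrrCharacter G) // IsPBlock M B ∧ IsDefectGroup p M B D}, ∃ χ, χ ∈ b.1 := fun b => IsPBlock.nonempty hP b.2.1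
  choose χ hχ using hne
  have hdelta : ∀ b b' : {B : Set (IrrCharacter G) // IsPBlock M B ∧ IsDefectGroup p M B D},
      (if χ b' ∈ b.1 then (1 : ℂ) else 0) = if b = b' then 1 else 0 := by
    intro b b'
    by_cases hh : b = b'
    · rw [if_pos hh, if_pos (hh ▸ hχ b')]
    · rw [if_neg hh, if_neg]
      intro hmem
      apply hh
      apply Subtype.ext
      rw [blockOf_eq_of_mem hP b.2.1 hmem, blockOf_eq_of_mem hP b'.2.1 (hχ b')]
  -- the inverses form a system of representatives too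
  have hinj' : Function.Injective fun i => ConjClasses.mk (x i)⁻¹ := by
    intro i j h
    apply hinj
    have h1 : IsConj (x i)⁻¹ (x j)⁻¹ := ConjClasses.mk_eq_mk_iff_isConj.1 h
    exact ConjClasses.mk_eq_mk_iff_isConj.2 (isConj_inv_inv.1 h1)
  have hsurj' : ∀ g, PD p D g → ∃ i, ConjClasses.mk (x i)⁻¹ = ConjClasses.mk g := by
    intro g hg
    obtain ⟨i, hi⟩ := hsurj _ hg.inv
    refine ⟨i, ?_⟩
    have h1 : IsConj (x i) g⁻¹ := ConjClasses.mk_eq_mk_iff_isConj.1 hi
    refine ConjClasses.mk_eq_mk_iff_isConj.2 ?_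
    have h2 := isConj_inv_inv.2 h1
    simpa using h2
  have hstar := fun (b : {B : Set (IrrCharacter G) // IsPBlock M B ∧ IsDefectGroup p M B D}) (j : ι) =>
    star_congr hM hDp S b.2.1 b.2.2 (hχ b) (hxP j) (q := q j) (by rw [← hN]; exact hq j)
  simp only [← hN] at hstar
  let L : {B : Set (IrrCharacter G) // IsPBlock M B ∧ IsDefectGroup p M B D} → ℂ := fun b => blockCoeff b.1 1 / (N : ℂ)
  have hLf := fun (b : {B : Set (IrrCharacter G) // IsPBlock M B ∧ IsDefectGroup p M B D}) => L_formula hM S b.2.1 (N : ℂ)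
  have hL : ∀ b, L b ∈ locR hP := by
    intro b
    show blockCoeff b.1 1 / (N : ℂ) ∈ locR hP
    rw [hLf b]
    refine sum_mem fun ψ _ => ?_
    split_ifs with hψ
    · have := tS_div_mem hM S b.2.1 b.2.2 hψ
      rwa [← hN] at this
    · exact zero_mem _
  have hL' : ∀ b, L b ∉ locI hP := by
    intro b hb
    obtain ⟨g₀, hg₀, -, -⟩ := b.2.2
    have h1 := hg₀.2.1
    have hpd := pd_of_blockCoeff hM hDp b.2.1 b.2.2 h1
    obtain ⟨j, hj⟩ := hsurj _ hpd.inv
    have h2 : IsConj (x j) g₀⁻¹ := ConjClasses.mk_eq_mk_iff_isConj.1 hj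
    have h3 : IsConj (x j)⁻¹ g₀ := by
      have := isConj_inv_inv.2 h2
      simpa using this
    obtain ⟨c', hc'⟩ := isConj_iff.1 h3
    have h4 : blockCoeff b.1 g₀ = blockCoeff b.1 (x j)⁻¹ := by
      rw [← hc']
      exact blockCoeff_conj b.1 _ c'
    have h5 := hstar b j
    have h6 : (q j : ℂ) * blockCoeff b.1 (x j)⁻¹ ∈ locI hP := by
      have h7 := (locI hP).add_mem h5 (locI_mul_right hP (centralChar_mem hP (χ b).2 (x j)) hb)
      have e : (q j : ℂ) * blockCoeff b.1 (x j)⁻¹ - blockCoeff b.1 1 / (N : ℂ) * centralChar (χ b : G → ℂ) (x j) +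
          L b * centralChar (χ b : G → ℂ) (x j) = (q j : ℂ) * blockCoeff b.1 (x j)⁻¹ := by
        show _ + blockCoeff b.1 1 / (N : ℂ) * _ = _
        ring
      rwa [e] at h7
    have h8 := locI_mul_left hP (natCast_inv_mem hM (hqp j)) h6
    have h9 : (q j : ℂ)⁻¹ * ((q j : ℂ) * blockCoeff b.1 (x j)⁻¹) = blockCoeff b.1 (x j)⁻¹ :=
      inv_mul_cancel_left₀ (natCast_ne_zero_of_not_dvd hM (hqp j)) _
    rw [h9, ← h4] at h8
    exact h1 h8
  -- now apply linear algebra
  have key := rank_local_factor hM (fun i j => c i j / N)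
    (fun b j => centralChar (χ b : G → ℂ) (x j)) (fun b i => centralChar (χ b : G → ℂ) (x i)⁻¹)
    (fun b j => blockCoeff b.1 (x j)) (fun b i => blockCoeff b.1 (x i)⁻¹) L
    (fun b i => centralChar_mem hP (χ b).2 _) (fun b i => centralChar_mem hP (χ b).2 _)
    (fun b i => sval_fB hM b.2.1 _) (fun b i => sval_fB hM b.2.1 _) hL hL' ?_ ?_ ?_
  · exact key.symm
  · -- the factorization
    intro i j
    rw [hnc, hc]
    have e1 : ∑ b, L b * centralChar (χ b : G → ℂ) (x j) * centralChar (χ b : G → ℂ) (x i)⁻¹ =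
        ∑ ψ : IrrCharacter G, ∑ b : {B : Set (IrrCharacter G) // IsPBlock M B ∧ IsDefectGroup p M B D},
          if ψ ∈ b.1 then (tS (S : Subgroup G) (eChi (ψ : G → ℂ)) / (N : ℂ)) * centralChar (χ b : G → ℂ) (x j) * centralChar (χ b : G → ℂ) (x i)⁻¹ else 0 := by
      rw [Finset.sum_comm]
      refine Finset.sum_congr rfl fun b _ => ?_
      show blockCoeff b.1 1 / (N : ℂ) * _ * _ = _
      rw [hLf b, Finset.sum_mul, Finset.sum_mul]
      refine Finset.sum_congr rfl fun ψ _ => ?_
      split_ifs <;> ring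
    rw [e1, ← Finset.sum_sub_distrib]
    refine sum_mem fun ψ _ => ?_
    by_cases hex : ∃ b : {B : Set (IrrCharacter G) // IsPBlock M B ∧ IsDefectGroup p M B D}, ψ ∈ b.1
    · obtain ⟨b₀, hb₀⟩ := hex
      have hsum : ∑ b : {B : Set (IrrCharacter G) // IsPBlock M B ∧ IsDefectGroup p M B D},
          (if ψ ∈ b.1 then (tS (S : Subgroup G) (eChi (ψ : G → ℂ)) / (N : ℂ)) * centralChar (χ b : G → ℂ) (x j) * centralChar (χ b : G → ℂ) (x i)⁻¹ else 0) =
          (tS (S : Subgroup G) (eChi (ψ : G → ℂ)) / (N : ℂ)) * centralChar (χ b₀ : G → ℂ) (x j) * centralChar (χ b₀ : G → ℂ) (x i)⁻¹ := by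
        rw [Finset.sum_eq_single b₀]
        · rw [if_pos hb₀]
        · intro b _ hne
          rw [if_neg]
          intro hmem
          apply hne
          apply Subtype.ext
          rw [blockOf_eq_of_mem hP b.2.1 hmem, blockOf_eq_of_mem hP b₀.2.1 hb₀]
        · intro h
          exact absurd (Finset.mem_univ _) h
      rw [hsum]
      have hT : tS (S : Subgroup G) (eChi (ψ : G → ℂ)) / (N : ℂ) ∈ locR hP := by
        have := tS_div_mem hM S b₀.2.1 b₀.2.2 hb₀
        rwa [← hN] at this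
      have hbk := blockOf_eq_of_mem hP b₀.2.1 hb₀
      have h3 : χ b₀ ∈ blockOf M (ψ : G → ℂ) := hbk ▸ hχ b₀
      have h4 : centralChar (ψ : G → ℂ) (x j) - centralChar (χ b₀ : G → ℂ) (x j) ∈ locI hP := h3 (x j)
      have h5 : centralChar (ψ : G → ℂ) (x i)⁻¹ - centralChar (χ b₀ : G → ℂ) (x i)⁻¹ ∈ locI hP := h3 (x i)⁻¹
      have e : centralChar (ψ : G → ℂ) (x j) * centralChar (ψ : G → ℂ) (x i)⁻¹ * (tS (S : Subgroup G) (eChi (ψ : G → ℂ)) / (N : ℂ)) -
          tS (S : Subgroup G) (eChi (ψ : G → ℂ)) / (N : ℂ) * centralChar (χ b₀ : G → ℂ) (x j) * centralChar (χ b₀ : G → ℂ) (x i)⁻¹ =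
          (tS (S : Subgroup G) (eChi (ψ : G → ℂ)) / (N : ℂ)) * ((centralChar (ψ : G → ℂ) (x j) - centralChar (χ b₀ : G → ℂ) (x j)) * centralChar (ψ : G → ℂ) (x i)⁻¹ +
            centralChar (χ b₀ : G → ℂ) (x j) * (centralChar (ψ : G → ℂ) (x i)⁻¹ - centralChar (χ b₀ : G → ℂ) (x i)⁻¹)) := by ring
      rw [e]
      refine locI_mul_left hP hT ((locI hP).add_mem ?_ ?_)
      · exact locI_mul_right hP (centralChar_mem hP ψ.2 _) h4
      · exact locI_mul_left hP (centralChar_mem hP (χ b₀).2 _) h5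
    · push Not at hex
      have hsum : ∑ b : {B : Set (IrrCharacter G) // IsPBlock M B ∧ IsDefectGroup p M B D},
          (if ψ ∈ b.1 then (tS (S : Subgroup G) (eChi (ψ : G → ℂ)) / (N : ℂ)) * centralChar (χ b : G → ℂ) (x j) * centralChar (χ b : G → ℂ) (x i)⁻¹ else 0) = 0 :=
        Finset.sum_eq_zero fun b _ => if_neg (hex b)
      rw [hsum, sub_zero]
      have hsm : centralChar (ψ : G → ℂ) (x i)⁻¹ ∈ locI hP := by
        by_contra hcon
        have hb : IsPBlock M (blockOf M (ψ : G → ℂ)) := ⟨ψ, rfl⟩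
        have hmem := self_mem_blockOf hP ψ
        exact hex ⟨_, hb, isDefectGroup_of_centralChar hM hDp hb hmem (hxP i).inv hcon⟩ hmem
      have e : centralChar (ψ : G → ℂ) (x j) * centralChar (ψ : G → ℂ) (x i)⁻¹ * (tS (S : Subgroup G) (eChi (ψ : G → ℂ)) / (N : ℂ)) =
          (centralChar (ψ : G → ℂ) (x j) * (tS (S : Subgroup G) (eChi (ψ : G → ℂ)) / (N : ℂ))) * centralChar (ψ : G → ℂ) (x i)⁻¹ := by ring
      rw [e]
      exact locI_mul_left hP (hterm ψ j) hsm
  · intro b b'
    have := sum_reps hM hDp b.2.1 b.2.2 x hinj hsurj (χ b')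
    rwa [hdelta] at this
  · intro b b'
    have := sum_reps hM hDp b.2.1 b.2.2 (fun i => (x i)⁻¹) hinj' hsurj' (χ b')
    rwa [hdelta] at this

end Assembly

end CfsgLib.Block
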