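import Cfsg.Agent.Lib.Block.CountDefect

/-! # Ranks over residue fields, after a factorization modulo the local ideal -/

set_option autoImplicit false
set_option linter.unusedSectionVars false
set_option linter.unusedVariables false

namespace CfsgLib.Block

open Cfsg

universe u

theorem rank_normal_form_block {k : Type*} [Field k] {m : Type*} [Fintype m] [DecidableEq m] {r c : ℕ}
    (e : m ≃ Fin r ⊕ Fin c) :
    ((Matrix.fromBlocks (1 : Matrix (Fin r) (Fin r) k) 0 0 0).submatrix e e).rank = r := by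
  classical
  rw [Matrix.rank_submatrix]
  have h : (Matrix.fromBlocks (1 : Matrix (Fin r) (Fin r) k) 0 0 0) =
      Matrix.diagonal (Sum.elim (fun _ : Fin r => (1 : k)) (fun _ : Fin c => (0 : k))) := by
    rw [← Matrix.diagonal_one, ← Matrix.fromBlocks_diagonal (d₁ := fun _ : Fin r => (1 : k)) (d₂ := fun _ : Fin c => (0 : k))]
    simp
  rw [h, Matrix.rank_diagonal]
  have : Fintype.card {i : Fin r ⊕ Fin c // Sum.elim (fun _ : Fin r => (1 : k)) (fun _ : Fin c => (0 : k)) i ≠ 0} =
      Fintype.card (Fin r) := by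
    apply Fintype.card_congr
    refine ⟨fun x => ?_, fun i => ⟨Sum.inl i, by simp⟩, ?_, ?_⟩
    · rcases x with ⟨x | x, hx⟩
      · exact x
      · exact absurd (by simp) hx
    · rintro ⟨x | x, hx⟩
      · rfl
      · exact absurd (by simp) hx
    · intro i
      rfl
  rw [this, Fintype.card_fin]

/-- The rank of a square matrix does not change under a field extension. -/
theorem rank_map_field {F k : Type*} [Field F] [Field k] (f : F →+* k) {m : Type*} [Fintype m] [DecidableEq m]
    (A : Matrix m m F) : (A.map f).rank = A.rank := by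
  classical
  obtain ⟨V, U, e, hV, hU, h⟩ := Matrix.exists_rank_normal_form A
  have hV' : IsUnit (V.map f) := hV.map f.mapMatrix
  have hU' : IsUnit (U.map f) := hU.map f.mapMatrix
  have h2 : V.map f * A.map f * U.map f =
      (Matrix.fromBlocks (1 : Matrix (Fin A.rank) (Fin A.rank) k) 0 0 0).submatrix e e := by
    have h3 := congrArg (fun X : Matrix m m F => X.map f) h
    simp only [Matrix.map_mul] at h3
    rw [h3]
    ext i j
    simp only [Matrix.map_apply, Matrix.submatrix_apply]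
    rcases e i with a | a <;> rcases e j with b | b <;>
      simp [Matrix.fromBlocks_apply₁₁, Matrix.fromBlocks_apply₁₂, Matrix.fromBlocks_apply₂₁, Matrix.fromBlocks_apply₂₂, Matrix.one_apply, apply_ite f]
  have h3 := rank_normal_form_block (k := k) e
  rw [← h2, Matrix.rank_mul_eq_left_of_isUnit_det _ _ ((Matrix.isUnit_iff_isUnit_det _).1 hU'),
    Matrix.rank_mul_eq_right_of_isUnit_det _ _ ((Matrix.isUnit_iff_isUnit_det _).1 hV')] at h3
  exact h3

section

variable {M : Ideal AlgInt} (hP : M.IsPrime)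

theorem locIdeal_isMaximal : (locIdeal hP).IsMaximal := by
  rw [Ideal.isMaximal_iff]
  refine ⟨fun h => one_notMem_locI hP ((mem_locIdeal hP).1 h), ?_⟩
  intro J x hI hx hxJ
  have hx' : (x : ℂ) ∉ locI hP := fun h => hx ((mem_locIdeal hP).2 h)
  have h1 := J.mul_mem_left (⟨(x : ℂ)⁻¹, inv_mem_locR hP x.2 hx'⟩ : locR hP) hxJ
  have h2 : (⟨(x : ℂ)⁻¹, inv_mem_locR hP x.2 hx'⟩ : locR hP) * x = 1 := by
    apply Subtype.ext
    push_cast
    exact inv_mul_cancel₀ (ne_zero_of_notMem_locI hP hx')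
  rwa [h2] at h1

end

/-- Linear algebra over the residue field. -/
theorem rank_local_factor {ι β : Type*} [Fintype ι] [DecidableEq ι] [Fintype β] [DecidableEq β] {p : ℕ}
    [hp : Fact p.Prime] {M : Ideal AlgInt} (hM : IsPModular p M)
    (n : ι → ι → ℕ) (Y Y' W W' : β → ι → ℂ) (L : β → ℂ)
    (hY : ∀ b i, Y b i ∈ locR hM.isPrime) (hY' : ∀ b i, Y' b i ∈ locR hM.isPrime)
    (hW : ∀ b i, W b i ∈ locR hM.isPrime) (hW' : ∀ b i, W' b i ∈ locR hM.isPrime)
    (hL : ∀ b, L b ∈ locR hM.isPrime) (hL' : ∀ b, L b ∉ locI hM.isPrime)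
    (hfact : ∀ i j, (n i j : ℂ) - ∑ b, L b * Y b j * Y' b i ∈ locI hM.isPrime)
    (hWY : ∀ b b', ∑ j, W b j * Y b' j - (if b = b' then 1 else 0) ∈ locI hM.isPrime)
    (hWY' : ∀ b b', ∑ i, W' b i * Y' b' i - (if b = b' then 1 else 0) ∈ locI hM.isPrime) :
    (Matrix.of fun i j => ((n i j : ℕ) : ZMod p)).rank = Fintype.card β := by
  classical
  have hPr := hM.isPrime
  letI hmax : (locIdeal hPr).IsMaximal := locIdeal_isMaximal hPr
  letI : Field (locR hPr ⧸ locIdeal hPr) := Ideal.Quotient.field _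
  let π : locR hPr →+* (locR hPr ⧸ locIdeal hPr) := Ideal.Quotient.mk _
  have hπ : ∀ x : locR hPr, π x = 0 ↔ (x : ℂ) ∈ locI hPr := fun x =>
    (Ideal.Quotient.eq_zero_iff_mem (I := locIdeal hPr)).trans (mem_locIdeal hPr)
  have hp0 : ((p : ℕ) : locR hPr ⧸ locIdeal hPr) = 0 := by
    have : π (p : locR hPr) = 0 := by
      rw [hπ]
      push_cast
      exact p_mem_locI hM
    simpa using this
  haveI : CharP (locR hPr ⧸ locIdeal hPr) p := by
    have h := CharP.ringChar_of_prime_eq_zero hp.out hp0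
    rw [← h]
    exact ringChar.charP _
  let f : ZMod p →+* (locR hPr ⧸ locIdeal hPr) := ZMod.castHom (dvd_refl p) _
  let Y₀ : Matrix β ι (locR hPr) := Matrix.of fun b i => ⟨Y b i, hY b i⟩
  let Y₀' : Matrix ι β (locR hPr) := Matrix.of fun i b => ⟨Y' b i, hY' b i⟩
  let W₀ : Matrix ι β (locR hPr) := Matrix.of fun i b => ⟨W b i, hW b i⟩
  let W₀' : Matrix β ι (locR hPr) := Matrix.of fun b i => ⟨W' b i, hW' b i⟩
  let L₀ : β → locR hPr := fun b => ⟨L b, hL b⟩
  have hA : (Matrix.of fun i j => ((n i j : ℕ) : ZMod p)).map f =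
      (Y₀'.map π) * (Matrix.diagonal (fun b => π (L₀ b)) * (Y₀.map π)) := by
    ext i j
    have h1 : π (((n i j : ℕ) : locR hPr)) = π (∑ b, L₀ b * Y₀ b j * Y₀' i b) := by
      rw [← sub_eq_zero, ← map_sub, hπ]
      have := hfact i j
      push_cast
      exact this
    rw [Matrix.map_apply, Matrix.of_apply, map_natCast, ← map_natCast π, h1, map_sum, Matrix.mul_apply]
    refine Finset.sum_congr rfl fun b _ => ?_
    rw [Matrix.diagonal_mul, Matrix.map_apply, Matrix.map_apply, map_mul, map_mul]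
    ring
  have hπ1 : ∀ b b' : β, π (if b = b' then (1 : locR hPr) else 0) = if b = b' then 1 else 0 := by
    intro b b'
    split_ifs <;> simp
  have hZU : (Y₀.map π) * (W₀.map π) = 1 := by
    ext b b'
    rw [Matrix.mul_apply, Matrix.one_apply]
    have h1 : π (∑ j, W₀ j b' * Y₀ b j) = π (if b' = b then (1 : locR hPr) else 0) := by
      rw [← sub_eq_zero, ← map_sub, hπ]
      have := hWY b' b
      split_ifs at this ⊢ <;> simpa [Y₀, W₀] using this
    rw [map_sum, hπ1] at h1
    have h2 : ∀ j, (Y₀.map π) b j * (W₀.map π) j b' = π (W₀ j b' * Y₀ b j) := by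
      intro j
      rw [map_mul, Matrix.map_apply, Matrix.map_apply, mul_comm]
    simp only [h2]
    rw [h1]
    by_cases h : b = b'
    · simp [h]
    · simp [h, Ne.symm h]
  have hVX : (W₀'.map π) * (Y₀'.map π) = 1 := by
    ext b b'
    rw [Matrix.mul_apply, Matrix.one_apply]
    have h1 : π (∑ i, W₀' b i * Y₀' i b') = π (if b = b' then (1 : locR hPr) else 0) := by
      rw [← sub_eq_zero, ← map_sub, hπ]
      have := hWY' b b'
      split_ifs at this ⊢ <;> simpa [Y₀', W₀'] using this
    rw [map_sum, hπ1] at h1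
    have h2 : ∀ i, (W₀'.map π) b i * (Y₀'.map π) i b' = π (W₀' b i * Y₀' i b') := by
      intro i
      rw [map_mul, Matrix.map_apply, Matrix.map_apply]
    simp only [h2]
    rw [h1]
  have hLu : IsUnit (Matrix.diagonal (fun b => π (L₀ b))) := by
    rw [Matrix.isUnit_iff_isUnit_det, Matrix.det_diagonal, isUnit_iff_ne_zero, Finset.prod_ne_zero_iff]
    intro b _ h0
    exact hL' b ((hπ _).1 h0)
  have hLr := Matrix.rank_of_isUnit _ hLu
  rw [← rank_map_field f, hA]
  apply le_antisymm
  · exact (Matrix.rank_mul_le_left _ _).trans (by simpa using Matrix.rank_le_card_width (Y₀'.map π))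
  · have h1 : (W₀'.map π) * ((Y₀'.map π) * (Matrix.diagonal (fun b => π (L₀ b)) * (Y₀.map π))) * (W₀.map π) =
        Matrix.diagonal (fun b => π (L₀ b)) := by
      calc (W₀'.map π) * ((Y₀'.map π) * (Matrix.diagonal (fun b => π (L₀ b)) * (Y₀.map π))) * (W₀.map π)
          = ((W₀'.map π) * (Y₀'.map π)) * Matrix.diagonal (fun b => π (L₀ b)) * ((Y₀.map π) * (W₀.map π)) := by
            simp only [Matrix.mul_assoc]
        _ = Matrix.diagonal (fun b => π (L₀ b)) := by rw [hVX, hZU, Matrix.one_mul, Matrix.mul_one]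
    have h2 := Matrix.rank_mul_le_left ((W₀'.map π) * ((Y₀'.map π) * (Matrix.diagonal (fun b => π (L₀ b)) * (Y₀.map π)))) (W₀.map π)
    have h3 := Matrix.rank_mul_le_right (W₀'.map π) ((Y₀'.map π) * (Matrix.diagonal (fun b => π (L₀ b)) * (Y₀.map π)))
    rw [h1, hLr] at h2
    exact h2.trans h3

end CfsgLib.Block
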