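import Cfsg.Agent.Lib.Block.RobD

/-! # Separated classes of a common defect group give blocks -/

set_option autoImplicit false
set_option linter.unusedSectionVars false
set_option linter.unusedVariables false

namespace CfsgLib.Block

open Cfsg CfsgLib.Char
open scoped ComplexConjugate

universe u

/-- Selecting a nonsingular minor, over the residue field. -/
theorem exists_nonsing_rows {r : ℕ} {β : Type*} [Fintype β] [DecidableEq β] {p : ℕ} [hp : Fact p.Prime] {M : Ideal AlgInt}
    (hM : IsPModular p M) (q : Fin r → ℕ) (hq : ∀ j, ¬ p ∣ q j) (Y Y' : β → Fin r → ℂ) (L : β → ℂ)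
    (hY : ∀ b i, Y b i ∈ locR hM.isPrime) (hY' : ∀ b i, Y' b i ∈ locR hM.isPrime) (hL : ∀ b, L b ∈ locR hM.isPrime)
    (hfact : ∀ i j, (if i = j then (q j : ℂ) else 0) - ∑ b, L b * Y b j * Y' b i ∈ locI hM.isPrime) :
    ∃ f : Fin r → β, Function.Injective f ∧
      ∀ A : Matrix (Fin r) (Fin r) ℂ, (∀ i j, A i j ∈ locR hM.isPrime) → (∀ i j, A i j - Y (f i) j ∈ locI hM.isPrime) →
        A.det ∉ locI hM.isPrime := by
  classical
  have hPr := hM.isPrime
  letI hmax : (locIdeal hPr).IsMaximal := locIdeal_isMaximal hPr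
  letI : Field (locR hPr ⧸ locIdeal hPr) := Ideal.Quotient.field _
  let π : locR hPr →+* (locR hPr ⧸ locIdeal hPr) := Ideal.Quotient.mk _
  have hπ : ∀ x : locR hPr, π x = 0 ↔ (x : ℂ) ∈ locI hPr := fun x =>
    (Ideal.Quotient.eq_zero_iff_mem (I := locIdeal hPr)).trans (mem_locIdeal hPr)
  let k := locR hPr ⧸ locIdeal hPr
  let A₀ : Matrix β (Fin r) (locR hPr) := Matrix.of fun b j => ⟨Y b j, hY b j⟩
  let C₀ : Matrix (Fin r) β (locR hPr) := Matrix.of fun i b => ⟨Y' b i * L b, mul_mem (hY' b i) (hL b)⟩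
  have hq' : ∀ j, π ((q j : ℕ) : locR hPr) ≠ 0 := by
    intro j h0
    rw [hπ] at h0
    push_cast at h0
    exact hq j ((natCast_mem_locI_iff hM _).1 h0)
  have hCA : (C₀.map π) * (A₀.map π) = Matrix.diagonal (fun j => π ((q j : ℕ) : locR hPr)) := by
    ext i j
    rw [Matrix.mul_apply]
    have h1 : π (if i = j then ((q j : ℕ) : locR hPr) else 0) = π (∑ b, C₀ i b * A₀ b j) := by
      rw [← sub_eq_zero, ← map_sub, hπ]
      have h2 := hfact i j
      have e : ((((if i = j then ((q j : ℕ) : locR hPr) else 0) - ∑ b, C₀ i b * A₀ b j : locR hPr)) : ℂ) =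
          (if i = j then (q j : ℂ) else 0) - ∑ b, L b * Y b j * Y' b i := by
        push_cast
        congr 1
        · split_ifs <;> simp
        · refine Finset.sum_congr rfl fun b _ => ?_
          show Y' b i * L b * Y b j = _
          ring
      rw [e]
      exact h2
    rw [map_sum] at h1
    have h3 : ∀ b, (C₀.map π) i b * (A₀.map π) b j = π (C₀ i b * A₀ b j) := by
      intro b
      rw [map_mul, Matrix.map_apply, Matrix.map_apply]
    simp only [h3]
    rw [← h1, Matrix.diagonal_apply]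
    split_ifs with hij
    · rw [hij]
    · simp
  -- the rows span
  have hunit : ∀ j, π ((q j : ℕ) : locR hPr) ≠ 0 := hq'
  have hspan : Submodule.span k (Set.range fun b : β => (A₀.map π) b) = ⊤ := by
    rw [eq_top_iff]
    rintro v -
    have h1 : v = ∑ b, ((Matrix.vecMul (fun j => v j * (π ((q j : ℕ) : locR hPr))⁻¹) (C₀.map π)) b) • (A₀.map π) b := by
      funext j
      rw [Finset.sum_apply]
      simp only [Pi.smul_apply, smul_eq_mul, Matrix.vecMul, dotProduct]
      have h2 : ∑ b, (∑ i, v i * (π ((q i : ℕ) : locR hPr))⁻¹ * (C₀.map π) i b) * (A₀.map π) b j =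
          ∑ i, v i * (π ((q i : ℕ) : locR hPr))⁻¹ * ((C₀.map π) * (A₀.map π)) i j := by
        simp only [Matrix.mul_apply, Finset.sum_mul, Finset.mul_sum]
        rw [Finset.sum_comm]
        refine Finset.sum_congr rfl fun i _ => Finset.sum_congr rfl fun b _ => ?_
        ring
      rw [h2, hCA, Finset.sum_eq_single j]
      · rw [Matrix.diagonal_apply_eq, inv_mul_cancel_right₀ (hunit j)]
      · intro i _ hij
        rw [Matrix.diagonal_apply_ne _ hij, mul_zero]
      · intro h
        exact absurd (Finset.mem_univ _) h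
    rw [h1]
    exact Submodule.sum_mem _ fun b _ => Submodule.smul_mem _ _ (Submodule.subset_span ⟨b, rfl⟩)
  obtain ⟨B₀, hB₀S, hB₀span, hli⟩ := exists_linearIndependent k (Set.range fun b : β => (A₀.map π) b)
  let bas := Module.Basis.mk hli (by
    rw [Subtype.range_coe, hB₀span, hspan])
  have hcardB : Fintype.card (Fin r) = Module.finrank k (Fin r → k) := by simp
  haveI : Fintype B₀ := FiniteDimensional.fintypeBasisIndex bas
  have hc : Fintype.card B₀ = Fintype.card (Fin r) := by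
    rw [hcardB]
    exact (Module.finrank_eq_card_basis bas).symm
  let e : Fin r ≃ B₀ := (Fintype.equivOfCardEq hc).symm
  have hch : ∀ i : Fin r, ∃ b : β, (A₀.map π) b = (e i).1 := fun i => hB₀S (e i).2
  choose f hf using hch
  have hli2 : LinearIndependent k (fun i : Fin r => (A₀.map π) (f i)) := by
    have h1 := hli.comp e e.injective
    have e' : (fun i : Fin r => (A₀.map π) (f i)) = Subtype.val ∘ e := by
      funext i
      simp [hf]
    rw [e']
    exact h1
  have hfinj : Function.Injective f := by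
    intro i j h
    apply hli2.injective
    show (A₀.map π) (f i) = (A₀.map π) (f j)
    rw [h]
  refine ⟨f, hfinj, fun A hA hAY h0 => ?_⟩
  let Mx : Matrix (Fin r) (Fin r) k := Matrix.of fun i j => (A₀.map π) (f i) j
  have hMu : IsUnit Mx := by
    apply Matrix.linearIndependent_rows_iff_isUnit.1
    exact hli2
  let A' : Matrix (Fin r) (Fin r) (locR hPr) := Matrix.of fun i j => ⟨A i j, hA i j⟩
  have h1 : A'.map π = Mx := by
    ext i j
    show π (⟨A i j, hA i j⟩ : locR hPr) = π (⟨Y (f i) j, hY _ _⟩ : locR hPr)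
    rw [← sub_eq_zero, ← map_sub, hπ]
    exact hAY i j
  have h2 : π A'.det = Mx.det := by
    rw [← h1]
    exact RingHom.map_det π A'
  have h3 : ((A'.det : locR hPr) : ℂ) = A.det := by
    have := RingHom.map_det (locR hPr).subtype A'
    exact this.symm ▸ by congr 1
  have h4 : π A'.det = 0 := by
    rw [hπ, h3]
    exact h0
  rw [h4] at h2
  have h5 := (Matrix.isUnit_iff_isUnit_det _).1 hMu
  rw [← h2] at h5
  exact not_isUnit_zero h5

section Sep

variable {G : Type u} [Group G] [Fintype G] {p : ℕ} [hp : Fact p.Prime] {M : Ideal AlgInt} (hM : IsPModular p M) {D : Subgroup G}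
include hM

omit hM in
theorem sep_index {x : G} (S₀ : Sylow p (Subgroup.centralizer ({x} : Set G)))
    (hS₀ : (S₀ : Subgroup (Subgroup.centralizer ({x} : Set G))).map (Subgroup.centralizer ({x} : Set G)).subtype = D) :
    ∃ q : ℕ, ¬ p ∣ q ∧ (Subgroup.centralizer ({x} : Set G)).index =
      p ^ ((Nat.card G).factorization p - (Nat.card D).factorization p) * q := by
  have h1 : Nat.card D = Nat.card S₀ := by
    rw [← hS₀]
    exact Subgroup.card_map_of_injective (Subgroup.subtype_injective _)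
  rw [Sylow.card_eq_multiplicity] at h1
  have h2 : (Nat.card D).factorization p = (Nat.card (Subgroup.centralizer ({x} : Set G))).factorization p := by
    rw [h1, Nat.factorization_pow]
    simp [hp.out.factorization_self]
  have h3 := card_centralizer_factorization (p := p) x
  have hne : (Subgroup.centralizer ({x} : Set G)).index ≠ 0 := Subgroup.index_ne_zero_of_finite
  refine ⟨_, Nat.not_dvd_ordCompl hp.out hne, ?_⟩
  have h4 : (Nat.card G).factorization p - (Nat.card D).factorization p = (Subgroup.centralizer ({x} : Set G)).index.factorization p := by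
    omega
  rw [h4]
  exact (Nat.ordProj_mul_ordCompl_eq_self _ p).symm

theorem defect_case (hDp : IsPGroup p D) {B : Set (IrrCharacter G)} (hB : IsPBlock M B) {χ : IrrCharacter G} (hχ : χ ∈ B)
    {x : G} (S₀ : Sylow p (Subgroup.centralizer ({x} : Set G)))
    (hS₀ : (S₀ : Subgroup (Subgroup.centralizer ({x} : Set G))).map (Subgroup.centralizer ({x} : Set G)).subtype = D)
    (hh : centralChar (χ : G → ℂ) x ∉ locI hM.isPrime) :
    IsDefectGroup p M B D ∨
      p ^ ((Nat.card G).factorization p - (Nat.card D).factorization p + 1) ∣ charDegree (χ : G → ℂ) := by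
  classical
  obtain ⟨g₀, hg₀⟩ := exists_defectClass hM hB
  let D₀ : Sylow p (Subgroup.centralizer ({g₀} : Set G)) := default
  have hDB : IsDefectGroup p M B ((D₀ : Subgroup _).map (Subgroup.centralizer ({g₀} : Set G)).subtype) := ⟨g₀, hg₀, D₀, rfl⟩
  have hcard := card_defectGroup hM hB hDB
  obtain ⟨z, hz⟩ := minmax_b hM hB hg₀ D₀ hχ hh
  set E₀ := (D₀ : Subgroup _).map (Subgroup.centralizer ({g₀} : Set G)).subtype with hE₀
  have hE₀p : IsPGroup p E₀ := isPGroup_map_sylow _ D₀
  have hRp : IsPGroup p (E₀.map (MulAut.conj z).toMonoidHom) := hE₀p.map _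
  have hRL : E₀.map (MulAut.conj z).toMonoidHom ≤ Subgroup.centralizer ({x} : Set G) := by
    rintro _ ⟨c, hc, rfl⟩
    exact hz c hc
  obtain ⟨c, -, hc⟩ := exists_conj_le_sylow _ S₀ hRL hRp
  rw [hS₀] at hc
  have hEle : E₀.map (MulAut.conj (c⁻¹ * z)).toMonoidHom ≤ D := by
    rintro _ ⟨e, he, rfl⟩
    have := hc _ ⟨e, he, rfl⟩
    simpa [MulAut.conj_apply, mul_assoc] using this
  have hcE : Nat.card (E₀.map (MulAut.conj (c⁻¹ * z)).toMonoidHom) = p ^ blockDefect p B := by
    rw [Subgroup.card_map_of_injective (MulAut.conj (c⁻¹ * z)).injective, hcard]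
  obtain ⟨k, hk⟩ := IsPGroup.iff_card.1 hDp
  have hδ : (Nat.card D).factorization p = k := by
    rw [hk, Nat.factorization_pow]
    simp [hp.out.factorization_self]
  have hle : blockDefect p B ≤ k := by
    have h1 := Subgroup.card_le_of_le hEle
    rw [hcE, hk] at h1
    exact (Nat.pow_le_pow_iff_right hp.out.one_lt).1 h1
  by_cases hEq : blockDefect p B = k
  · left
    have hED : E₀.map (MulAut.conj (c⁻¹ * z)).toMonoidHom = D :=
      Subgroup.eq_of_le_of_card_ge hEle (by rw [hcE, hk, hEq])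
    set t := c⁻¹ * z with ht
    have hg₁ := isDefectClass_conj hg₀ t
    have hDC : D ≤ Subgroup.centralizer ({t * g₀ * t⁻¹} : Set G) := by
      rw [← hED]
      rintro _ ⟨e, he, rfl⟩
      have h1 := map_sylow_le _ D₀ he
      rw [Subgroup.mem_centralizer_singleton_iff] at h1 ⊢
      simp only [MulEquiv.coe_toMonoidHom, MulAut.conj_apply]
      calc t * e * t⁻¹ * (t * g₀ * t⁻¹) = t * (e * g₀) * t⁻¹ := by group
        _ = t * (g₀ * e) * t⁻¹ := by rw [h1]
        _ = t * g₀ * t⁻¹ * (t * e * t⁻¹) := by group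
    have h1 : IsPGroup p (D.subgroupOf (Subgroup.centralizer ({t * g₀ * t⁻¹} : Set G))) := hDp.comap_subtype
    obtain ⟨S, hS⟩ := h1.exists_le_sylow
    have h2 : D ≤ (S : Subgroup _).map (Subgroup.centralizer ({t * g₀ * t⁻¹} : Set G)).subtype := by
      intro d hd
      exact Subgroup.mem_map.2 ⟨⟨d, hDC hd⟩, hS (Subgroup.mem_subgroupOf.2 hd), rfl⟩
    have h3 : Nat.card ((S : Subgroup _).map (Subgroup.centralizer ({t * g₀ * t⁻¹} : Set G)).subtype) ≤ Nat.card D := by
      have hp3 : IsPGroup p (((S : Subgroup _).map (Subgroup.centralizer ({t * g₀ * t⁻¹} : Set G)).subtype).map (MulAut.conj t⁻¹).toMonoidHom) :=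
        (isPGroup_map_sylow _ S).map _
      have hL3 : ((S : Subgroup _).map (Subgroup.centralizer ({t * g₀ * t⁻¹} : Set G)).subtype).map (MulAut.conj t⁻¹).toMonoidHom ≤
          Subgroup.centralizer ({g₀} : Set G) := by
        rintro _ ⟨e, he, rfl⟩
        have h4 := map_sylow_le _ S he
        rw [Subgroup.mem_centralizer_singleton_iff] at h4 ⊢
        simp only [MulEquiv.coe_toMonoidHom, MulAut.conj_apply, inv_inv]
        calc t⁻¹ * e * t * g₀ = t⁻¹ * (e * (t * g₀ * t⁻¹)) * t := by group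
          _ = t⁻¹ * ((t * g₀ * t⁻¹) * e) * t := by rw [h4]
          _ = g₀ * (t⁻¹ * e * t) := by group
      obtain ⟨c', -, hc'⟩ := exists_conj_le_sylow _ D₀ hL3 hp3
      have h5 : (((S : Subgroup _).map (Subgroup.centralizer ({t * g₀ * t⁻¹} : Set G)).subtype).map (MulAut.conj t⁻¹).toMonoidHom).map (MulAut.conj c'⁻¹).toMonoidHom ≤ E₀ := by
        rintro _ ⟨e, he, rfl⟩
        show c'⁻¹ * e * c'⁻¹⁻¹ ∈ E₀
        rw [inv_inv]
        exact hc' e he
      have h6 := Subgroup.card_le_of_le h5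
      rw [Subgroup.card_map_of_injective (MulAut.conj c'⁻¹).injective, Subgroup.card_map_of_injective (MulAut.conj t⁻¹).injective, hcard, hEq, ← hk] at h6
      exact h6
    exact ⟨t * g₀ * t⁻¹, hg₁, S, Subgroup.eq_of_le_of_card_ge h2 h3⟩
  · right
    have h3 : blockDefect p B = (Nat.card G).factorization p - minNu p B := rfl
    have hka : k ≤ (Nat.card G).factorization p := by
      have h4 := Subgroup.card_subgroup_dvd_card D
      rw [hk] at h4
      exact (hp.out.pow_dvd_iff_le_factorization Nat.card_pos.ne').1 h4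
    rw [hδ]
    refine dvd_trans (pow_dvd_pow p ?_) (pow_minNu_dvd hχ)
    omega

theorem defect_case_inv (hDp : IsPGroup p D) {B : Set (IrrCharacter G)} (hB : IsPBlock M B) {χ : IrrCharacter G} (hχ : χ ∈ B)
    {x : G} (hx : ∃ S₀ : Sylow p (Subgroup.centralizer ({x} : Set G)),
      (S₀ : Subgroup (Subgroup.centralizer ({x} : Set G))).map (Subgroup.centralizer ({x} : Set G)).subtype = D)
    (hh : centralChar (χ : G → ℂ) x⁻¹ ∉ locI hM.isPrime) :
    IsDefectGroup p M B D ∨
      p ^ ((Nat.card G).factorization p - (Nat.card D).factorization p + 1) ∣ charDegree (χ : G → ℂ) := by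
  have h1 : ∀ {L L' : Subgroup G}, L = L' → (∃ S₀ : Sylow p L, (S₀ : Subgroup L).map L.subtype = D) →
      ∃ S₀ : Sylow p L', (S₀ : Subgroup L').map L'.subtype = D := by
    rintro L L' rfl h
    exact h
  obtain ⟨S₁, hS₁⟩ := h1 (centralizer_inv_singleton x).symm hx
  exact defect_case hM hDp hB hχ S₁ hS₁ hh

/-- High degree characters contribute nothing mod `M`. -/
theorem tS_div_mem_locI (S : Sylow p G) {A : ℕ} {χ : IrrCharacter G} (hχ : p ^ (A + 1) ∣ charDegree (χ : G → ℂ)) :
    tS (S : Subgroup G) (eChi (χ : G → ℂ)) / ((p ^ A : ℕ) : ℂ) ∈ locI hM.isPrime := by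
  have hP := hM.isPrime
  obtain ⟨n, hn⟩ := exists_tS_eChi (S : Subgroup G) χ.2
  have hm : ¬ p ∣ (S : Subgroup G).index := S.not_dvd_index
  have hm0 : ((S : Subgroup G).index : ℂ) ≠ 0 := natCast_ne_zero_of_not_dvd hM hm
  obtain ⟨d, hd⟩ := hχ
  have h1 : (χ : G → ℂ) 1 = ((p ^ A : ℕ) : ℂ) * (p : ℂ) * (d : ℂ) := by
    rw [← coe_charDegree χ.2.isCharacter, hd]
    push_cast
    ring
  have hN0 : ((p ^ A : ℕ) : ℂ) ≠ 0 := by
    exact_mod_cast (pow_pos hp.out.pos _).ne'
  have e : tS (S : Subgroup G) (eChi (χ : G → ℂ)) / ((p ^ A : ℕ) : ℂ) =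
      (p : ℂ) * ((d : ℂ) * (n : ℂ) * ((S : Subgroup G).index : ℂ)⁻¹) := by
    rw [hn, h1]
    field_simp
  rw [e]
  exact locI_mul_right hP (mul_mem (mul_mem (natCast_mem _ d) (natCast_mem _ n)) (natCast_inv_mem hM hm)) (p_mem_locI hM)

omit hM in
open Classical in
theorem card_class_sep (g : G) :
    ((Finset.univ.filter (fun u => IsConj g u)).card : ℂ) = ((Subgroup.centralizer ({g} : Set G)).index : ℂ) := by
  classical
  have h := hat_cSum (χ := fun _ : G => (1 : ℂ)) (fun _ _ => rfl) g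
  rw [mul_one] at h
  rw [← h, hat, Finset.card_filter]
  push_cast
  refine Finset.sum_congr rfl fun u _ => ?_
  rw [coeff_cSum, mul_one]
  by_cases hc : IsConj g u
  · rw [if_pos hc, if_pos hc.symm]
  · rw [if_neg hc, if_neg (fun h' => hc h'.symm)]

omit hM in
theorem pairs_count (S : Sylow p G) {r : ℕ} (x : Fin r → G) (hx : ∀ i j : Fin r, IsConj (x i) (x j) → i = j)
    (hsep : ∀ i j : Fin r, ∀ g h : G, IsConj (x i) g → IsConj (x j) h → ∀ k : ℕ, 0 < k → orderOf (g * h⁻¹) ≠ p ^ k) (i j : Fin r) :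
    (Nat.card {yz : G × G // yz.1 ∈ (ConjClasses.mk (x i)).carrier ∧ yz.2 ∈ (ConjClasses.mk (x j)).carrier ∧ yz.2 * yz.1⁻¹ ∈ (S : Subgroup G)} : ℂ) =
      if i = j then ((Subgroup.centralizer ({x j} : Set G)).index : ℂ) else 0 := by
  classical
  have hmem : ∀ a b : G, a ∈ (ConjClasses.mk b).carrier ↔ IsConj b a := by
    intro a b
    rw [ConjClasses.mem_carrier_iff_mk_eq, ConjClasses.mk_eq_mk_iff_isConj]
    exact ⟨fun h => h.symm, fun h => h.symm⟩
  have hkey : ∀ y z : G, IsConj (x i) y → IsConj (x j) z → z * y⁻¹ ∈ (S : Subgroup G) → z = y := by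
    intro y z hy hz hs
    obtain ⟨k, hk⟩ := IsPGroup.iff_orderOf.1 S.isPGroup' ⟨_, hs⟩
    rw [Subgroup.orderOf_mk] at hk
    rcases Nat.eq_zero_or_pos k with rfl | hk0
    · rw [pow_zero, orderOf_eq_one_iff] at hk
      exact mul_inv_eq_one.1 hk
    · exact absurd hk (hsep j i z y hz hy k hk0)
  split_ifs with hij
  · subst hij
    rw [← card_class_sep]
    have e : {yz : G × G // yz.1 ∈ (ConjClasses.mk (x i)).carrier ∧ yz.2 ∈ (ConjClasses.mk (x i)).carrier ∧ yz.2 * yz.1⁻¹ ∈ (S : Subgroup G)} ≃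
        {u : G // IsConj (x i) u} :=
      { toFun := fun yz => ⟨yz.1.1, (hmem _ _).1 yz.2.1⟩
        invFun := fun u => ⟨(u.1, u.1), (hmem _ _).2 u.2, (hmem _ _).2 u.2, by simp [(S : Subgroup G).one_mem]⟩
        left_inv := by
          rintro ⟨⟨y, z⟩, h1, h2, h3⟩
          have := hkey y z ((hmem _ _).1 h1) ((hmem _ _).1 h2) h3
          subst this
          rfl
        right_inv := by
          rintro ⟨u, hu⟩
          rfl }
    rw [Nat.card_congr e, Nat.card_eq_fintype_card, Fintype.card_subtype]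
  · have : IsEmpty {yz : G × G // yz.1 ∈ (ConjClasses.mk (x i)).carrier ∧ yz.2 ∈ (ConjClasses.mk (x j)).carrier ∧ yz.2 * yz.1⁻¹ ∈ (S : Subgroup G)} := by
      refine ⟨?_⟩
      rintro ⟨⟨y, z⟩, h1, h2, h3⟩
      have h4 := hkey y z ((hmem _ _).1 h1) ((hmem _ _).1 h2) h3
      subst h4
      exact hij (hx i j (((hmem _ _).1 h1).trans ((hmem _ _).1 h2).symm))
    rw [Nat.card_of_isEmpty]
    simp

theorem s4741_aux {r : ℕ} (x : Fin r → G) (hx : ∀ i j : Fin r, IsConj (x i) (x j) → i = j)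
    (hD : ∀ i : Fin r, ∃ S : Sylow p ↥(Subgroup.centralizer ({x i} : Set G)),
      (S : Subgroup ↥(Subgroup.centralizer ({x i} : Set G))).map (Subgroup.centralizer ({x i} : Set G)).subtype = D)
    (hsep : ∀ i j : Fin r, ∀ g h : G, IsConj (x i) g → IsConj (x j) h → ∀ k : ℕ, 0 < k → orderOf (g * h⁻¹) ≠ p ^ k) :
    ∃ B : Fin r → Set (IrrCharacter G), Function.Injective B ∧ (∀ i : Fin r, IsPBlock M (B i) ∧ IsDefectGroup p M (B i) D) ∧
      ∀ χ : Fin r → IrrCharacter G, (∀ i : Fin r, χ i ∈ B i ∧ blockHeight p (B i) (χ i : G → ℂ) = 0) →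
        ¬ MemLocalIdeal M (Matrix.det (Matrix.of fun i j : Fin r => (χ i : G → ℂ) (x j))) := by
  classical
  have hP := hM.isPrime
  let S : Sylow p G := default
  obtain ⟨A, hA⟩ : ∃ A, A = (Nat.card G).factorization p - (Nat.card D).factorization p := ⟨_, rfl⟩
  obtain ⟨N, hN⟩ : ∃ N, N = p ^ A := ⟨_, rfl⟩
  have hN0' : N ≠ 0 := by
    rw [hN]
    exact (pow_pos hp.out.pos _).ne'
  have hN0 : (N : ℂ) ≠ 0 := by exact_mod_cast hN0'
  have hq : ∀ j, ∃ q : ℕ, ¬ p ∣ q ∧ (Subgroup.centralizer ({x j} : Set G)).index = N * q := by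
    intro j
    obtain ⟨S₀, hS₀⟩ := hD j
    rw [hN, hA]
    exact sep_index S₀ hS₀
  choose q hqp hq using hq
  have hq0 : ∀ j, (q j : ℂ) ≠ 0 := fun j => natCast_ne_zero_of_not_dvd hM (hqp j)
  have hc : ∀ i j, (if i = j then (q j : ℂ) else 0) =
      ∑ χ : IrrCharacter G, centralChar (χ : G → ℂ) (x j) * centralChar (χ : G → ℂ) (x i)⁻¹ * (tS (S : Subgroup G) (eChi (χ : G → ℂ)) / (N : ℂ)) := by
    intro i j
    rw [← pairs_div hM (S : Subgroup G) (x i) (x j) (N : ℂ), pairs_count S x hx hsep]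
    split_ifs with hij
    · rw [hq j]
      push_cast
      field_simp
    · simp
  have hterm : ∀ (χ : IrrCharacter G) j, centralChar (χ : G → ℂ) (x j) * (tS (S : Subgroup G) (eChi (χ : G → ℂ)) / (N : ℂ)) ∈ locR hP := by
    intro χ j
    obtain ⟨r, hr, hr'⟩ := term_eq hM S (χ := χ) hN0' (hq j)
    rw [hr']
    exact hr
  letI : Fintype {B : Set (IrrCharacter G) // IsPBlock M B ∧ IsDefectGroup p M B D} := Fintype.ofFinite _
  have hne : ∀ b : {B : Set (IrrCharacter G) // IsPBlock M B ∧ IsDefectGroup p M B D}, ∃ χ, χ ∈ b.1 := fun b => IsPBlock.nonempty hP b.2.1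
  choose χ hχ using hne
  let L : {B : Set (IrrCharacter G) // IsPBlock M B ∧ IsDefectGroup p M B D} → ℂ := fun b => blockCoeff b.1 1 / (N : ℂ)
  have hLf := fun (b : {B : Set (IrrCharacter G) // IsPBlock M B ∧ IsDefectGroup p M B D}) => L_formula hM S b.2.1 (N : ℂ)
  have hL : ∀ b, L b ∈ locR hP := by
    intro b
    show blockCoeff b.1 1 / (N : ℂ) ∈ locR hP
    rw [hLf b]
    refine sum_mem fun ψ _ => ?_
    split_ifs with hψ
    · have := tS_div_mem hM S b.2.1 b.2.2 hψ
      rwa [← hA, ← hN] at this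
    · exact zero_mem _
  have hfact : ∀ i j, (if i = j then (q j : ℂ) else 0) -
      ∑ b, L b * centralChar (χ b : G → ℂ) (x j) * centralChar (χ b : G → ℂ) (x i)⁻¹ ∈ locI hP := by
    intro i j
    rw [hc]
    have e1 : ∑ b, L b * centralChar (χ b : G → ℂ) (x j) * centralChar (χ b : G → ℂ) (x i)⁻¹ =
        ∑ ψ : IrrCharacter G, ∑ b : {B : Set (IrrCharacter G) // IsPBlock M B ∧ IsDefectGroup p M B D},
          if ψ ∈ b.1 then (tS (S : Subgroup G) (eChi (ψ : G → ℂ)) / (N : ℂ)) * centralChar (χ b : G → ℂ) (x j) * centralChar (χ b : G → ℂ) (x i)⁻¹ else 0 := by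
      rw [Finset.sum_comm]
      refine Finset.sum_congr rfl fun b _ => ?_
      show blockCoeff b.1 1 / (N : ℂ) * _ * _ = _
      rw [hLf b, Finset.sum_mul, Finset.sum_mul]
      refine Finset.sum_congr rfl fun ψ _ => ?_
      split_ifs <;> ring
    rw [e1, ← Finset.sum_sub_distrib]
    refine sum_mem fun ψ _ => ?_
    by_cases hex : ∃ b : {B : Set (IrrCharacter G) // IsPBlock M B ∧ IsDefectGroup p M B D}, ψ ∈ b.1
    · obtain ⟨b₀, hb₀⟩ := hex
      have hsum : ∑ b : {B : Set (IrrCharacter G) // IsPBlock M B ∧ IsDefectGroup p M B D},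
          (if ψ ∈ b.1 then (tS (S : Subgroup G) (eChi (ψ : G → ℂ)) / (N : ℂ)) * centralChar (χ b : G → ℂ) (x j) * centralChar (χ b : G → ℂ) (x i)⁻¹ else 0) =
          (tS (S : Subgroup G) (eChi (ψ : G → ℂ)) / (N : ℂ)) * centralChar (χ b₀ : G → ℂ) (x j) * centralChar (χ b₀ : G → ℂ) (x i)⁻¹ := by
        rw [Finset.sum_eq_single b₀]
        · rw [if_pos hb₀]
        · intro b _ hne
          rw [if_neg]
          intro hmem
          apply hne
          apply Subtype.ext
          rw [blockOf_eq_of_mem hP b.2.1 hmem, blockOf_eq_of_mem hP b₀.2.1 hb₀]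
        · intro h
          exact absurd (Finset.mem_univ _) h
      rw [hsum]
      have hT : tS (S : Subgroup G) (eChi (ψ : G → ℂ)) / (N : ℂ) ∈ locR hP := by
        have := tS_div_mem hM S b₀.2.1 b₀.2.2 hb₀
        rwa [← hA, ← hN] at this
      have hbk := blockOf_eq_of_mem hP b₀.2.1 hb₀
      have h3 : χ b₀ ∈ blockOf M (ψ : G → ℂ) := hbk ▸ hχ b₀
      have h4 : centralChar (ψ : G → ℂ) (x j) - centralChar (χ b₀ : G → ℂ) (x j) ∈ locI hP := h3 (x j)
      have h5 : centralChar (ψ : G → ℂ) (x i)⁻¹ - centralChar (χ b₀ : G → ℂ) (x i)⁻¹ ∈ locI hP := h3 (x i)⁻¹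
      have e : centralChar (ψ : G → ℂ) (x j) * centralChar (ψ : G → ℂ) (x i)⁻¹ * (tS (S : Subgroup G) (eChi (ψ : G → ℂ)) / (N : ℂ)) -
          tS (S : Subgroup G) (eChi (ψ : G → ℂ)) / (N : ℂ) * centralChar (χ b₀ : G → ℂ) (x j) * centralChar (χ b₀ : G → ℂ) (x i)⁻¹ =
          (tS (S : Subgroup G) (eChi (ψ : G → ℂ)) / (N : ℂ)) * ((centralChar (ψ : G → ℂ) (x j) - centralChar (χ b₀ : G → ℂ) (x j)) * centralChar (ψ : G → ℂ) (x i)⁻¹ +
            centralChar (χ b₀ : G → ℂ) (x j) * (centralChar (ψ : G → ℂ) (x i)⁻¹ - centralChar (χ b₀ : G → ℂ) (x i)⁻¹)) := by ring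
      rw [e]
      refine locI_mul_left hP hT ((locI hP).add_mem ?_ ?_)
      · exact locI_mul_right hP (centralChar_mem hP ψ.2 _) h4
      · exact locI_mul_left hP (centralChar_mem hP (χ b₀).2 _) h5
    · push Not at hex
      have hsum : ∑ b : {B : Set (IrrCharacter G) // IsPBlock M B ∧ IsDefectGroup p M B D},
          (if ψ ∈ b.1 then (tS (S : Subgroup G) (eChi (ψ : G → ℂ)) / (N : ℂ)) * centralChar (χ b : G → ℂ) (x j) * centralChar (χ b : G → ℂ) (x i)⁻¹ else 0) = 0 :=
        Finset.sum_eq_zero fun b _ => if_neg (hex b)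
      rw [hsum, sub_zero]
      by_cases hsm : centralChar (ψ : G → ℂ) (x i)⁻¹ ∈ locI hP
      · have e : centralChar (ψ : G → ℂ) (x j) * centralChar (ψ : G → ℂ) (x i)⁻¹ * (tS (S : Subgroup G) (eChi (ψ : G → ℂ)) / (N : ℂ)) =
            (centralChar (ψ : G → ℂ) (x j) * (tS (S : Subgroup G) (eChi (ψ : G → ℂ)) / (N : ℂ))) * centralChar (ψ : G → ℂ) (x i)⁻¹ := by ring
        rw [e]
        exact locI_mul_left hP (hterm ψ j) hsm
      · have hb : IsPBlock M (blockOf M (ψ : G → ℂ)) := ⟨ψ, rfl⟩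
        have hmem := self_mem_blockOf hP ψ
        have hDp : IsPGroup p D := by
          obtain ⟨S₀, hS₀⟩ := hD i
          rw [← hS₀]
          exact isPGroup_map_sylow _ S₀
        rcases defect_case_inv hM hDp hb hmem (hD i) hsm with hdef | hdvd
        · exact absurd hmem (hex ⟨_, hb, hdef⟩)
        · rw [← hA] at hdvd
          have h1 := tS_div_mem_locI hM S hdvd
          rw [← hN] at h1
          exact locI_mul_left hP (mul_mem (centralChar_mem hP ψ.2 _) (centralChar_mem hP ψ.2 _)) h1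
  obtain ⟨f, hfinj, hfmain⟩ := exists_nonsing_rows hM q hqp
    (fun b j => centralChar (χ b : G → ℂ) (x j)) (fun b i => centralChar (χ b : G → ℂ) (x i)⁻¹) L
    (fun b i => centralChar_mem hP (χ b).2 _) (fun b i => centralChar_mem hP (χ b).2 _) hL hfact
  refine ⟨fun i => (f i).1, fun i j h => hfinj (Subtype.ext h), fun i => (f i).2, ?_⟩
  intro χ' hχ' hdet
  -- degrees
  have hdeg : ∀ i, ∃ u : ℕ, ¬ p ∣ u ∧ charDegree (χ' i : G → ℂ) = N * u := by
    intro i
    have hmem : χ' i ∈ (f i).1 := (hχ' i).1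
    have hheight : blockHeight p (f i).1 (χ' i : G → ℂ) = 0 := (hχ' i).2
    have hB := (f i).2.1
    have hDf := (f i).2.2
    have hne := charDegree_ne_zero (χ' i).2
    refine ⟨_, Nat.not_dvd_ordCompl hp.out hne, ?_⟩
    have h1 : (charDegree (χ' i : G → ℂ)).factorization p = A := by
      have h2 : blockHeight p (f i).1 (χ' i : G → ℂ) = (charDegree (χ' i : G → ℂ)).factorization p - minNu p (f i).1 := rfl
      have h3 := minNu_le (p := p) hmem
      obtain ⟨g₀, hg₀⟩ := exists_defectClass hM hB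
      have h4 := index_factorization_of_defectClass hM hB hg₀
      have h5 := card_centralizer_factorization (p := p) g₀
      have h6 := card_defectGroup hM hB hDf
      have h7 : (Nat.card D).factorization p = blockDefect p (f i).1 := by
        rw [h6, Nat.factorization_pow]
        simp [hp.out.factorization_self]
      have h8 : blockDefect p (f i).1 = (Nat.card G).factorization p - minNu p (f i).1 := rfl
      omega
    rw [hN, ← h1]
    exact (Nat.ordProj_mul_ordCompl_eq_self _ p).symm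
  choose u hup hu using hdeg
  have hu0 : ∀ i, (u i : ℂ) ≠ 0 := fun i => natCast_ne_zero_of_not_dvd hM (hup i)
  let X : Matrix (Fin r) (Fin r) ℂ := Matrix.of fun i j : Fin r => (χ' i : G → ℂ) (x j)
  let Ω : Matrix (Fin r) (Fin r) ℂ := Matrix.of fun i j : Fin r => centralChar (χ' i : G → ℂ) (x j)
  have hΩ : Ω = Matrix.diagonal (fun i => (u i : ℂ)⁻¹) * X * Matrix.diagonal (fun j => (q j : ℂ)) := by
    ext i j
    rw [Matrix.mul_diagonal, Matrix.diagonal_mul]
    show centralChar (χ' i : G → ℂ) (x j) = (u i : ℂ)⁻¹ * (χ' i : G → ℂ) (x j) * (q j : ℂ)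
    rw [centralChar, hq j, ← coe_charDegree (χ' i).2.isCharacter, hu i]
    push_cast
    field_simp
  have hdetΩ : Ω.det ∈ locI hP := by
    rw [hΩ, Matrix.det_mul, Matrix.det_mul, Matrix.det_diagonal, Matrix.det_diagonal]
    refine locI_mul_right hP (prod_mem fun j _ => natCast_mem _ _) (locI_mul_left hP (prod_mem fun i _ => natCast_inv_mem hM (hup i)) hdet)
  refine hfmain Ω (fun i j => centralChar_mem hP (χ' i).2 _) (fun i j => ?_) hdetΩ
  have hbk := blockOf_eq_of_mem hP (f i).2.1 (hχ' i).1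
  have h3 : χ (f i) ∈ blockOf M (χ' i : G → ℂ) := hbk ▸ hχ (f i)
  exact h3 (x j)

end Sep

end CfsgLib.Block
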