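import Cfsg.Agent.Lib.Block.V4

/-! # Counting involutions in groups with Klein four Sylow 2-subgroups -/

set_option autoImplicit false
set_option linter.unusedSectionVars false
set_option linter.unusedVariables false

namespace CfsgLib.Block

open Cfsg CfsgLib.Char
open scoped ComplexConjugate Pointwise

universe u

section Count

variable {G : Type u} [Group G] [Finite G]

theorem order_two_of {a : G} (h : a * a = 1) (h1 : a ≠ 1) : orderOf a = 2 :=
  orderOf_eq_prime (by rw [pow_two, h]) h1

theorem sq_of_order_two {a : G} (h : orderOf a = 2) : a * a = 1 := by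
  have := pow_orderOf_eq_one a
  rwa [h, pow_two] at this

theorem ne_one_of_order_two {a : G} (h : orderOf a = 2) : a ≠ 1 := by
  rintro rfl
  simp at h

theorem smul_sylow_mem (c : G) {Q : Sylow 2 G} {x : G} (hx : x ∈ (Q : Subgroup G)) :
    c * x * c⁻¹ ∈ ((c • Q : Sylow 2 G) : Subgroup G) := by
  rw [Sylow.coe_subgroup_smul]
  exact ⟨x, hx, by simp [MulAut.smul_def, MulAut.conj_apply]⟩

theorem mem_smul_sylow (c : G) {Q : Sylow 2 G} {x : G} (hx : x ∈ ((c • Q : Sylow 2 G) : Subgroup G)) :
    c⁻¹ * x * c ∈ (Q : Subgroup G) := by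
  rw [Sylow.coe_subgroup_smul] at hx
  obtain ⟨a, ha, rfl⟩ := hx
  show c⁻¹ * (c * a * c⁻¹) * c ∈ (Q : Subgroup G)
  have : c⁻¹ * (c * a * c⁻¹) * c = a := by group
  rwa [this]

/-- Commuting involutions lie in a common Sylow subgroup. -/
theorem V4S.pair_sylow (hV : V4S G) {a b : G} (ha : orderOf a = 2) (hb : orderOf b = 2) (hab : a * b = b * a) :
    ∃ Q : Sylow 2 G, a ∈ (Q : Subgroup G) ∧ b ∈ (Q : Subgroup G) := by
  haveI : Fact (Nat.Prime 2) := ⟨Nat.prime_two⟩
  obtain ⟨R, hR⟩ := exists_sylow_mem (g := b) (k := 1) (by rw [hb]; rfl)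
  have hRC : (R : Subgroup G) ≤ Subgroup.centralizer ({b} : Set G) := by
    intro x hx
    rw [Subgroup.mem_centralizer_singleton_iff]
    exact hV.comm_of_mem R hx hR
  have hzp : IsPGroup 2 (Subgroup.zpowers a) := by
    rw [IsPGroup.iff_card]
    exact ⟨1, by rw [Nat.card_zpowers, ha]; rfl⟩
  have hzC : Subgroup.zpowers a ≤ Subgroup.centralizer ({b} : Set G) := by
    rw [Subgroup.zpowers_le, Subgroup.mem_centralizer_singleton_iff]
    exact hab
  obtain ⟨c, hc, hmem⟩ := exists_conj_le_sylow (p := 2) (Subgroup.centralizer ({b} : Set G)) (R.subtype hRC) hzC hzp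
  have h1 := hmem a (Subgroup.mem_zpowers a)
  rw [Sylow.coe_subtype, Subgroup.map_subgroupOf_eq_of_le hRC] at h1
  refine ⟨c • R, ?_, ?_⟩
  · have := smul_sylow_mem c h1
    have h2 : c * (c⁻¹ * a * c) * c⁻¹ = a := by group
    rwa [h2] at this
  · have := smul_sylow_mem c hR
    have h3 : c * b = b * c := (Subgroup.mem_centralizer_singleton_iff.1 hc)
    have h2 : c * b * c⁻¹ = b := by rw [h3]; group
    rwa [h2] at this

/-- Centralizer of a commuting pair of distinct involutions. -/
theorem V4S.card_cent_pair (hV : V4S G) (P : Sylow 2 G) {a b : G} (ha : orderOf a = 2) (hb : orderOf b = 2)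
    (hab : a * b = b * a) (hne : a ≠ b) :
    Nat.card (Subgroup.centralizer ({a} : Set G) ⊓ Subgroup.centralizer ({b} : Set G) : Subgroup G) =
      Nat.card (Subgroup.centralizer ((P : Subgroup G) : Set G)) := by
  obtain ⟨Q, haQ, hbQ⟩ := hV.pair_sylow ha hb hab
  have hQ : ∀ g : G, g ∈ Subgroup.centralizer ({a} : Set G) ⊓ Subgroup.centralizer ({b} : Set G) ↔
      g ∈ Subgroup.centralizer ((Q : Subgroup G) : Set G) := by
    intro g
    rw [Subgroup.mem_inf, Subgroup.mem_centralizer_singleton_iff, Subgroup.mem_centralizer_singleton_iff,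
      Subgroup.mem_centralizer_iff]
    constructor
    · rintro ⟨h1, h2⟩ x hx
      rcases hV.mem_cases Q haQ hbQ hx (ne_one_of_order_two ha) (ne_one_of_order_two hb) hne.symm with h | h | h | h
      · rw [h, one_mul, mul_one]
      · rw [h]; exact h1.symm
      · rw [h]; exact h2.symm
      · rw [h]
        calc a * b * g = a * (b * g) := by group
          _ = a * (g * b) := by rw [h2]
          _ = (a * g) * b := by group
          _ = (g * a) * b := by rw [h1]
          _ = g * (a * b) := by group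
    · intro h
      exact ⟨(h a haQ).symm, (h b hbQ).symm⟩
  obtain ⟨c, hc⟩ := MulAction.exists_smul_eq G P Q
  have hmemQ : ∀ x : G, x ∈ (Q : Subgroup G) ↔ c⁻¹ * x * c ∈ (P : Subgroup G) := by
    intro x
    constructor
    · intro hx
      rw [← hc] at hx
      exact mem_smul_sylow c hx
    · intro hx
      have := smul_sylow_mem c hx
      rw [hc] at this
      have h2 : c * (c⁻¹ * x * c) * c⁻¹ = x := by group
      rwa [h2] at this
  refine Nat.card_congr (Equiv.subtypeEquiv (MulAut.conj c⁻¹).toEquiv fun g => ?_)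
  rw [hQ, Subgroup.mem_centralizer_iff, Subgroup.mem_centralizer_iff]
  simp only [MulEquiv.toEquiv_eq_coe, EquivLike.coe_coe, MulAut.conj_apply, inv_inv]
  constructor
  · intro h x hx
    have hx' : c * x * c⁻¹ ∈ (Q : Subgroup G) := by
      rw [hmemQ]
      have h2 : c⁻¹ * (c * x * c⁻¹) * c = x := by group
      rwa [h2]
    have h3 := h _ hx'
    calc x * (c⁻¹ * g * c) = c⁻¹ * (c * x * c⁻¹ * g) * c := by group
      _ = c⁻¹ * (g * (c * x * c⁻¹)) * c := by rw [h3]
      _ = c⁻¹ * g * c * x := by group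
  · intro h x hx
    have h3 := h _ ((hmemQ x).1 hx)
    calc x * g = c * (c⁻¹ * x * c * (c⁻¹ * g * c)) * c⁻¹ := by group
      _ = c * (c⁻¹ * g * c * (c⁻¹ * x * c)) * c⁻¹ := by rw [h3]
      _ = g * x := by group

theorem card_cent_eq_of_conj (hV : V4S G) (hone : ∀ s t : G, orderOf s = 2 → orderOf t = 2 → IsConj s t) {a b : G}
    (ha : orderOf a = 2) (hb : orderOf b = 2) :
    Nat.card (Subgroup.centralizer ({a} : Set G)) = Nat.card (Subgroup.centralizer ({b} : Set G)) := by
  obtain ⟨c, hc⟩ := isConj_iff.1 (hone a b ha hb)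
  refine Nat.card_congr (Equiv.subtypeEquiv (MulAut.conj c).toEquiv fun g => ?_)
  rw [Subgroup.mem_centralizer_singleton_iff, Subgroup.mem_centralizer_singleton_iff, ← hc]
  simp only [MulEquiv.toEquiv_eq_coe, EquivLike.coe_coe, MulAut.conj_apply]
  constructor
  · intro h
    calc c * g * c⁻¹ * (c * a * c⁻¹) = c * (g * a) * c⁻¹ := by group
      _ = c * (a * g) * c⁻¹ := by rw [h]
      _ = c * a * c⁻¹ * (c * g * c⁻¹) := by group
  · intro h
    have h2 : c * (g * a) * c⁻¹ = c * (a * g) * c⁻¹ := by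
      calc c * (g * a) * c⁻¹ = c * g * c⁻¹ * (c * a * c⁻¹) := by group
        _ = c * a * c⁻¹ * (c * g * c⁻¹) := h
        _ = c * (a * g) * c⁻¹ := by group
    exact mul_left_cancel (mul_right_cancel h2)

/-- Commutators of an involution in a centralizer have odd order. -/
theorem V4S.odd_comm (hV : V4S G) {u v g : G} (hu : orderOf u = 2) (hv : v ∈ Subgroup.centralizer ({u} : Set G))
    (hg : g ∈ Subgroup.centralizer ({u} : Set G)) (hvv : v * v = 1) : ¬ 2 ∣ orderOf (v * (g * v * g⁻¹)) := by
  obtain ⟨N, hNn, hNc, hNi, hNs⟩ := cent_struct hV hu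
  set v' : Subgroup.centralizer ({u} : Set G) := ⟨v, hv⟩ with hv'
  set g' : Subgroup.centralizer ({u} : Set G) := ⟨g, hg⟩ with hg'
  have h1 : v' * (g' * v' * g'⁻¹) ∈ N := by
    have hvi : v'⁻¹ = v' := inv_eq_of_mul_eq_one_left (Subtype.ext hvv)
    have h2 : v' * (g' * v' * g'⁻¹) = (v' * g') * (v' * g') * (g'⁻¹ * (v'⁻¹ * v'⁻¹) * g') * (g'⁻¹ * g'⁻¹) := by
      have h4 : (v' * g') * (v' * g') * (g'⁻¹ * (v'⁻¹ * v'⁻¹) * g') * (g'⁻¹ * g'⁻¹) = v' * g' * v'⁻¹ * g'⁻¹ := by group
      rw [h4, hvi]
      group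
    rw [h2]
    refine N.mul_mem (N.mul_mem (hNs _) ?_) (hNs _)
    have := hNn.conj_mem _ (hNs v'⁻¹) g'⁻¹
    simpa using this
  intro h2
  have h3 : orderOf (v * (g * v * g⁻¹)) ∣ Nat.card N := by
    have := orderOf_dvd_natCard (⟨_, h1⟩ : N)
    rw [Subgroup.orderOf_mk, ← Subgroup.orderOf_coe] at this
    simpa using this
  have h4 := h2.trans h3
  exact (Nat.Prime.coprime_iff_not_dvd Nat.prime_two).1 hNc.symm h4

/-- Dihedral conjugacy. -/
theorem dihedral_conj {H : Subgroup G} {k v : G} (hk : k ∈ H) (hv : v ∈ H) (hkk : k * k = 1) (hvv : v * v = 1)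
    (hodd : ¬ 2 ∣ orderOf (k * v)) : ∃ g ∈ H, k = g * v * g⁻¹ := by
  set w := k * v with hw
  obtain ⟨m, hm⟩ : ∃ m, orderOf w = 2 * m + 1 := by
    have : Odd (orderOf w) := Nat.odd_iff.2 (by omega)
    exact this
  have hwm : w ^ (2 * m + 1) = 1 := by rw [← hm]; exact pow_orderOf_eq_one w
  have hvi : v⁻¹ = v := inv_eq_of_mul_eq_one_left hvv
  have hki : k⁻¹ = k := inv_eq_of_mul_eq_one_left hkk
  have hwi : w⁻¹ = v * k := by rw [hw, mul_inv_rev, hvi, hki]
  have hsemi : SemiconjBy v w⁻¹ w := by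
    show v * w⁻¹ = w * v
    rw [hwi, hw, ← mul_assoc, hvv, one_mul, mul_assoc, hvv, mul_one]
  refine ⟨w ^ (m + 1), H.pow_mem (H.mul_mem hk hv) _, ?_⟩
  have h1 : v * (w ^ (m + 1))⁻¹ = w ^ (m + 1) * v := by
    have := hsemi.pow_right (m + 1)
    have h2 : v * w⁻¹ ^ (m + 1) = w ^ (m + 1) * v := this
    rwa [inv_pow] at h2
  have h2 : w ^ (m + 1) * w ^ (m + 1) = w := by
    rw [← pow_add]
    have : m + 1 + (m + 1) = (2 * m + 1) + 1 := by ring
    rw [this, pow_succ, hwm, one_mul]
  calc k = w * v := by rw [hw, mul_assoc, hvv, mul_one]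
    _ = w ^ (m + 1) * (w ^ (m + 1) * v) := by rw [← mul_assoc, h2]
    _ = w ^ (m + 1) * (v * (w ^ (m + 1))⁻¹) := by rw [h1]
    _ = w ^ (m + 1) * v * (w ^ (m + 1))⁻¹ := by rw [mul_assoc]

theorem pPart_inv' {p : ℕ} [Fact p.Prime] (g : G) : pPart p g⁻¹ = (pPart p g)⁻¹ := by
  obtain ⟨k, hk⟩ := orderOf_pPart (p := p) g
  refine pPart_eq' (y := (pReg p g)⁻¹) ?_ ?_ (k := k) ?_ ?_
  · have h := (commute_pPart_pReg (p := p) g).eq
    calc (pPart p g)⁻¹ * (pReg p g)⁻¹ = (pReg p g * pPart p g)⁻¹ := by group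
      _ = (pPart p g * pReg p g)⁻¹ := by rw [h]
      _ = g⁻¹ := by rw [pPart_mul_pReg]
  · exact (commute_pPart_pReg (p := p) g).inv_inv
  · rw [orderOf_inv]; exact hk
  · rw [orderOf_inv]; exact not_dvd_orderOf_pReg g

/-- The 2-part of a product of two involutions, when the product has even order. -/
theorem V4S.fiber_forward (hV : V4S G) {J k : G} (hJ : orderOf J = 2) (hk : orderOf k = 2) (hs : 2 ∣ orderOf (J * k)) :
    orderOf (pPart 2 (J * k)) = 2 ∧ pPart 2 (J * k) ≠ J ∧ pPart 2 (J * k) * J = J * pPart 2 (J * k) ∧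
      ∃ g ∈ Subgroup.centralizer ({pPart 2 (J * k)} : Set G), k = g * (pPart 2 (J * k) * J) * g⁻¹ := by
  haveI : Fact (Nat.Prime 2) := ⟨Nat.prime_two⟩
  set u := pPart 2 (J * k) with hu
  have hJJ := sq_of_order_two hJ
  have hkk := sq_of_order_two hk
  have hJi : J⁻¹ = J := inv_eq_of_mul_eq_one_left hJJ
  have hki : k⁻¹ = k := inv_eq_of_mul_eq_one_left hkk
  have hmul := pPart_mul_pReg (p := 2) (J * k)
  have hcomm := commute_pPart_pReg (p := 2) (J * k)
  have hreg := not_dvd_orderOf_pReg (p := 2) (J * k)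
  have hu1 : u ≠ 1 := by
    intro h
    rw [← hu, h, one_mul] at hmul
    rw [hmul] at hreg
    exact hreg hs
  have huu : u * u = 1 := hV.sq _ (orderOf_pPart _)
  have hui : u⁻¹ = u := inv_eq_of_mul_eq_one_left huu
  have ho : orderOf u = 2 := order_two_of huu hu1
  have hinv : (J * k)⁻¹ = k * J := by rw [mul_inv_rev, hJi, hki]
  have huinv : pPart 2 (k * J) = u := by
    rw [← hinv, pPart_inv', hui]
  have hJu : J * u * J⁻¹ = u := by
    rw [hu, ← pPart_conj]
    have : J * (J * k) * J⁻¹ = k * J := by rw [hJi, ← mul_assoc, hJJ, one_mul]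
    rw [this, huinv]
  have hku : k * u * k⁻¹ = u := by
    rw [hu, ← pPart_conj]
    have : k * (J * k) * k⁻¹ = k * J := by group
    rw [this, huinv]
  have huJ : u * J = J * u := by
    have h := hJu
    rw [mul_inv_eq_iff_eq_mul] at h
    exact h.symm
  have huk : u * k = k * u := by
    have h := hku
    rw [mul_inv_eq_iff_eq_mul] at h
    exact h.symm
  have hne : u ≠ J := by
    intro h
    rw [← hu, h] at hmul
    have h2 : pReg 2 (J * k) = k := mul_left_cancel hmul
    rw [h2, hk] at hreg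
    exact hreg (dvd_refl _)
  refine ⟨ho, hne, huJ, ?_⟩
  set y := pReg 2 (J * k) with hy
  have hprod : k * (u * J) = y⁻¹ := by
    have h1 : k * J = y⁻¹ * u⁻¹ := by
      rw [← hinv, ← hmul, mul_inv_rev]
    calc k * (u * J) = k * (J * u) := by rw [huJ]
      _ = (k * J) * u := by group
      _ = y⁻¹ * u⁻¹ * u := by rw [h1]
      _ = y⁻¹ := by group
  have hvv : (u * J) * (u * J) = 1 := by
    calc (u * J) * (u * J) = (u * J) * (J * u) := by rw [huJ]
      _ = u * (J * J) * u := by group
      _ = 1 := by rw [hJJ, mul_one, huu]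
  have hkC : k ∈ Subgroup.centralizer ({u} : Set G) := Subgroup.mem_centralizer_singleton_iff.2 huk.symm
  have hvC : u * J ∈ Subgroup.centralizer ({u} : Set G) := by
    rw [Subgroup.mem_centralizer_singleton_iff]
    calc u * J * u = u * (J * u) := by group
      _ = u * (u * J) := by rw [huJ]
  refine dihedral_conj hkC hvC hkk hvv ?_
  rw [hprod, orderOf_inv]
  exact hreg

theorem V4S.fiber_back (hV : V4S G) {J u g : G} (hJ : orderOf J = 2) (hu : orderOf u = 2) (hne : u ≠ J) (huJ : u * J = J * u)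
    (hg : g ∈ Subgroup.centralizer ({u} : Set G)) :
    orderOf (g * (u * J) * g⁻¹) = 2 ∧ 2 ∣ orderOf (J * (g * (u * J) * g⁻¹)) ∧ pPart 2 (J * (g * (u * J) * g⁻¹)) = u := by
  haveI : Fact (Nat.Prime 2) := ⟨Nat.prime_two⟩
  have hJJ := sq_of_order_two hJ
  have huu := sq_of_order_two hu
  have hvv : (u * J) * (u * J) = 1 := by
    calc (u * J) * (u * J) = (u * J) * (J * u) := by rw [huJ]
      _ = u * (J * J) * u := by group
      _ = 1 := by rw [hJJ, mul_one, huu]
  have hv1 : u * J ≠ 1 := by
    intro h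
    apply hne
    have h2 : u * J = J * J := by rw [h, hJJ]
    exact mul_right_cancel h2
  have hvC : u * J ∈ Subgroup.centralizer ({u} : Set G) := by
    rw [Subgroup.mem_centralizer_singleton_iff]
    calc u * J * u = u * (J * u) := by group
      _ = u * (u * J) := by rw [huJ]
  have hodd := hV.odd_comm hu hvC hg hvv
  set k := g * (u * J) * g⁻¹ with hk
  have hkord : orderOf k = 2 := by
    rw [hk, orderOf_conj']
    exact order_two_of hvv hv1
  have hkC : k ∈ Subgroup.centralizer ({u} : Set G) := by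
    rw [hk]
    exact (Subgroup.centralizer ({u} : Set G)).mul_mem ((Subgroup.centralizer ({u} : Set G)).mul_mem hg hvC)
      ((Subgroup.centralizer ({u} : Set G)).inv_mem hg)
  have hku : k * u = u * k := Subgroup.mem_centralizer_singleton_iff.1 hkC
  set y := (u * J) * k with hy
  have hJk : J * k = u * y := by
    rw [hy]
    calc J * k = (u * u) * J * k := by rw [huu, one_mul]
      _ = u * (u * J * k) := by group
  have hcomm : Commute u y := by
    show u * y = y * u
    rw [hy]
    calc u * (u * J * k) = (u * (u * J)) * k := by group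
      _ = (u * J * u) * k := by rw [(Subgroup.mem_centralizer_singleton_iff.1 hvC)]
      _ = (u * J) * (u * k) := by group
      _ = (u * J) * (k * u) := by rw [hku]
      _ = u * J * k * u := by group
  have hpp : IsPPart 2 (J * k) u := ⟨y, hJk.symm, hcomm, ⟨1, by rw [hu]; rfl⟩, hodd⟩
  have hpart : pPart 2 (J * k) = u := pPart_eq hpp
  refine ⟨hkord, ?_, hpart⟩
  by_contra h2
  have h3 : IsPPart 2 (J * k) 1 := ⟨J * k, one_mul _, Commute.one_left _, ⟨0, by simp⟩, h2⟩
  have h4 := isPPart_unique Nat.prime_two hpp h3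
  exact ne_one_of_order_two hu h4

end Count

section Count2

variable {G : Type u} [Group G] [Fintype G]

open Classical in
/-- The orbit of `v` under the centralizer of `u`. -/
noncomputable def orbF (u v : G) : Finset G :=
  Finset.univ.filter (fun k => ∃ g ∈ Subgroup.centralizer ({u} : Set G), k = g * v * g⁻¹)

open Classical in
theorem mem_orbF {u v k : G} : k ∈ orbF u v ↔ ∃ g ∈ Subgroup.centralizer ({u} : Set G), k = g * v * g⁻¹ := by
  simp [orbF]

theorem card_orbF {u v : G} (hv : v ∈ Subgroup.centralizer ({u} : Set G)) :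
    (orbF u v).card * Nat.card (Subgroup.centralizer ({u} : Set G) ⊓ Subgroup.centralizer ({v} : Set G) : Subgroup G) =
      Nat.card (Subgroup.centralizer ({u} : Set G)) := by
  classical
  set C := Subgroup.centralizer ({u} : Set G) with hC
  letI : Fintype C := Fintype.ofFinite _
  set v' : C := ⟨v, hv⟩ with hv'
  have h := card_class_mul_card_centralizer v'
  have h1 : Nat.card {x : C // IsConj v' x} = (orbF u v).card := by
    rw [← Nat.card_eq_fintype_card (α := orbF u v) |>.trans (Fintype.card_coe _)]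
    refine Nat.card_congr (Equiv.ofBijective (fun x => ⟨(x.1 : G), ?_⟩) ⟨?_, ?_⟩)
    · obtain ⟨c, hc⟩ := isConj_iff.1 x.2
      rw [mem_orbF]
      exact ⟨c, c.2, by rw [← hc]; rfl⟩
    · intro a b hab
      have h3 : ((a.1 : C) : G) = (b.1 : C) := congrArg (fun z : orbF u v => (z : G)) hab
      exact Subtype.ext (Subtype.ext h3)
    · rintro ⟨k, hk⟩
      obtain ⟨g, hg, rfl⟩ := mem_orbF.1 hk
      refine ⟨⟨⟨g, hg⟩ * v' * (⟨g, hg⟩ : C)⁻¹, isConj_iff.2 ⟨⟨g, hg⟩, rfl⟩⟩, rfl⟩
  have h2 : Nat.card (Subgroup.centralizer ({v'} : Set C)) = Nat.card (C ⊓ Subgroup.centralizer ({v} : Set G) : Subgroup G) := by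
    have h3 : Nat.card ((Subgroup.centralizer ({v'} : Set C)).map C.subtype) = Nat.card (Subgroup.centralizer ({v'} : Set C)) :=
      Subgroup.card_map_of_injective C.subtype_injective
    rw [← h3]
    congr 2
    ext g
    simp only [Subgroup.mem_map, Subgroup.mem_inf, Subgroup.subtype_apply]
    constructor
    · rintro ⟨x, hx, rfl⟩
      refine ⟨x.2, ?_⟩
      rw [Subgroup.mem_centralizer_singleton_iff]
      exact congrArg Subtype.val (Subgroup.mem_centralizer_singleton_iff.1 hx)
    · rintro ⟨h3, h4⟩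
      refine ⟨⟨g, h3⟩, ?_, rfl⟩
      rw [Subgroup.mem_centralizer_singleton_iff]
      exact Subtype.ext (Subgroup.mem_centralizer_singleton_iff.1 h4)
  rw [h1, h2] at h
  exact h

end Count2

section Count3

variable {G : Type u} [Group G] [Fintype G]

theorem V4S.exists_third (hV : V4S G) (P : Sylow 2 G) (J : G) : ∃ v ∈ (P : Subgroup G), v ≠ 1 ∧ v ≠ J := by
  classical
  by_contra hc
  push Not at hc
  have hinj : Function.Injective (fun x : (P : Subgroup G) => decide ((x : G) = J)) := by
    intro a b hab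
    apply Subtype.ext
    by_cases ha : (a : G) = J
    · have hb : (b : G) = J := by
        simpa [ha] using hab.symm
      rw [ha, hb]
    · have hb : (b : G) ≠ J := by
        intro hb
        apply ha
        simpa [hb] using hab
      have h1 : (a : G) = 1 := by
        by_contra h
        exact ha (hc a a.2 h)
      have h2 : (b : G) = 1 := by
        by_contra h
        exact hb (hc b b.2 h)
      rw [h1, h2]
  have h1 := Nat.card_le_card_of_injective _ hinj
  rw [hV.card P] at h1
  simp at h1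

open Classical in
/-- Count of involutions whose product with `J` has even order. -/
theorem v4_count (hV : V4S G) (hone : ∀ s t : G, orderOf s = 2 → orderOf t = 2 → IsConj s t) (P : Sylow 2 G) {J : G}
    (hJP : J ∈ (P : Subgroup G)) (hJ : orderOf J = 2) :
    (Finset.univ.filter (fun k : G => orderOf k = 2 ∧ 2 ∣ orderOf (J * k))).card *
        Nat.card (Subgroup.centralizer ((P : Subgroup G) : Set G)) ^ 2 =
      2 * Nat.card (Subgroup.centralizer ({J} : Set G)) ^ 2 := by
  haveI : Fact (Nat.Prime 2) := ⟨Nat.prime_two⟩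
  set c := Nat.card (Subgroup.centralizer ({J} : Set G)) with hc
  set cP := Nat.card (Subgroup.centralizer ((P : Subgroup G) : Set G)) with hcP
  set S := Finset.univ.filter (fun k : G => orderOf k = 2 ∧ 2 ∣ orderOf (J * k)) with hS
  set A := Finset.univ.filter (fun u : G => orderOf u = 2 ∧ u ≠ J ∧ u * J = J * u) with hA
  have hJJ := sq_of_order_two hJ
  have hfib : ∀ u ∈ A, S.filter (fun k => pPart 2 (J * k) = u) = orbF u (u * J) := by
    intro u hu
    obtain ⟨hu2, hne, huJ⟩ := (Finset.mem_filter.1 hu).2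
    ext k
    simp only [hS, Finset.mem_filter, Finset.mem_univ, true_and]
    rw [mem_orbF]
    constructor
    · rintro ⟨⟨hk2, hks⟩, rfl⟩
      exact (hV.fiber_forward hJ hk2 hks).2.2.2
    · rintro ⟨g, hg, rfl⟩
      obtain ⟨h1, h2, h3⟩ := hV.fiber_back hJ hu2 hne huJ hg
      exact ⟨⟨h1, h2⟩, h3⟩
  have hfcard : ∀ u ∈ A, (orbF u (u * J)).card * cP = c := by
    intro u hu
    obtain ⟨hu2, hne, huJ⟩ := (Finset.mem_filter.1 hu).2
    have huu := sq_of_order_two hu2
    have hvv : (u * J) * (u * J) = 1 := by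
      calc (u * J) * (u * J) = (u * J) * (J * u) := by rw [huJ]
        _ = u * (J * J) * u := by group
        _ = 1 := by rw [hJJ, mul_one, huu]
    have hv1 : u * J ≠ 1 := by
      intro h
      apply hne
      have h2 : u * J = J * J := by rw [h, hJJ]
      exact mul_right_cancel h2
    have hvo := order_two_of hvv hv1
    have hcomm : u * (u * J) = (u * J) * u := by
      calc u * (u * J) = u * (J * u) := by rw [huJ]
        _ = u * J * u := by group
    have hvC : u * J ∈ Subgroup.centralizer ({u} : Set G) := Subgroup.mem_centralizer_singleton_iff.2 hcomm.symm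
    have hne' : u ≠ u * J := by
      intro h
      apply ne_one_of_order_two hJ
      simpa using h
    have h1 := card_orbF hvC
    rw [hV.card_cent_pair P hu2 hvo hcomm hne', card_cent_eq_of_conj hV hone hu2 hJ] at h1
    exact h1
  have hmaps : ∀ k ∈ S, pPart 2 (J * k) ∈ A := by
    intro k hk
    obtain ⟨hk2, hks⟩ := (Finset.mem_filter.1 hk).2
    obtain ⟨h1, h2, h3, -⟩ := hV.fiber_forward hJ hk2 hks
    exact Finset.mem_filter.2 ⟨Finset.mem_univ _, h1, h2, h3⟩
  have hScard : S.card * cP = A.card * c := by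
    rw [Finset.card_eq_sum_card_fiberwise hmaps, Finset.sum_mul]
    rw [Finset.sum_congr rfl fun u hu => by rw [hfib u hu, hfcard u hu]]
    rw [Finset.sum_const, smul_eq_mul]
  obtain ⟨v, hvP, hv1, hvJ⟩ := hV.exists_third P J
  have hvv := hV.sq_of_mem P hvP
  have hvo : orderOf v = 2 := order_two_of hvv hv1
  have hJv : J * v = v * J := hV.comm_of_mem P hJP hvP
  have hvC : v ∈ Subgroup.centralizer ({J} : Set G) := Subgroup.mem_centralizer_singleton_iff.2 hJv.symm
  have hJvP : J * v ∈ (P : Subgroup G) := (P : Subgroup G).mul_mem hJP hvP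
  have hJv1 : J * v ≠ 1 := by
    intro h
    apply hvJ
    have h2 : J * v = J * J := by rw [h, hJJ]
    exact mul_left_cancel h2
  have hJvo : orderOf (J * v) = 2 := order_two_of (hV.sq_of_mem P hJvP) hJv1
  have hcomm2 : J * (J * v) = (J * v) * J := hV.comm_of_mem P hJP hJvP
  have hJvC : J * v ∈ Subgroup.centralizer ({J} : Set G) := Subgroup.mem_centralizer_singleton_iff.2 hcomm2.symm
  have hneJ2 : J ≠ J * v := by
    intro h
    apply hv1
    simpa using h
  have ho1 : (orbF J v).card * cP = c := by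
    have h1 := card_orbF hvC
    rwa [hV.card_cent_pair P hJ hvo hJv hvJ.symm] at h1
  have ho2 : (orbF J (J * v)).card * cP = c := by
    have h1 := card_orbF hJvC
    rwa [hV.card_cent_pair P hJ hJvo hcomm2 hneJ2] at h1
  have hdisj : Disjoint (orbF J v) (orbF J (J * v)) := by
    rw [Finset.disjoint_left]
    intro k h1 h2
    obtain ⟨g, hg, rfl⟩ := mem_orbF.1 h1
    obtain ⟨g', hg', h3⟩ := mem_orbF.1 h2
    set C := Subgroup.centralizer ({J} : Set G) with hC
    have h4 : (g'⁻¹ * g) * v * (g'⁻¹ * g)⁻¹ = J * v := by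
      calc (g'⁻¹ * g) * v * (g'⁻¹ * g)⁻¹ = g'⁻¹ * (g * v * g⁻¹) * g' := by group
        _ = g'⁻¹ * (g' * (J * v) * g'⁻¹) * g' := by rw [h3]
        _ = J * v := by group
    have h5 := hV.odd_comm hJ hvC (C.mul_mem (C.inv_mem hg') hg) hvv
    rw [h4] at h5
    have h6 : v * (J * v) = J := by rw [hJv, ← mul_assoc, hvv, one_mul]
    rw [h6, hJ] at h5
    exact h5 (dvd_refl _)
  have hAeq : A = orbF J v ∪ orbF J (J * v) := by
    ext u
    simp only [hA, Finset.mem_filter, Finset.mem_univ, true_and, Finset.mem_union]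
    constructor
    · rintro ⟨hu2, hne, huJ⟩
      obtain ⟨Q, huQ, hJQ⟩ := hV.pair_sylow hu2 hJ huJ
      have hPC : (P : Subgroup G) ≤ Subgroup.centralizer ({J} : Set G) := by
        intro x hx
        rw [Subgroup.mem_centralizer_singleton_iff]
        exact hV.comm_of_mem P hx hJP
      have hQC : (Q : Subgroup G) ≤ Subgroup.centralizer ({J} : Set G) := by
        intro x hx
        rw [Subgroup.mem_centralizer_singleton_iff]
        exact hV.comm_of_mem Q hx hJQ
      obtain ⟨d, hd, hmem⟩ := exists_conj_le_sylow (p := 2) (Subgroup.centralizer ({J} : Set G)) (P.subtype hPC) hQC Q.2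
      have h1 := hmem u huQ
      rw [Sylow.coe_subtype, Subgroup.map_subgroupOf_eq_of_le hPC] at h1
      have hdJ : d * J = J * d := Subgroup.mem_centralizer_singleton_iff.1 hd
      have hu_eq : u = d * (d⁻¹ * u * d) * d⁻¹ := by group
      rcases hV.mem_cases P hJP hvP h1 (ne_one_of_order_two hJ) hv1 hvJ with h | h | h | h
      · exfalso
        apply ne_one_of_order_two hu2
        rw [hu_eq, h]
        group
      · exfalso
        apply hne
        rw [hu_eq, h, hdJ]
        group
      · left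
        exact mem_orbF.2 ⟨d, hd, by rw [← h]; exact hu_eq⟩
      · right
        exact mem_orbF.2 ⟨d, hd, by rw [← h]; exact hu_eq⟩
    · have key : ∀ w : G, orderOf w = 2 → w ≠ J → w ∈ Subgroup.centralizer ({J} : Set G) → u ∈ orbF J w →
          orderOf u = 2 ∧ u ≠ J ∧ u * J = J * u := by
        intro w hw2 hwJ hwC hu
        obtain ⟨g, hg, rfl⟩ := mem_orbF.1 hu
        have hgJ : g * J = J * g := Subgroup.mem_centralizer_singleton_iff.1 hg
        refine ⟨by rw [orderOf_conj']; exact hw2, ?_, ?_⟩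
        · intro h
          apply hwJ
          have h2 : g * w = g * J := by
            rw [hgJ, ← h]
            group
          exact mul_left_cancel h2
        · have hC := Subgroup.centralizer ({J} : Set G)
          have h3 := (Subgroup.centralizer ({J} : Set G)).mul_mem ((Subgroup.centralizer ({J} : Set G)).mul_mem hg hwC)
            ((Subgroup.centralizer ({J} : Set G)).inv_mem hg)
          exact Subgroup.mem_centralizer_singleton_iff.1 h3
      rintro (h | h)
      · exact key v hvo hvJ hvC h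
      · exact key (J * v) hJvo hneJ2.symm hJvC h
  have hAcard : A.card * cP = 2 * c := by
    rw [hAeq, Finset.card_union_of_disjoint hdisj, add_mul, ho1, ho2]
    ring
  calc S.card * cP ^ 2 = (S.card * cP) * cP := by ring
    _ = (A.card * c) * cP := by rw [hScard]
    _ = (A.card * cP) * c := by ring
    _ = (2 * c) * c := by rw [hAcard]
    _ = 2 * c ^ 2 := by ring

end Count3

end CfsgLib.Block
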