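import Cfsg.Agent.Lib.Block.V4Count
import Cfsg.Agent.Lib.Char.FS2

/-! # The order formula for groups with Klein four Sylow 2-subgroups -/

set_option autoImplicit false
set_option linter.unusedSectionVars false
set_option linter.unusedVariables false

namespace CfsgLib.Block

open Cfsg CfsgLib.Char
open scoped ComplexConjugate Pointwise

universe u

section Order

variable {G : Type u} [Group G] [Fintype G] {M : Ideal AlgInt} (hM : IsPModular 2 M)

open Classical in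
omit hM in
theorem sum_class_mul_char {χ : G → ℂ} (hχ : IsIrrCharacter G χ) (J : G) :
    ∑ k : G, (if IsConj k J then χ (k * J) else 0) = centralChar χ J * χ J := by
  have h := hat_mul_of_cent hχ (isCent_cSum J) (MonoidAlgebra.single J (1 : ℂ))
  rw [om_cSum hχ, hat_single, one_mul] at h
  rw [← h, hat, ← Equiv.sum_comp (Equiv.mulRight J) (fun g => (cSum J * MonoidAlgebra.single J (1 : ℂ)).coeff g * χ g)]
  refine Finset.sum_congr rfl fun k _ => ?_
  simp only [Equiv.coe_mulRight, coeff_mul_single', mul_inv_cancel_right, coeff_cSum]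
  split_ifs <;> simp

include hM

open Classical in
theorem v4_formula_core (hV : V4S G) (hone : ∀ s t : G, orderOf s = 2 → orderOf t = 2 → IsConj s t) (P : Sylow 2 G) {J : G}
    (hJP : J ∈ (P : Subgroup G)) (hJ : orderOf J = 2) {χ₁ χ₂ χ₃ : IrrCharacter G} {ε₁ ε₂ ε₃ : ℤ}
    (hB : principalBlock M G = {χ : IrrCharacter G | (χ : G → ℂ) = (fun _ => 1) ∨ χ = χ₁ ∨ χ = χ₂ ∨ χ = χ₃})
    (hdist : (χ₁ : G → ℂ) ≠ (fun _ => 1) ∧ (χ₂ : G → ℂ) ≠ (fun _ => 1) ∧ (χ₃ : G → ℂ) ≠ (fun _ => 1) ∧ χ₁ ≠ χ₂ ∧ χ₁ ≠ χ₃ ∧ χ₂ ≠ χ₃)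
    (hε : (ε₁ = 1 ∨ ε₁ = -1) ∧ (ε₂ = 1 ∨ ε₂ = -1) ∧ (ε₃ = 1 ∨ ε₃ = -1))
    (hval : (χ₁ : G → ℂ) J = ε₁ ∧ (χ₂ : G → ℂ) J = ε₂ ∧ (χ₃ : G → ℂ) J = ε₃) :
    ∃ S : ℕ, S * Nat.card (Subgroup.centralizer ((P : Subgroup G) : Set G)) ^ 2 =
        2 * Nat.card (Subgroup.centralizer ({J} : Set G)) ^ 2 ∧
      (4 * (S : ℤ) * ((charDegree (χ₁ : G → ℂ) : ℤ) * charDegree (χ₂ : G → ℂ) * charDegree (χ₃ : G → ℂ)) =
        ((Subgroup.centralizer ({J} : Set G)).index : ℤ) *
          ((charDegree (χ₁ : G → ℂ) : ℤ) * charDegree (χ₂ : G → ℂ) * charDegree (χ₃ : G → ℂ) +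
            ε₁ * charDegree (χ₂ : G → ℂ) * charDegree (χ₃ : G → ℂ) +
            ε₂ * charDegree (χ₁ : G → ℂ) * charDegree (χ₃ : G → ℂ) +
            ε₃ * charDegree (χ₁ : G → ℂ) * charDegree (χ₂ : G → ℂ))) ∧
      ((1 : ℤ) + ε₁ * charDegree (χ₁ : G → ℂ) + ε₂ * charDegree (χ₂ : G → ℂ) + ε₃ * charDegree (χ₃ : G → ℂ) = 0) ∧
      ((4 : ℤ) ∣ (charDegree (χ₁ : G → ℂ) : ℤ) - ε₁) ∧ ((4 : ℤ) ∣ (charDegree (χ₂ : G → ℂ) : ℤ) - ε₂) ∧
      ((4 : ℤ) ∣ (charDegree (χ₃ : G → ℂ) : ℤ) - ε₃) := by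
  have hPr := hM.isPrime
  haveI : Fact (Nat.Prime 2) := ⟨Nat.prime_two⟩
  obtain ⟨d, hd0, hdpm, hcard, hval', hodd, horth, hdeg⟩ := v4_core hM hV hone hJ
  have h1' : ∀ χ : IrrCharacter G, χ = oneIrr G ↔ (χ : G → ℂ) = (fun _ => 1) := by
    intro χ
    constructor
    · rintro rfl
      rfl
    · intro h
      exact Subtype.ext h
  have hmem : ∀ χ, χ ∈ principalBlock M G ↔ χ = oneIrr G ∨ χ = χ₁ ∨ χ = χ₂ ∨ χ = χ₃ := by
    intro χ
    rw [hB, h1']
    rfl
  obtain ⟨hd1, hd2, hd3, h12, h13, h23⟩ := hdist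
  have h11 : χ₁ ≠ oneIrr G := fun h => hd1 ((h1' _).1 h)
  have h21 : χ₂ ≠ oneIrr G := fun h => hd2 ((h1' _).1 h)
  have h31 : χ₃ ≠ oneIrr G := fun h => hd3 ((h1' _).1 h)
  have hT : Finset.univ.filter (· ∈ principalBlock M G) = {oneIrr G, χ₁, χ₂, χ₃} := by
    ext χ
    simp only [Finset.mem_filter, Finset.mem_univ, true_and, Finset.mem_insert, Finset.mem_singleton]
    exact hmem χ
  have hz0 := (hmem (oneIrr G)).2 (Or.inl rfl)
  have hz1 := (hmem χ₁).2 (Or.inr (Or.inl rfl))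
  have hz2 := (hmem χ₂).2 (Or.inr (Or.inr (Or.inl rfl)))
  have hz3 := (hmem χ₃).2 (Or.inr (Or.inr (Or.inr rfl)))
  have h2J : 2 ∣ orderOf J := by rw [hJ]
  have hde1 : d χ₁ = ε₁ := by
    have h := hval' _ hz1 J h2J
    rw [hval.1] at h
    exact_mod_cast h.symm
  have hde2 : d χ₂ = ε₂ := by
    have h := hval' _ hz2 J h2J
    rw [hval.2.1] at h
    exact_mod_cast h.symm
  have hde3 : d χ₃ = ε₃ := by
    have h := hval' _ hz3 J h2J
    rw [hval.2.2] at h
    exact_mod_cast h.symm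
  have hde0 : d (oneIrr G) = 1 := by
    have h := hval' _ hz0 J h2J
    have h' : (1 : ℂ) = (d (oneIrr G) : ℂ) := h
    exact_mod_cast h'.symm
  have hsq : ∀ ε : ℤ, (ε = 1 ∨ ε = -1) → (ε : ℂ) * ε = 1 := by
    intro ε h
    rcases h with h | h <;> rw [h] <;> norm_num
  have hs1 := hsq _ hε.1
  have hs2 := hsq _ hε.2.1
  have hs3 := hsq _ hε.2.2
  have hΦ : ∀ g : G, 1 + (ε₁ : ℂ) * (χ₁ : G → ℂ) g + (ε₂ : ℂ) * (χ₂ : G → ℂ) g + (ε₃ : ℂ) * (χ₃ : G → ℂ) g =
      if 2 ∣ orderOf g then 4 else 0 := by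
    intro g
    split_ifs with hg
    · rw [hval' _ hz1 g hg, hval' _ hz2 g hg, hval' _ hz3 g hg, hde1, hde2, hde3, hs1, hs2, hs3]
      norm_num
    · have h := horth g hg
      rw [v4_sum_eq hM h11 h21 h31 h12 h13 h23 hT (fun χ => (d χ : ℂ) * (χ : G → ℂ) g), hde0, hde1, hde2, hde3] at h
      have h' : ((oneIrr G : IrrCharacter G) : G → ℂ) g = 1 := rfl
      rw [h'] at h
      push_cast at h
      linear_combination h
  -- the sum over the class
  have hconj : ∀ k : G, IsConj k J ↔ orderOf k = 2 := by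
    intro k
    constructor
    · intro h
      obtain ⟨c, hc⟩ := isConj_iff.1 h
      rw [← hJ, ← hc, orderOf_conj']
    · intro h
      exact hone k J h hJ
  have hord : ∀ k : G, 2 ∣ orderOf (k * J) ↔ 2 ∣ orderOf (J * k) := by
    intro k
    have h : J * (k * J) * J⁻¹ = J * k := by group
    rw [← h, orderOf_conj']
  set S := (Finset.univ.filter (fun k : G => orderOf k = 2 ∧ 2 ∣ orderOf (J * k))).card with hS
  have hsum4 : ∑ k : G, (if IsConj k J then 1 + (ε₁ : ℂ) * (χ₁ : G → ℂ) (k * J) + (ε₂ : ℂ) * (χ₂ : G → ℂ) (k * J) + (ε₃ : ℂ) * (χ₃ : G → ℂ) (k * J) else 0) =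
      4 * (S : ℂ) := by
    have h1 : ∀ k : G, (if IsConj k J then 1 + (ε₁ : ℂ) * (χ₁ : G → ℂ) (k * J) + (ε₂ : ℂ) * (χ₂ : G → ℂ) (k * J) + (ε₃ : ℂ) * (χ₃ : G → ℂ) (k * J) else 0) =
        if orderOf k = 2 ∧ 2 ∣ orderOf (J * k) then 4 else 0 := by
      intro k
      by_cases hk : IsConj k J
      · rw [if_pos hk, hΦ]
        by_cases h2 : 2 ∣ orderOf (J * k)
        · rw [if_pos ((hord k).2 h2), if_pos ⟨(hconj k).1 hk, h2⟩]
        · rw [if_neg (fun h => h2 ((hord k).1 h)), if_neg (fun h => h2 h.2)]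
      · rw [if_neg hk, if_neg (fun h => hk ((hconj k).2 h.1))]
    simp only [h1]
    rw [← Finset.sum_filter, Finset.sum_const, nsmul_eq_mul, ← hS]
    ring
  have hsplit : ∑ k : G, (if IsConj k J then 1 + (ε₁ : ℂ) * (χ₁ : G → ℂ) (k * J) + (ε₂ : ℂ) * (χ₂ : G → ℂ) (k * J) + (ε₃ : ℂ) * (χ₃ : G → ℂ) (k * J) else 0) =
      (∑ k : G, if IsConj k J then ((oneIrr G : IrrCharacter G) : G → ℂ) (k * J) else 0) +
      (ε₁ : ℂ) * (∑ k : G, if IsConj k J then (χ₁ : G → ℂ) (k * J) else 0) +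
      (ε₂ : ℂ) * (∑ k : G, if IsConj k J then (χ₂ : G → ℂ) (k * J) else 0) +
      (ε₃ : ℂ) * (∑ k : G, if IsConj k J then (χ₃ : G → ℂ) (k * J) else 0) := by
    rw [Finset.mul_sum, Finset.mul_sum, Finset.mul_sum, ← Finset.sum_add_distrib, ← Finset.sum_add_distrib, ← Finset.sum_add_distrib]
    refine Finset.sum_congr rfl fun k _ => ?_
    split_ifs
    · rfl
    · simp
  rw [sum_class_mul_char (oneIrr G).2, sum_class_mul_char χ₁.2, sum_class_mul_char χ₂.2, sum_class_mul_char χ₃.2] at hsplit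
  rw [hsum4] at hsplit
  simp only [centralChar] at hsplit
  rw [hval.1, hval.2.1, hval.2.2, ← coe_charDegree χ₁.2.isCharacter, ← coe_charDegree χ₂.2.isCharacter, ← coe_charDegree χ₃.2.isCharacter] at hsplit
  have hone1 : ((oneIrr G : IrrCharacter G) : G → ℂ) J = 1 := rfl
  have hone2 : ((oneIrr G : IrrCharacter G) : G → ℂ) 1 = 1 := rfl
  rw [hone1, hone2] at hsplit
  have hx1 : ((charDegree (χ₁ : G → ℂ) : ℕ) : ℂ) ≠ 0 := by exact_mod_cast charDegree_ne_zero χ₁.2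
  have hx2 : ((charDegree (χ₂ : G → ℂ) : ℕ) : ℂ) ≠ 0 := by exact_mod_cast charDegree_ne_zero χ₂.2
  have hx3 : ((charDegree (χ₃ : G → ℂ) : ℕ) : ℂ) ≠ 0 := by exact_mod_cast charDegree_ne_zero χ₃.2
  have hrel := v4_count hV hone P hJP hJ
  refine ⟨S, hrel, ?_, ?_, ?_, ?_, ?_⟩
  · have hC : (4 : ℂ) * S * ((charDegree (χ₁ : G → ℂ) : ℂ) * charDegree (χ₂ : G → ℂ) * charDegree (χ₃ : G → ℂ)) =
        ((Subgroup.centralizer ({J} : Set G)).index : ℂ) *
          ((charDegree (χ₁ : G → ℂ) : ℂ) * charDegree (χ₂ : G → ℂ) * charDegree (χ₃ : G → ℂ) +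
            ε₁ * charDegree (χ₂ : G → ℂ) * charDegree (χ₃ : G → ℂ) +
            ε₂ * charDegree (χ₁ : G → ℂ) * charDegree (χ₃ : G → ℂ) +
            ε₃ * charDegree (χ₁ : G → ℂ) * charDegree (χ₂ : G → ℂ)) := by
      rw [hsplit]
      field_simp
      linear_combination ((Subgroup.centralizer ({J} : Set G)).index : ℂ) * ((ε₁ : ℂ) * (charDegree (χ₂ : G → ℂ) : ℂ) * (charDegree (χ₃ : G → ℂ) : ℂ) * (hs1) + (ε₂ : ℂ) * (charDegree (χ₁ : G → ℂ) : ℂ) * (charDegree (χ₃ : G → ℂ) : ℂ) * (hs2) + (ε₃ : ℂ) * (charDegree (χ₁ : G → ℂ) : ℂ) * (charDegree (χ₂ : G → ℂ) : ℂ) * (hs3))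
    exact_mod_cast hC
  · have h := hΦ 1
    rw [if_neg (by simp), ← coe_charDegree χ₁.2.isCharacter, ← coe_charDegree χ₂.2.isCharacter, ← coe_charDegree χ₃.2.isCharacter] at h
    exact_mod_cast h
  · have := hdeg _ hz1
    rwa [hde1] at this
  · have := hdeg _ hz2
    rwa [hde2] at this
  · have := hdeg _ hz3
    rwa [hde3] at this

end Order

section NoComp

variable {G : Type u} [Group G] [Finite G]

theorem four_elems (Q : Subgroup G) (hQ : Nat.card Q = 4) {a b c d x : G} (ha : a ∈ Q) (hb : b ∈ Q) (hc : c ∈ Q) (hd : d ∈ Q)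
    (hab : a ≠ b) (hac : a ≠ c) (had : a ≠ d) (hbc : b ≠ c) (hbd : b ≠ d) (hcd : c ≠ d) (hx : x ∈ Q) :
    x = a ∨ x = b ∨ x = c ∨ x = d := by
  classical
  letI : Fintype Q := Fintype.ofFinite _
  let S : Finset Q := {⟨a, ha⟩, ⟨b, hb⟩, ⟨c, hc⟩, ⟨d, hd⟩}
  have hScard : S.card = 4 := by
    rw [Finset.card_insert_of_notMem, Finset.card_insert_of_notMem, Finset.card_insert_of_notMem, Finset.card_singleton]
    · simp only [Finset.mem_singleton, Subtype.mk.injEq]
      exact hcd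
    · simp only [Finset.mem_insert, Finset.mem_singleton, Subtype.mk.injEq, not_or]
      exact ⟨hbc, hbd⟩
    · simp only [Finset.mem_insert, Finset.mem_singleton, Subtype.mk.injEq, not_or]
      exact ⟨hab, hac, had⟩
  have hcard : Fintype.card Q = 4 := by
    rw [← Nat.card_eq_fintype_card]
    exact hQ
  have hS : S = Finset.univ := Finset.eq_univ_of_card _ (by rw [hScard, hcard])
  have hmem : (⟨x, hx⟩ : Q) ∈ S := by rw [hS]; exact Finset.mem_univ _
  simp only [S, Finset.mem_insert, Finset.mem_singleton, Subtype.mk.injEq] at hmem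
  exact hmem

theorem v4_of_no_complement {g₀ : ℕ} (hg₀ : Odd g₀) (hG : Nat.card G = 4 * g₀)
    (hnc : ¬ ∃ N : Subgroup G, N.Normal ∧ Nat.card N = g₀) :
    V4S G ∧ ∀ s t : G, orderOf s = 2 → orderOf t = 2 → IsConj s t := by
  classical
  haveI : Fact (Nat.Prime 2) := ⟨Nat.prime_two⟩
  let P : Sylow 2 G := default
  have hg₀0 : g₀ ≠ 0 := by
    rintro rfl
    simp at hg₀
  have hPcard : Nat.card P = 4 := by
    rw [Sylow.card_eq_multiplicity, hG, Nat.factorization_mul (by norm_num) hg₀0]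
    have h1 : (4 : ℕ).factorization 2 = 2 := by
      have : (4 : ℕ) = 2 ^ 2 := rfl
      rw [this, Nat.Prime.factorization_pow Nat.prime_two]
      simp
    have h2 : g₀.factorization 2 = 0 := Nat.factorization_eq_zero_of_not_dvd hg₀.not_two_dvd_nat
    simp [h1, h2]
  have hPidx : (P : Subgroup G).index = g₀ := by
    have h1 := Subgroup.card_mul_index (P : Subgroup G)
    have h2 : Nat.card (P : Subgroup G) = 4 := hPcard
    rw [h2, hG] at h1
    exact Nat.eq_of_mul_eq_mul_left (by norm_num) h1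
  have hcrit : ¬ ∀ Q : Subgroup G, Q ≤ (P : Subgroup G) → ∀ g ∈ Subgroup.normalizer (Q : Set G), Nat.Coprime (orderOf g) 2 →
      g ∈ Subgroup.centralizer (Q : Set G) := by
    intro h
    obtain ⟨N, hn, hN⟩ := (CfsgLib.Trans.frobenius_criterion P).2 h
    exact hnc ⟨N, hn, by rw [(CfsgLib.Trans.card_index_of_complement P N hN).1, hPidx]⟩
  push Not at hcrit
  obtain ⟨Q, hQ, g, hg, hcop, hgn⟩ := hcrit
  rw [Subgroup.mem_centralizer_iff] at hgn
  push Not at hgn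
  obtain ⟨a, haQ, hag⟩ := hgn
  have hN : ∀ x ∈ Q, g * x * g⁻¹ ∈ Q := fun x hx => (Subgroup.mem_normalizer_iff.1 hg x).1 hx
  set b := g * a * g⁻¹ with hb
  set c := g * b * g⁻¹ with hc
  have hbQ : b ∈ Q := hN a haQ
  have hcQ : c ∈ Q := hN b hbQ
  have hba : b ≠ a := by
    intro h
    apply hag
    rw [hb, mul_inv_eq_iff_eq_mul] at h
    exact h.symm
  have hcb : c ≠ b := by
    intro h
    apply hba
    have h2 : g * b = g * a := by
      rw [hc, mul_inv_eq_iff_eq_mul, hb] at h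
      rw [h]
      group
    exact mul_left_cancel h2
  have hca : c ≠ a := by
    intro h
    apply hag
    have h2 : Commute (g * g) a := by
      show g * g * a = a * (g * g)
      have h3 : g * g * a * (g * g)⁻¹ = c := by
        rw [hc, hb]
        group
      rwa [h, mul_inv_eq_iff_eq_mul] at h3
    obtain ⟨m, hm⟩ : Odd (orderOf g) := Nat.Coprime.odd_of_right hcop
    have h4 : g ^ (2 * m + 1) = 1 := by rw [← hm]; exact pow_orderOf_eq_one g
    have h3 : (g * g) ^ (m + 1) = g := by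
      calc (g * g) ^ (m + 1) = g ^ (2 * m + 1) * g := by
            rw [← pow_two, ← pow_mul, ← pow_succ]
            rfl
        _ = g := by rw [h4, one_mul]
    have h5 : Commute g a := by
      have := h2.pow_left (m + 1)
      rwa [h3] at this
    exact h5.symm
  have ha1 : a ≠ 1 := by
    rintro rfl
    apply hag
    simp
  have hb1 : b ≠ 1 := by
    intro h
    apply ha1
    rw [hb, mul_inv_eq_iff_eq_mul, one_mul] at h
    simpa using h
  have hc1 : c ≠ 1 := by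
    intro h
    apply hb1
    rw [hc, mul_inv_eq_iff_eq_mul, one_mul] at h
    simpa using h
  have hfour : ∀ x ∈ (P : Subgroup G), x = 1 ∨ x = a ∨ x = b ∨ x = c := by
    intro x hx
    exact four_elems (P : Subgroup G) hPcard (P : Subgroup G).one_mem (hQ haQ) (hQ hbQ) (hQ hcQ) ha1.symm hb1.symm hc1.symm
      hba.symm hca.symm hcb.symm hx
  have hab : IsConj a b := isConj_iff.2 ⟨g, rfl⟩
  have hbc : IsConj b c := isConj_iff.2 ⟨g, rfl⟩
  have hoa : orderOf b = orderOf a := by rw [hb, orderOf_conj']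
  have hoc : orderOf c = orderOf a := by rw [hc, orderOf_conj', hoa]
  obtain ⟨t, ht⟩ := exists_prime_orderOf_dvd_card' (G := (P : Subgroup G)) 2 (by
    have h2 : Nat.card (P : Subgroup G) = 4 := hPcard
    rw [h2]
    norm_num)
  have ht' : orderOf (t : G) = 2 := by simpa using ht
  have hoa2 : orderOf a = 2 := by
    rcases hfour t t.2 with h | h | h | h
    · rw [h] at ht'
      simp at ht'
    · rwa [h] at ht'
    · rwa [h, hoa] at ht'
    · rwa [h, hoc] at ht'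
  have hord : ∀ x ∈ (P : Subgroup G), x * x = 1 := by
    intro x hx
    rcases hfour x hx with h | h | h | h
    · rw [h, one_mul]
    · rw [h]; exact sq_of_order_two hoa2
    · rw [h]; exact sq_of_order_two (hoa.trans hoa2)
    · rw [h]; exact sq_of_order_two (hoc.trans hoa2)
  have hV : V4S G := V4S.of_sylow P hPcard (fun x => Subtype.ext (hord x x.2))
  refine ⟨hV, ?_⟩
  have hconj : ∀ s : G, orderOf s = 2 → IsConj s a := by
    intro s hs
    obtain ⟨R, hR⟩ := exists_sylow_mem (g := s) (k := 1) (by rw [hs]; rfl)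
    obtain ⟨d, hd⟩ := MulAction.exists_smul_eq G P R
    have h1 : d⁻¹ * s * d ∈ (P : Subgroup G) := by
      rw [← hd] at hR
      exact mem_smul_sylow d hR
    have h2 : IsConj s (d⁻¹ * s * d) := isConj_iff.2 ⟨d⁻¹, by simp⟩
    rcases hfour _ h1 with h | h | h | h
    · exfalso
      apply ne_one_of_order_two hs
      have h3 : d * (d⁻¹ * s * d) * d⁻¹ = s := by group
      rw [← h3, h]
      group
    · rw [h] at h2
      exact h2
    · rw [h] at h2
      exact h2.trans hab.symm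
    · rw [h] at h2
      exact h2.trans (hab.trans hbc).symm
  intro s t hs ht
  exact (hconj s hs).trans (hconj t ht).symm

end NoComp

section Real

variable {G : Type u} [Group G] [Fintype G] {M : Ideal AlgInt} (hM : IsPModular 2 M)

omit hM in
theorem centralChar_one_inv (g : G) :
    centralChar ((oneIrr G : IrrCharacter G) : G → ℂ) g⁻¹ = centralChar ((oneIrr G : IrrCharacter G) : G → ℂ) g := by
  have hc : Subgroup.centralizer ({g⁻¹} : Set G) = Subgroup.centralizer ({g} : Set G) := by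
    ext x
    rw [Subgroup.mem_centralizer_singleton_iff, Subgroup.mem_centralizer_singleton_iff]
    constructor
    · intro h
      have h2 : Commute x g⁻¹ := h
      have h3 : Commute x g⁻¹⁻¹ := h2.inv_right
      rw [inv_inv] at h3
      exact h3
    · intro h
      have h2 : Commute x g := h
      exact h2.inv_right
  simp only [centralChar]
  rw [hc]
  rfl

omit hM in
theorem star_mem_principal {χ : IrrCharacter G} (hχ : χ ∈ principalBlock M G) : starIrr χ ∈ principalBlock M G := by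
  have h1 : SameBlock M ((oneIrr G : IrrCharacter G) : G → ℂ) (χ : G → ℂ) := hχ
  show SameBlock M ((oneIrr G : IrrCharacter G) : G → ℂ) ((starIrr χ : IrrCharacter G) : G → ℂ)
  intro g
  have h2 := h1 g⁻¹
  rw [centralChar_star, ← centralChar_one_inv]
  exact h2

omit hM in
theorem sqRoots_singular (hV : V4S G) {y : G} (hy : 2 ∣ orderOf y) : sqRoots y = 0 := by
  classical
  haveI : Fact (Nat.Prime 2) := ⟨Nat.prime_two⟩
  unfold sqRoots
  have h : Finset.univ.filter (fun u : G => u * u = y) = ∅ := by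
    rw [Finset.filter_eq_empty_iff]
    rintro u - rfl
    have h1 := hV.sq _ (orderOf_pPart (p := 2) u)
    have hc := commute_pPart_pReg (p := 2) u
    have hm := pPart_mul_pReg (p := 2) u
    have h2 : u * u = pReg 2 u * pReg 2 u := by
      calc u * u = (pPart 2 u * pReg 2 u) * (pPart 2 u * pReg 2 u) := by rw [hm]
        _ = pPart 2 u * (pReg 2 u * pPart 2 u) * pReg 2 u := by group
        _ = pPart 2 u * (pPart 2 u * pReg 2 u) * pReg 2 u := by rw [hc.eq]
        _ = (pPart 2 u * pPart 2 u) * (pReg 2 u * pReg 2 u) := by group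
        _ = pReg 2 u * pReg 2 u := by rw [h1, one_mul]
    have h3 : orderOf (u * u) ∣ orderOf (pReg 2 u) := by
      rw [h2, ← pow_two]
      exact orderOf_pow_dvd _
    exact not_dvd_orderOf_pReg (p := 2) u (hy.trans h3)
  rw [h]
  simp

include hM in
open Classical in
theorem v4_conj_pair (hV : V4S G) (hone : ∀ s t : G, orderOf s = 2 → orderOf t = 2 → IsConj s t) {J : G} (hJ : orderOf J = 2)
    {χ₁ χ₂ χ₃ : IrrCharacter G}
    (hB : principalBlock M G = {χ : IrrCharacter G | (χ : G → ℂ) = (fun _ => 1) ∨ χ = χ₁ ∨ χ = χ₂ ∨ χ = χ₃})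
    (hdist : (χ₁ : G → ℂ) ≠ (fun _ => 1) ∧ (χ₂ : G → ℂ) ≠ (fun _ => 1) ∧ (χ₃ : G → ℂ) ≠ (fun _ => 1) ∧ χ₁ ≠ χ₂ ∧ χ₁ ≠ χ₃ ∧ χ₂ ≠ χ₃)
    (hval₁ : (χ₁ : G → ℂ) J = 1) (hval₂ : (χ₂ : G → ℂ) J = 1) (hval₃ : (χ₃ : G → ℂ) J = -1) :
    charDegree (χ₁ : G → ℂ) = charDegree (χ₂ : G → ℂ) := by
  have hPr := hM.isPrime
  haveI : Fact (Nat.Prime 2) := ⟨Nat.prime_two⟩
  obtain ⟨d, hd0, hdpm, hcard, hval', hodd, horth, hdeg⟩ := v4_core hM hV hone hJ
  have hB₀ : IsPBlock M (principalBlock M G) := ⟨oneIrr G, rfl⟩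
  have h1' : ∀ χ : IrrCharacter G, χ = oneIrr G ↔ (χ : G → ℂ) = (fun _ => 1) := by
    intro χ
    constructor
    · rintro rfl
      rfl
    · intro h
      exact Subtype.ext h
  have hmem : ∀ χ, χ ∈ principalBlock M G ↔ χ = oneIrr G ∨ χ = χ₁ ∨ χ = χ₂ ∨ χ = χ₃ := by
    intro χ
    rw [hB, h1']
    rfl
  obtain ⟨hd1, hd2, hd3, h12, h13, h23⟩ := hdist
  have h11 : χ₁ ≠ oneIrr G := fun h => hd1 ((h1' _).1 h)
  have h21 : χ₂ ≠ oneIrr G := fun h => hd2 ((h1' _).1 h)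
  have h31 : χ₃ ≠ oneIrr G := fun h => hd3 ((h1' _).1 h)
  have hT : Finset.univ.filter (· ∈ principalBlock M G) = {oneIrr G, χ₁, χ₂, χ₃} := by
    ext χ
    simp only [Finset.mem_filter, Finset.mem_univ, true_and, Finset.mem_insert, Finset.mem_singleton]
    exact hmem χ
  have hz0 := (hmem (oneIrr G)).2 (Or.inl rfl)
  have hz1 := (hmem χ₁).2 (Or.inr (Or.inl rfl))
  have hz2 := (hmem χ₂).2 (Or.inr (Or.inr (Or.inl rfl)))
  have hz3 := (hmem χ₃).2 (Or.inr (Or.inr (Or.inr rfl)))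
  have h2J : 2 ∣ orderOf J := by rw [hJ]
  -- the indicator
  set ν : IrrCharacter G → ℂ := fun χ => (Nat.card G : ℂ)⁻¹ * ∑ s : G, (χ : G → ℂ) (s * s) with hν
  have hν01 : ∀ χ ∈ principalBlock M G, (ν χ = 0 ∧ ∃ s : G, ((χ : G → ℂ) s).im ≠ 0) ∨ (ν χ = 1 ∧ ∀ s : G, ((χ : G → ℂ) s).im = 0) := by
    intro χ hχ
    by_cases hr : ∀ s : G, ((χ : G → ℂ) s).im = 0
    · right
      refine ⟨?_, hr⟩
      apply fs_odd χ.2 hr (charDegree (χ : G → ℂ)) (coe_charDegree χ.2.isCharacter).symm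
      exact Nat.odd_iff.2 (by have := hodd χ hχ; omega)
    · left
      push Not at hr
      exact ⟨(fs_trichotomy χ.2).2.2 hr, hr⟩
  have hν1 : ν (oneIrr G) = 1 := by
    simp only [hν]
    have h : ∀ s : G, ((oneIrr G : IrrCharacter G) : G → ℂ) (s * s) = 1 := fun s => rfl
    simp only [h]
    rw [Finset.sum_const, nsmul_eq_mul, mul_one, Nat.card_eq_fintype_card, Finset.card_univ]
    exact inv_mul_cancel₀ (by exact_mod_cast Fintype.card_ne_zero)
  have hzero : proj (principalBlock M G) (sqRoots (G := G)) J = 0 :=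
    proj_eq_zero_of_singular hM hB₀ (fun x hx => sqRoots_singular hV hx) h2J
  rw [proj_apply, v4_sum_eq hM h11 h21 h31 h12 h13 h23 hT (fun θ => classInner (sqRoots (G := G)) (θ : G → ℂ) * (θ : G → ℂ) J)] at hzero
  rw [classInner_sqRoots, classInner_sqRoots, classInner_sqRoots, classInner_sqRoots, hval₁, hval₂, hval₃] at hzero
  have h0J : ((oneIrr G : IrrCharacter G) : G → ℂ) J = 1 := rfl
  rw [h0J] at hzero
  have hconj01 : ∀ χ ∈ principalBlock M G, conj (ν χ) = ν χ := by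
    intro χ hχ
    rcases hν01 χ hχ with h | h <;> rw [h.1] <;> simp
  have e0 : conj ((Nat.card G : ℂ)⁻¹ * ∑ s : G, ((oneIrr G : IrrCharacter G) : G → ℂ) (s * s)) = ν (oneIrr G) := hconj01 _ hz0
  have e1 : conj ((Nat.card G : ℂ)⁻¹ * ∑ s : G, (χ₁ : G → ℂ) (s * s)) = ν χ₁ := hconj01 _ hz1
  have e2 : conj ((Nat.card G : ℂ)⁻¹ * ∑ s : G, (χ₂ : G → ℂ) (s * s)) = ν χ₂ := hconj01 _ hz2
  have e3 : conj ((Nat.card G : ℂ)⁻¹ * ∑ s : G, (χ₃ : G → ℂ) (s * s)) = ν χ₃ := hconj01 _ hz3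
  rw [e0, e1, e2, e3, hν1] at hzero
  have hnr : ∃ s : G, ((χ₁ : G → ℂ) s).im ≠ 0 := by
    rcases hν01 χ₁ hz1 with h | h
    · exact h.2
    · exfalso
      rcases hν01 χ₂ hz2 with h2 | h2 <;> rcases hν01 χ₃ hz3 with h3 | h3 <;> rw [h.1, h2.1, h3.1] at hzero <;> norm_num at hzero
  -- complex conjugation
  have hs := star_mem_principal hz1
  have hsJ : ((starIrr χ₁ : IrrCharacter G) : G → ℂ) J = 1 := by
    show conj ((χ₁ : G → ℂ) J) = 1
    rw [hval₁]
    simp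
  rcases (hmem _).1 hs with h | h | h | h
  · exfalso
    apply h11
    apply Subtype.ext
    funext g
    have h3 := congrFun (congrArg Subtype.val h) g
    have h4 : conj ((χ₁ : G → ℂ) g) = 1 := h3
    have h5 := congrArg conj h4
    rw [Complex.conj_conj] at h5
    rw [h5]
    simp
    rfl
  · exfalso
    obtain ⟨s, hs'⟩ := hnr
    apply hs'
    have h3 := congrFun (congrArg Subtype.val h) s
    have h4 : conj ((χ₁ : G → ℂ) s) = (χ₁ : G → ℂ) s := h3
    exact Complex.conj_eq_iff_im.1 h4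
  · have h3 := congrFun (congrArg Subtype.val h) 1
    have h4 : conj ((χ₁ : G → ℂ) 1) = (χ₂ : G → ℂ) 1 := h3
    rw [conj_irr_one χ₁.2, ← coe_charDegree χ₁.2.isCharacter, ← coe_charDegree χ₂.2.isCharacter] at h4
    exact_mod_cast h4
  · exfalso
    rw [h, hval₃] at hsJ
    norm_num at hsJ

end Real

end CfsgLib.Block
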